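import Cfsg.Agent.H9.CentInv
import Mathlib.GroupTheory.SpecificGroups.Alternating.Simple

set_option autoImplicit false
set_option linter.unusedSectionVars false
set_option linter.style.haveILetI false
set_option linter.unusedVariables false
set_option linter.unusedSimpArgs false

/-! Simple groups of order 504 and 4080. -/

namespace Cfsg.Agent.H9.CentInv

open Subgroup MulAction
open Cfsg.Agent.H9.O168 (exists_sylow_eq_zpowers card_conj_class card_order_prime)

section general
variable {G : Type*} [Group G] [Finite G]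

/-- the order of the centralizer of an element of order `p` -/
theorem card_centralizer_of_order {p : ℕ} [Fact p.Prime] {m L : ℕ} (hc : Nat.card G = p ^ 1 * m) (hm : ¬ p ∣ m)
    (hset : ∀ P : Sylow p G, ∃ e pw, Exc.Setup G p (P : Subgroup G) L e pw) {x : G} (hx : orderOf x = p) :
    Nat.card (centralizer {x}) = p * L := by
  obtain ⟨P, hP⟩ := exists_sylow_eq_zpowers hc hm hx
  obtain ⟨e, pw, h⟩ := hset P
  have h1 : Nat.card (centralizer ((P : Subgroup G) : Set G)) = p * L := h.hL
  rwa [hP, O168.centralizer_zpowers'] at h1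

/-- commuting elements of coprime orders -/
theorem not_dvd_centralizer {p r : ℕ} [Fact p.Prime] [Fact r.Prime] {n : ℕ}
    (hC : ∀ x : G, orderOf x = p → Nat.card (centralizer {x}) = n) (hr : ¬ r ∣ n) {z : G} (hz : orderOf z = r) :
    ¬ p ∣ Nat.card (centralizer {z}) := by
  intro hd
  obtain ⟨w, hw⟩ := exists_prime_orderOf_dvd_card' p hd
  have hwo : orderOf (w : G) = p := (orderOf_coe w).trans hw
  have hzw : z ∈ centralizer {(w : G)} := by
    rw [mem_centralizer_singleton_iff]
    exact (mem_centralizer_singleton_iff.mp w.2).symm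
  apply hr
  rw [← hC _ hwo]
  have : orderOf (⟨z, hzw⟩ : centralizer {(w : G)}) ∣ Nat.card (centralizer {(w : G)}) := orderOf_dvd_natCard _
  rwa [orderOf_mk, hz] at this

end general

section o504
variable {G : Type*} [Group G] [Finite G] [IsSimpleGroup G] (h : Nat.card G = 504)
include h

theorem nc504 : ¬ IsMulCommutative G := Simple.not_comm_of_not_prime (by rw [h]; norm_num)

theorem n7_504 : Nat.card (Sylow 7 G) = 36 := by
  haveI : Fact (Nat.Prime 7) := ⟨by norm_num⟩
  obtain ⟨P⟩ : Nonempty (Sylow 7 G) := inferInstance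
  have h1 := Sieve.possC_true (nc504 h) (p := 7) (k := 1) (m := 72) h (by norm_num) (by norm_num) (by norm_num)
  have h2 := Syl.card_sylow_dvd_of_card P (k := 1) (m := 72) (by rw [h]; norm_num) (by norm_num)
  have h3 : Nat.card (Sylow 7 G) ≤ 72 := Nat.le_of_dvd (by norm_num) h2
  have h4 : (List.range 73).all (fun s => !(Sieve.possC 504 7 1 72 s) || !(s % 7 == 1) || s == 36) = true := by
    decide +kernel
  have h5 := List.all_eq_true.mp h4 _ (List.mem_range.mpr (Nat.lt_succ_of_le h3))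
  have h6 : Nat.card (Sylow 7 G) % 7 = 1 := card_sylow_modEq_one 7 G
  rw [h1, h6] at h5
  simpa using h5

theorem setup7_504 (P : Sylow 7 G) : ∃ pw, Exc.Setup G 7 (P : Subgroup G) 1 2 pw := by
  haveI : Fact (Nat.Prime 7) := ⟨by norm_num⟩
  letI : Fintype G := Fintype.ofFinite G
  obtain ⟨e, L, pw, he, he1, hLe, hset⟩ := Exc.exists_setup (nc504 h) P (m := 72) (s := 36) (Q := 2) (by rw [h]) (by norm_num)
    (n7_504 h) (by norm_num)
  have h1 : e = 2 := ((Nat.dvd_prime Nat.prime_two).mp (Dvd.intro_left L hLe)).resolve_left he1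
  subst h1
  have h2 : L = 1 := by omega
  subst h2
  exact ⟨pw, hset⟩

theorem card_centralizer_504 {z : G} (hz : orderOf z = 2) : Nat.card (centralizer {z}) = 8 := by
  haveI : Fact (Nat.Prime 7) := ⟨by norm_num⟩
  letI : Fintype G := Fintype.ofFinite G
  obtain ⟨P⟩ : Nonempty (Sylow 7 G) := inferInstance
  obtain ⟨pw, hset⟩ := setup7_504 h P
  have hC7 : ∀ x : G, orderOf x = 7 → Nat.card (centralizer {x}) = 7 * 1 := fun x hx =>
    card_centralizer_of_order (m := 72) (by rw [h]; norm_num) (by norm_num) (fun P => by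
      obtain ⟨pw, hset⟩ := setup7_504 h P
      exact ⟨2, pw, hset⟩) hx
  have h7 := not_dvd_centralizer hC7 (by norm_num : ¬ 2 ∣ 7 * 1) hz
  by_contra hne
  have h1 : Nat.card (centralizer {z}) ∣ 504 := by rw [← h]; exact card_subgroup_dvd_card _
  have hz1 : z ≠ 1 := by
    intro h1
    rw [h1, orderOf_one] at hz
    omega
  have h2 := Exc.card_centralizer_le_half (nc504 h) hz1
  rw [h] at h2
  have h3 : Nat.card (centralizer {z}) % 2 = 0 := by
    have hzz : z ∈ centralizer ({z} : Set G) := by rw [mem_centralizer_singleton_iff]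
    have h4 : orderOf (⟨z, hzz⟩ : centralizer ({z} : Set G)) ∣ Nat.card (centralizer ({z} : Set G)) := orderOf_dvd_natCard _
    rw [orderOf_mk, hz] at h4
    exact Nat.mod_eq_zero_of_dvd h4
  have h4 : (List.range 253).all (fun K => (K == 8) || !(504 % K == 0) || !(K % 2 == 0) || (K % 7 == 0) || K == 0 ||
    Exc.killY 504 7 2 1 K 4 24) = true := by decide +kernel
  have h5 := List.all_eq_true.mp h4 _ (List.mem_range.mpr (by omega : Nat.card (centralizer {z}) < 253))
  have h6 := Nat.mod_eq_zero_of_dvd h1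
  have h8 : ¬ Nat.card (centralizer {z}) % 7 = 0 := fun h9 => h7 (Nat.dvd_of_mod_eq_zero h9)
  have h9 : Nat.card (centralizer {z}) ≠ 0 := Nat.card_pos.ne'
  rw [h3, h6, beq_eq_false_iff_ne.mpr hne, beq_eq_false_iff_ne.mpr h8, beq_eq_false_iff_ne.mpr h9] at h5
  have h10 : Exc.killY 504 7 2 1 (Nat.card (centralizer {z})) 4 24 = true := by simpa using h5
  rw [← h] at h10
  exact hset.killY_sound (nc504 h) (by norm_num) (by norm_num) hz (Or.inl rfl) h10

theorem n3_504 : Nat.card (Sylow 3 G) = 28 := by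
  haveI : Fact (Nat.Prime 3) := ⟨by norm_num⟩
  obtain ⟨P⟩ : Nonempty (Sylow 3 G) := inferInstance
  have h1 := Sieve.possC_true (nc504 h) (p := 3) (k := 2) (m := 56) h (by norm_num) (by norm_num) (by norm_num)
  have h2 := Syl.card_sylow_dvd_of_card P (k := 2) (m := 56) (by rw [h]; norm_num) (by norm_num)
  have h3 : Nat.card (Sylow 3 G) ≤ 56 := Nat.le_of_dvd (by norm_num) h2
  have h4 : (List.range 57).all (fun s => !(Sieve.possC 504 3 2 56 s) || !(s % 3 == 1) || s == 7 || s == 28) = true := by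
    decide +kernel
  have h5 := List.all_eq_true.mp h4 _ (List.mem_range.mpr (Nat.lt_succ_of_le h3))
  have h6 : Nat.card (Sylow 3 G) % 3 = 1 := card_sylow_modEq_one 3 G
  rw [h1, h6] at h5
  have h7 : Nat.card (Sylow 3 G) = 7 ∨ Nat.card (Sylow 3 G) = 28 := by simpa using h5
  rcases h7 with h7 | h7
  · exfalso
    -- an index 7 subgroup
    have hidx : (normalizer ((P : Subgroup G) : Set G)).index = 7 := by rw [← Syl.card_sylow_eq_index, h7]
    have hne := Simple.normalizer_ne_top (nc504 h) (by rw [h]; norm_num) P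
    obtain ⟨f, hf⟩ : ∃ f : G →* alternatingGroup (Fin 7), Function.Injective f := by
      have h8 := Simple.simple_embeds (nc504 h) hne
      rwa [hidx] at h8
    haveI : IsSimpleGroup (alternatingGroup (Fin 7)) := alternatingGroup.isSimpleGroup (by simp)
    have hA : Nat.card (alternatingGroup (Fin 7)) = 2520 := by
      have h8 : 2 * Nat.card (alternatingGroup (Fin 7)) = (Nat.card (Fin 7)).factorial := by
        rw [Nat.card_eq_fintype_card, Nat.card_eq_fintype_card, two_mul_card_alternatingGroup, Fintype.card_perm]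
      rw [Nat.card_fin] at h8
      have : (7).factorial = 5040 := by decide
      omega
    have hAnc : ¬ IsMulCommutative (alternatingGroup (Fin 7)) := Simple.not_comm_of_not_prime (by rw [hA]; norm_num)
    have hR : Nat.card f.range = 504 := by
      rw [← h]; exact (Nat.card_congr (MonoidHom.ofInjective hf).toEquiv).symm
    have hRi : f.range.index = 5 := by
      have := f.range.card_mul_index
      rw [hR, hA] at this
      omega
    have hRt : f.range ≠ ⊤ := by
      intro h8
      rw [h8, index_top] at hRi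
      omega
    have h8 := Simple.two_mul_card_dvd_factorial hAnc hRt
    rw [hRi, hA] at h8
    revert h8; decide
  · exact h7

theorem hC7_504 {x : G} (hx : orderOf x = 7) : Nat.card (centralizer {x}) = 7 := by
  haveI : Fact (Nat.Prime 7) := ⟨by norm_num⟩
  have := card_centralizer_of_order (m := 72) (L := 1) (by rw [h]; norm_num) (by norm_num) (fun P => by
      obtain ⟨pw, hset⟩ := setup7_504 h P
      exact ⟨2, pw, hset⟩) hx
  omega

theorem two_elements_504 : Nat.card {g : G // g ≠ 1 ∧ ∃ k : ℕ, g ^ 2 ^ k = 1} ≤ 63 := by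
  haveI : Fact (Nat.Prime 7) := ⟨by norm_num⟩
  haveI : Fact (Nat.Prime 3) := ⟨by norm_num⟩
  have h7 : Nat.card {g : G // orderOf g = 7} = 216 := by
    rw [card_order_prime (p := 7) (m := 72) (by rw [h]; norm_num) (by norm_num), n7_504 h]
  have hq : ∀ P : Sylow 3 G, Nat.card (P : Subgroup G) = 9 := fun P =>
    Syl.card_sylow_of_card P (k := 2) (m := 56) (by rw [h]; norm_num) (by norm_num)
  -- centralizers of 3-elements
  have hC3 : ∀ P : Sylow 3 G, ∀ g : G, g ≠ 1 → g ∈ (P : Subgroup G) → centralizer {g} = (P : Subgroup G) := by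
    intro P g hg1 hgP
    have hg9 : orderOf g ∣ 9 := by
      have h8 : orderOf (⟨g, hgP⟩ : (P : Subgroup G)) ∣ Nat.card (P : Subgroup G) := orderOf_dvd_natCard _
      rwa [hq P, orderOf_mk] at h8
    have hle : (P : Subgroup G) ≤ centralizer {g} := by
      intro y hy
      rw [mem_centralizer_singleton_iff]
      have := isMulCommutative_iff.mp (IsPGroup.isMulCommutative_of_card_eq_prime_sq (p := 3) (G := (P : Subgroup G)) (by
        rw [hq P]; norm_num)) ⟨y, hy⟩ ⟨g, hgP⟩
      exact congrArg Subtype.val this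
    have key : ∀ r n : ℕ, r.Prime → Nat.Coprime n 9 → (∀ x : G, orderOf x = r → Nat.card (centralizer {x}) = n) →
        ¬ r ∣ Nat.card (centralizer {g}) := by
      intro r n hr hn hC hd
      haveI := Fact.mk hr
      obtain ⟨w, hw⟩ := exists_prime_orderOf_dvd_card' r hd
      have hwo : orderOf (w : G) = r := (orderOf_coe w).trans hw
      have hzw : g ∈ centralizer {(w : G)} := by
        rw [mem_centralizer_singleton_iff]
        exact (mem_centralizer_singleton_iff.mp w.2).symm
      have h8 : orderOf (⟨g, hzw⟩ : centralizer {(w : G)}) ∣ Nat.card (centralizer {(w : G)}) := orderOf_dvd_natCard _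
      rw [orderOf_mk, hC _ hwo] at h8
      have h9 := Nat.dvd_gcd h8 hg9
      rw [hn] at h9
      exact hg1 (orderOf_eq_one_iff.mp (Nat.dvd_one.mp h9))
    have k7 := key 7 7 (by norm_num) (by norm_num) (fun x hx => hC7_504 h hx)
    have k2 := key 2 8 (by norm_num) (by norm_num) (fun x hx => card_centralizer_504 h hx)
    have h8 : Nat.card (centralizer {g}) ∣ 504 := by rw [← h]; exact card_subgroup_dvd_card _
    have h9 : Nat.card (centralizer {g}) ∣ 9 := by
      have c1 : Nat.Coprime (Nat.card (centralizer {g})) (2 ^ 3) := ((Nat.Prime.coprime_iff_not_dvd (by norm_num)).mpr k2).symm.pow_right 3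
      have c2 : Nat.Coprime (Nat.card (centralizer {g})) 7 := ((Nat.Prime.coprime_iff_not_dvd (by norm_num)).mpr k7).symm
      rw [show 504 = 9 * (2 ^ 3 * 7) by norm_num] at h8
      exact (c1.mul_right c2).dvd_of_dvd_mul_right h8
    symm
    apply eq_of_le_of_card_ge hle
    rw [hq P]; exact Nat.le_of_dvd (by norm_num) h9
  have h3 : Nat.card {g : G // g ≠ 1 ∧ ∃ k : ℕ, g ^ 3 ^ k = 1} = 224 := by
    rw [card_pelements hq (fun P Q g hg1 hgP hgQ => Sylow.ext (by rw [← hC3 P g hg1 hgP, ← hC3 Q g hg1 hgQ])), n3_504 h]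
  have h1 : Nat.card {g : G // g = 1} = 1 := by
    rw [Nat.card_eq_one_iff_unique]
    exact ⟨⟨fun x y => Subtype.ext (x.2.trans y.2.symm)⟩, ⟨⟨1, rfl⟩⟩⟩
  have e1 := card_add_le (α := G) (p := fun g => g ≠ 1 ∧ ∃ k : ℕ, g ^ 2 ^ k = 1) (q := fun g => g ≠ 1 ∧ ∃ k : ℕ, g ^ 3 ^ k = 1) (by
    rintro g ⟨hg1, k, hk⟩ ⟨-, j, hj⟩
    have h8 := Nat.dvd_gcd (orderOf_dvd_of_pow_eq_one hk) (orderOf_dvd_of_pow_eq_one hj)
    have h9 : Nat.gcd (2 ^ k) (3 ^ j) = 1 := Nat.Coprime.pow _ _ (by norm_num)
    rw [h9] at h8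
    exact hg1 (orderOf_eq_one_iff.mp (Nat.dvd_one.mp h8)))
  have e2 := card_add_le (α := G) (p := fun g => (g ≠ 1 ∧ ∃ k : ℕ, g ^ 2 ^ k = 1) ∨ (g ≠ 1 ∧ ∃ k : ℕ, g ^ 3 ^ k = 1))
    (q := fun g => orderOf g = 7) (by
    rintro g (⟨hg1, k, hk⟩ | ⟨hg1, k, hk⟩) hg7
    · have h8 := orderOf_dvd_of_pow_eq_one hk
      rw [hg7] at h8
      have := (Nat.Prime.dvd_of_dvd_pow (by norm_num) h8 : 7 ∣ 2)
      revert this; decide
    · have h8 := orderOf_dvd_of_pow_eq_one hk
      rw [hg7] at h8
      have := (Nat.Prime.dvd_of_dvd_pow (by norm_num) h8 : 7 ∣ 3)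
      revert this; decide)
  have e3 := card_add_le (α := G) (p := fun g => ((g ≠ 1 ∧ ∃ k : ℕ, g ^ 2 ^ k = 1) ∨ (g ≠ 1 ∧ ∃ k : ℕ, g ^ 3 ^ k = 1)) ∨ orderOf g = 7)
    (q := fun g => g = 1) (by
    rintro g ((⟨hg1, -⟩ | ⟨hg1, -⟩) | hg7) rfl
    · exact hg1 rfl
    · exact hg1 rfl
    · rw [orderOf_one] at hg7; omega)
  have e4 := card_le (α := G) (fun g => (((g ≠ 1 ∧ ∃ k : ℕ, g ^ 2 ^ k = 1) ∨ (g ≠ 1 ∧ ∃ k : ℕ, g ^ 3 ^ k = 1)) ∨ orderOf g = 7) ∨ g = 1)
  rw [← e3, ← e2, ← e1, h1, h3, h7, h] at e4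
  omega

theorem psl_504 {F : Type*} [Field F] [Fintype F] (hF : Fintype.card F = 8) :
    Nonempty (G ≃* Matrix.ProjectiveSpecialLinearGroup (Fin 2) F) := by
  obtain ⟨T⟩ : Nonempty (Sylow 2 G) := inferInstance
  have hT : Nat.card (T : Subgroup G) = 8 := Syl.card_sylow_of_card T (k := 3) (m := 63) (by rw [h]; norm_num) (by norm_num)
  obtain ⟨z, hz⟩ := exists_prime_orderOf_dvd_card' (G := G) 2 (by rw [h]; norm_num)
  refine iso_psl (nc504 h) T (by rw [hT]; norm_num) (fun z hz => by rw [hT, card_centralizer_504 h hz]) (fun g hg => ?_)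
    (by rw [hF, hT])
  by_cases hg1 : g = 1
  · rw [hg1, one_pow]
  · have h1 := exponent_of_count hz (m := 63) (by rw [card_centralizer_504 h hz, h]) (two_elements_504 h) hg1 hg
    obtain ⟨c, hc⟩ := isConj_iff.mp h1
    rw [← hc, conj_pow, ← hz, pow_orderOf_eq_one]
    group

end o504

end Cfsg.Agent.H9.CentInv
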