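import Cfsg.Agent.H9.CentInv2

set_option autoImplicit false
set_option linter.unusedSectionVars false
set_option linter.style.haveILetI false
set_option linter.unusedVariables false
set_option linter.unusedSimpArgs false

/-! Simple groups of order 4080. -/

namespace Cfsg.Agent.H9.CentInv

open Subgroup MulAction
open Cfsg.Agent.H9.O168 (exists_sylow_eq_zpowers card_conj_class card_order_prime)

variable {G : Type*} [Group G] [Finite G] [IsSimpleGroup G] (h : Nat.card G = 4080)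
include h

theorem nc4080 : ¬ IsMulCommutative G := Simple.not_comm_of_not_prime (by rw [h]; norm_num)

theorem n17_4080 : Nat.card (Sylow 17 G) = 120 := by
  haveI : Fact (Nat.Prime 17) := ⟨by norm_num⟩
  obtain ⟨P⟩ : Nonempty (Sylow 17 G) := inferInstance
  have h1 := Sieve.possC_true (nc4080 h) (p := 17) (k := 1) (m := 240) h (by norm_num) (by norm_num) (by norm_num)
  have h2 := Syl.card_sylow_dvd_of_card P (k := 1) (m := 240) (by rw [h]; norm_num) (by norm_num)
  have h3 : Nat.card (Sylow 17 G) ≤ 240 := Nat.le_of_dvd (by norm_num) h2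
  have h4 : (List.range 241).all (fun s => !(Sieve.possC 4080 17 1 240 s) || !(s % 17 == 1) || s == 120) = true := by
    decide +kernel
  have h5 := List.all_eq_true.mp h4 _ (List.mem_range.mpr (Nat.lt_succ_of_le h3))
  have h6 : Nat.card (Sylow 17 G) % 17 = 1 := card_sylow_modEq_one 17 G
  rw [h1, h6] at h5
  simpa using h5

theorem setup17_4080 (P : Sylow 17 G) : ∃ pw, Exc.Setup G 17 (P : Subgroup G) 1 2 pw := by
  haveI : Fact (Nat.Prime 17) := ⟨by norm_num⟩
  letI : Fintype G := Fintype.ofFinite G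
  obtain ⟨e, L, pw, he, he1, hLe, hset⟩ := Exc.exists_setup (nc4080 h) P (m := 240) (s := 120) (Q := 2) (by rw [h]) (by norm_num)
    (n17_4080 h) (by norm_num)
  have h1 : e = 2 := ((Nat.dvd_prime Nat.prime_two).mp (Dvd.intro_left L hLe)).resolve_left he1
  subst h1
  have h2 : L = 1 := by omega
  subst h2
  exact ⟨pw, hset⟩

theorem hC17_4080 {x : G} (hx : orderOf x = 17) : Nat.card (centralizer {x}) = 17 := by
  haveI : Fact (Nat.Prime 17) := ⟨by norm_num⟩
  have := card_centralizer_of_order (m := 240) (L := 1) (by rw [h]; norm_num) (by norm_num) (fun P => by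
      obtain ⟨pw, hset⟩ := setup17_4080 h P
      exact ⟨2, pw, hset⟩) hx
  omega

theorem card_centralizer_4080 {z : G} (hz : orderOf z = 2) : Nat.card (centralizer {z}) = 16 := by
  haveI : Fact (Nat.Prime 17) := ⟨by norm_num⟩
  letI : Fintype G := Fintype.ofFinite G
  obtain ⟨P⟩ : Nonempty (Sylow 17 G) := inferInstance
  obtain ⟨pw, hset⟩ := setup17_4080 h P
  have h7 := not_dvd_centralizer (fun x hx => hC17_4080 h hx) (by norm_num : ¬ 2 ∣ 17) hz
  by_contra hne
  have h1 : Nat.card (centralizer {z}) ∣ 4080 := by rw [← h]; exact card_subgroup_dvd_card _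
  have hz1 : z ≠ 1 := by
    intro h1
    rw [h1, orderOf_one] at hz
    omega
  have h2 := Exc.card_centralizer_le_half (nc4080 h) hz1
  rw [h] at h2
  have h3 : Nat.card (centralizer {z}) % 2 = 0 := by
    have hzz : z ∈ centralizer ({z} : Set G) := by rw [mem_centralizer_singleton_iff]
    have h4 : orderOf (⟨z, hzz⟩ : centralizer ({z} : Set G)) ∣ Nat.card (centralizer ({z} : Set G)) := orderOf_dvd_natCard _
    rw [orderOf_mk, hz] at h4
    exact Nat.mod_eq_zero_of_dvd h4
  have h4 : (List.range 2041).all (fun K => (K == 16) || !(4080 % K == 0) || !(K % 2 == 0) || (K % 17 == 0) || K == 0 ||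
    Exc.killY 4080 17 2 1 K 4 64) = true := by decide +kernel
  have h5 := List.all_eq_true.mp h4 _ (List.mem_range.mpr (by omega : Nat.card (centralizer {z}) < 2041))
  have h6 := Nat.mod_eq_zero_of_dvd h1
  have h8 : ¬ Nat.card (centralizer {z}) % 17 = 0 := fun h9 => h7 (Nat.dvd_of_mod_eq_zero h9)
  have h9 : Nat.card (centralizer {z}) ≠ 0 := Nat.card_pos.ne'
  rw [h3, h6, beq_eq_false_iff_ne.mpr hne, beq_eq_false_iff_ne.mpr h8, beq_eq_false_iff_ne.mpr h9] at h5
  have h10 : Exc.killY 4080 17 2 1 (Nat.card (centralizer {z})) 4 64 = true := by simpa using h5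
  rw [← h] at h10
  exact hset.killY_sound (nc4080 h) (by norm_num) (by norm_num) hz (Or.inl rfl) h10

/-- `L` is odd in any set-up with `p` odd dividing the order -/
theorem odd_L {p : ℕ} [Fact p.Prime] (hp2 : p ≠ 2) {P : Subgroup G} {L e : ℕ} {pw : centralizer (P : Set G) →* P}
    (hset : Exc.Setup G p P L e pw) : ¬ 2 ∣ L := by
  intro hd
  have hp : p.Prime := Fact.out
  have h1 : 2 ∣ Nat.card (centralizer (P : Set G)) := by rw [hset.hL]; exact hd.mul_left p
  obtain ⟨w, hw⟩ := exists_prime_orderOf_dvd_card' 2 h1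
  have hwo : orderOf (w : G) = 2 := (orderOf_coe w).trans hw
  have h2 : P ≤ centralizer {(w : G)} := by
    intro x hx
    rw [mem_centralizer_singleton_iff]
    exact (mem_centralizer_iff.mp w.2 x hx)
  have h3 := Subgroup.card_dvd_of_le h2
  rw [hset.hP, card_centralizer_4080 h hwo] at h3
  have h4 : p ∣ 2 := hp.dvd_of_dvd_pow (show p ∣ 2 ^ 4 from h3)
  exact hp2 ((Nat.prime_dvd_prime_iff_eq hp Nat.prime_two).mp h4)

theorem setup3_4080 (P : Sylow 3 G) : Nat.card (Sylow 3 G) = 136 ∧ ∃ pw, Exc.Setup G 3 (P : Subgroup G) 5 2 pw := by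
  haveI : Fact (Nat.Prime 3) := ⟨by norm_num⟩
  letI : Fintype G := Fintype.ofFinite G
  have h1 := Sieve.possC_true (nc4080 h) (p := 3) (k := 1) (m := 1360) h (by norm_num) (by norm_num) (by norm_num)
  have h2 := Syl.card_sylow_dvd_of_card P (k := 1) (m := 1360) (by rw [h]; norm_num) (by norm_num)
  have h3 : Nat.card (Sylow 3 G) ≤ 1360 := Nat.le_of_dvd (by norm_num) h2
  have h4 : (List.range 1361).all (fun s => !(Sieve.possC 4080 3 1 1360 s) || !(s % 3 == 1) || s == 34 || s == 85 || s == 136 || s == 340) = true := by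
    decide +kernel
  have h5 := List.all_eq_true.mp h4 _ (List.mem_range.mpr (Nat.lt_succ_of_le h3))
  have h6 : Nat.card (Sylow 3 G) % 3 = 1 := card_sylow_modEq_one 3 G
  rw [h1, h6] at h5
  have h7 : ((Nat.card (Sylow 3 G) = 34 ∨ Nat.card (Sylow 3 G) = 85) ∨ Nat.card (Sylow 3 G) = 136) ∨ Nat.card (Sylow 3 G) = 340 := by
    simpa using h5
  have key : ∀ s Q : ℕ, Nat.card (Sylow 3 G) = s → s * Q = 1360 → Q % 4 ≠ 0 ∧ ∃ pw, Exc.Setup G 3 (P : Subgroup G) (Q / 2) 2 pw := by
    intro s Q hs hq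
    obtain ⟨e, L, pw, he, he1, hLe, hset⟩ := Exc.exists_setup (nc4080 h) P (m := 1360) (s := s) (Q := Q) (by rw [h]) (by norm_num)
      hs hq
    have h8 : e = 2 := ((Nat.dvd_prime Nat.prime_two).mp he).resolve_left he1
    subst h8
    have h9 := odd_L h (by norm_num) hset
    have h10 : Q / 2 = L := by omega
    refine ⟨?_, pw, h10 ▸ hset⟩
    omega
  rcases h7 with ((h7 | h7) | h7) | h7
  · exact absurd rfl (key 34 40 h7 (by norm_num)).1
  · exact absurd rfl (key 85 16 h7 (by norm_num)).1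
  · exact ⟨h7, (key 136 10 h7 (by norm_num)).2⟩
  · exact absurd rfl (key 340 4 h7 (by norm_num)).1

theorem n5_4080 : Nat.card (Sylow 5 G) = 136 := by
  haveI : Fact (Nat.Prime 5) := ⟨by norm_num⟩
  letI : Fintype G := Fintype.ofFinite G
  obtain ⟨P⟩ : Nonempty (Sylow 5 G) := inferInstance
  have h1 := Sieve.possC_true (nc4080 h) (p := 5) (k := 1) (m := 816) h (by norm_num) (by norm_num) (by norm_num)
  have h2 := Syl.card_sylow_dvd_of_card P (k := 1) (m := 816) (by rw [h]; norm_num) (by norm_num)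
  have h3 : Nat.card (Sylow 5 G) ≤ 816 := Nat.le_of_dvd (by norm_num) h2
  have h4 : (List.range 817).all (fun s => !(Sieve.possC 4080 5 1 816 s) || !(s % 5 == 1) || s == 51 || s == 136) = true := by
    decide +kernel
  have h5 := List.all_eq_true.mp h4 _ (List.mem_range.mpr (Nat.lt_succ_of_le h3))
  have h6 : Nat.card (Sylow 5 G) % 5 = 1 := card_sylow_modEq_one 5 G
  rw [h1, h6] at h5
  have h7 : Nat.card (Sylow 5 G) = 51 ∨ Nat.card (Sylow 5 G) = 136 := by simpa using h5
  rcases h7 with h7 | h7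
  · exfalso
    obtain ⟨e, L, pw, he, he1, hLe, hset⟩ := Exc.exists_setup (nc4080 h) P (m := 816) (s := 51) (Q := 16) (by rw [h]) (by norm_num)
      h7 (by norm_num)
    have h9 := odd_L h (by norm_num) hset
    have h10 : e ≤ 4 := Nat.le_of_dvd (by norm_num) he
    interval_cases e <;> omega
  · exact h7

theorem two_elements_4080 : Nat.card {g : G // g ≠ 1 ∧ ∃ k : ℕ, g ^ 2 ^ k = 1} ≤ 255 := by
  haveI : Fact (Nat.Prime 17) := ⟨by norm_num⟩
  haveI : Fact (Nat.Prime 3) := ⟨by norm_num⟩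
  haveI : Fact (Nat.Prime 5) := ⟨by norm_num⟩
  have h17 : Nat.card {g : G // orderOf g = 17} = 1920 := by
    rw [card_order_prime (p := 17) (m := 240) (by rw [h]; norm_num) (by norm_num), n17_4080 h]
  have h5 : Nat.card {g : G // orderOf g = 5} = 544 := by
    rw [card_order_prime (p := 5) (m := 816) (by rw [h]; norm_num) (by norm_num), n5_4080 h]
  have h3 : Nat.card {g : G // 3 ∣ orderOf g} = 1360 := by
    obtain ⟨P⟩ : Nonempty (Sylow 3 G) := inferInstance
    rw [card_singular (p := 3) (L := 5) (m := 1360) (by rw [h]; norm_num) (by norm_num) (fun P => by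
      obtain ⟨-, pw, hset⟩ := setup3_4080 h P
      exact ⟨2, pw, hset⟩), (setup3_4080 h P).1]
  have h1 : Nat.card {g : G // g = 1} = 1 := by
    rw [Nat.card_eq_one_iff_unique]
    exact ⟨⟨fun x y => Subtype.ext (x.2.trans y.2.symm)⟩, ⟨⟨1, rfl⟩⟩⟩
  have hnd : ∀ (g : G) (p : ℕ), p.Prime → p ≠ 2 → (∃ k : ℕ, g ^ 2 ^ k = 1) → ¬ p ∣ orderOf g := by
    rintro g p hp hp2 ⟨k, hk⟩ hd
    have h8 := hd.trans (orderOf_dvd_of_pow_eq_one hk)
    exact hp2 ((Nat.prime_dvd_prime_iff_eq hp Nat.prime_two).mp (hp.dvd_of_dvd_pow h8))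
  have e1 := card_add_le (α := G) (p := fun g => g ≠ 1 ∧ ∃ k : ℕ, g ^ 2 ^ k = 1) (q := fun g => 3 ∣ orderOf g) (by
    rintro g ⟨hg1, hk⟩ hd
    exact hnd g 3 (by norm_num) (by norm_num) hk hd)
  have e2 := card_add_le (α := G) (p := fun g => (g ≠ 1 ∧ ∃ k : ℕ, g ^ 2 ^ k = 1) ∨ 3 ∣ orderOf g)
    (q := fun g => orderOf g = 17) (by
    rintro g (⟨hg1, hk⟩ | hd) hg
    · exact hnd g 17 (by norm_num) (by norm_num) hk (by rw [hg])
    · rw [hg] at hd; revert hd; decide)
  have e3 := card_add_le (α := G) (p := fun g => ((g ≠ 1 ∧ ∃ k : ℕ, g ^ 2 ^ k = 1) ∨ 3 ∣ orderOf g) ∨ orderOf g = 17)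
    (q := fun g => orderOf g = 5) (by
    rintro g ((⟨hg1, hk⟩ | hd) | h8) hg
    · exact hnd g 5 (by norm_num) (by norm_num) hk (by rw [hg])
    · rw [hg] at hd; revert hd; decide
    · omega)
  have e4 := card_add_le (α := G) (p := fun g => (((g ≠ 1 ∧ ∃ k : ℕ, g ^ 2 ^ k = 1) ∨ 3 ∣ orderOf g) ∨ orderOf g = 17) ∨ orderOf g = 5)
    (q := fun g => g = 1) (by
    rintro g (((⟨hg1, -⟩ | hd) | hg7) | hg7) rfl
    · exact hg1 rfl
    · rw [orderOf_one] at hd; revert hd; decide
    · rw [orderOf_one] at hg7; omega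
    · rw [orderOf_one] at hg7; omega)
  have e5 := card_le (α := G) (fun g => ((((g ≠ 1 ∧ ∃ k : ℕ, g ^ 2 ^ k = 1) ∨ 3 ∣ orderOf g) ∨ orderOf g = 17) ∨ orderOf g = 5) ∨ g = 1)
  rw [← e4, ← e3, ← e2, ← e1, h1, h3, h17, h5, h] at e5
  omega

theorem psl_4080 {F : Type*} [Field F] [Fintype F] (hF : Fintype.card F = 16) :
    Nonempty (G ≃* Matrix.ProjectiveSpecialLinearGroup (Fin 2) F) := by
  obtain ⟨T⟩ : Nonempty (Sylow 2 G) := inferInstance
  have hT : Nat.card (T : Subgroup G) = 16 := Syl.card_sylow_of_card T (k := 4) (m := 255) (by rw [h]; norm_num) (by norm_num)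
  obtain ⟨z, hz⟩ := exists_prime_orderOf_dvd_card' (G := G) 2 (by rw [h]; norm_num)
  refine iso_psl (nc4080 h) T (by rw [hT]; norm_num) (fun z hz => by rw [hT, card_centralizer_4080 h hz]) (fun g hg => ?_)
    (by rw [hF, hT])
  by_cases hg1 : g = 1
  · rw [hg1, one_pow]
  · have h1 := exponent_of_count hz (m := 255) (by rw [card_centralizer_4080 h hz, h]) (two_elements_4080 h) hg1 hg
    obtain ⟨c, hc⟩ := isConj_iff.mp h1
    rw [← hc, conj_pow, ← hz, pow_orderOf_eq_one]
    group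

end Cfsg.Agent.H9.CentInv
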