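import Cfsg.Agent.H9.BSWO
import Cfsg.Agent.H9.Syl
import Cfsg.Agent.H4.ZStarA

set_option autoImplicit false
set_option linter.unusedSectionVars false
set_option linter.style.haveILetI false
set_option linter.unusedVariables false
set_option linter.unusedSimpArgs false
set_option maxHeartbeats 1000000

/-! Involutions with dihedral centralizer of order eight: groups with a subgroup of index two. -/

open Cfsg Subgroup

namespace Cfsg.Agent.H9.D8

open BSW

universe u

variable {G : Type u} [Group G] [Finite G]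

/-- the configuration -/
structure Conf (G : Type u) [Group G] (A : Subgroup G) (z s : G) (P : Sylow 2 G) (M : Subgroup G) : Prop where
  d : D8 G A z s
  hP : (P : Subgroup G) = centralizer ({z} : Set G)
  hAP : A ≤ P
  hrel : A.relIndex P = 2
  hM : M.Normal
  h2 : M.index = 2

namespace Conf

variable {A M : Subgroup G} {z s : G} {P : Sylow 2 G}

theorem memP (c : Conf G A z s P M) {g : G} : g ∈ (P : Subgroup G) ↔ g * z = z * g := by
  rw [c.hP, mem_centralizer_singleton_iff]

theorem cardP (c : Conf G A z s P M) : Nat.card (P : Subgroup G) = 8 := by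
  have h1 := card_mul_index (A.subgroupOf (P : Subgroup G))
  have h2 : Nat.card (A.subgroupOf (P : Subgroup G)) = 4 := by
    rw [← c.d.card]; exact Nat.card_congr (subgroupOfEquivOfLe c.hAP).toEquiv
  have h3 : (A.subgroupOf (P : Subgroup G)).index = 2 := c.hrel
  rw [h2, h3] at h1
  omega

theorem cardG (c : Conf G A z s P M) : ∃ m, Nat.card G = 8 * m ∧ Odd m := by
  have h1 := card_mul_index (P : Subgroup G)
  rw [c.cardP] at h1
  refine ⟨_, h1.symm, ?_⟩
  haveI : Fact (Nat.Prime 2) := ⟨Nat.prime_two⟩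
  have := P.not_dvd_index
  rw [Nat.odd_iff]
  omega

theorem cardM (c : Conf G A z s P M) : ∃ m, Nat.card M = 4 * m ∧ Odd m ∧ Nat.card G = 8 * m := by
  obtain ⟨m, h1, h2⟩ := c.cardG
  have h3 := card_mul_index M
  rw [c.h2, h1] at h3
  exact ⟨m, by omega, h2, h1⟩

theorem not_le (c : Conf G A z s P M) : ¬ (P : Subgroup G) ≤ M := by
  intro hc
  obtain ⟨m, h1, h2, -⟩ := c.cardM
  have h3 := card_dvd_of_le hc
  rw [c.cardP, h1] at h3
  rw [Nat.odd_iff] at h2
  omega

theorem cardV (c : Conf G A z s P M) : Nat.card ((P : Subgroup G) ⊓ M : Subgroup G) = 4 := by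
  have h1 : M.relIndex (P : Subgroup G) = 2 := by
    haveI := c.hM
    have h2 : M.relIndex (P : Subgroup G) ∣ M.index := relIndex_dvd_index_of_normal M (P : Subgroup G)
    rw [c.h2] at h2
    rcases (Nat.dvd_prime Nat.prime_two).mp h2 with h3 | h3
    · exfalso
      exact c.not_le (relIndex_eq_one.mp h3)
    · exact h3
  have h2 := card_mul_index (M.subgroupOf (P : Subgroup G))
  have h3 : (M.subgroupOf (P : Subgroup G)).index = 2 := h1
  rw [h3, c.cardP] at h2
  have h4 : Nat.card (M.subgroupOf (P : Subgroup G)) = Nat.card (M ⊓ (P : Subgroup G) : Subgroup G) := by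
    rw [← subgroupOf_map_subtype]
    exact Nat.card_congr ((M.subgroupOf (P : Subgroup G)).equivMapOfInjective _ (subtype_injective _))
  rw [h4, inf_comm] at h2
  omega

theorem commV (c : Conf G A z s P M) : ∀ a ∈ (P : Subgroup G) ⊓ M, ∀ b ∈ (P : Subgroup G) ⊓ M, a * b = b * a := by
  haveI : Fact (Nat.Prime 2) := ⟨Nat.prime_two⟩
  intro a ha b hb
  have h1 := (IsPGroup.isMulCommutative_of_card_eq_prime_sq (p := 2) (G := ((P : Subgroup G) ⊓ M : Subgroup G))
    (by rw [c.cardV]; norm_num)).is_comm.comm ⟨a, ha⟩ ⟨b, hb⟩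
  exact congrArg Subtype.val h1

theorem zM (c : Conf G A z s P M) : z ∈ M := by
  obtain ⟨x, hx⟩ := c.d.cyc.exists_ofOrder_eq_natCard
  rw [c.d.card] at hx
  have hxo : orderOf (x : G) = 4 := by rw [Subgroup.orderOf_coe]; exact hx
  have hx1 : (x : G) ≠ 1 := by
    intro e; rw [e, orderOf_one] at hxo; omega
  rcases c.d.pow_eq x.2 hx1 with h1 | h1
  · exfalso
    have : orderOf (x : G) = 2 := by rw [h1]; exact orderOf_two c.d.t1 c.d.t2
    omega
  · rw [← h1]
    exact Subgroup.mul_self_mem_of_index_two c.h2 _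

theorem zP (c : Conf G A z s P M) : z ∈ (P : Subgroup G) := c.memP.mpr rfl

/-- the Sylow 2-subgroup of `M` -/
theorem sylM (c : Conf G A z s P M) : ∃ T : Sylow 2 M, (T : Subgroup M) = (P : Subgroup G).subgroupOf M ∧
    Nat.card (T : Subgroup M) = 4 := by
  haveI : Fact (Nat.Prime 2) := ⟨Nat.prime_two⟩
  have hc : Nat.card ((P : Subgroup G).subgroupOf M) = 4 := by
    rw [← c.cardV]
    have h4 : Nat.card ((P : Subgroup G).subgroupOf M) = Nat.card ((P : Subgroup G) ⊓ M : Subgroup G) := by
      rw [← subgroupOf_map_subtype]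
      exact Nat.card_congr (((P : Subgroup G).subgroupOf M).equivMapOfInjective _ (subtype_injective _))
    exact h4
  have hp : IsPGroup 2 ((P : Subgroup G).subgroupOf M) := IsPGroup.of_card (n := 2) (by rw [hc]; norm_num)
  have hi : ¬ 2 ∣ ((P : Subgroup G).subgroupOf M).index := by
    obtain ⟨m, h1, h2, -⟩ := c.cardM
    have h3 := card_mul_index ((P : Subgroup G).subgroupOf M)
    rw [hc, h1] at h3
    have h4 := Nat.eq_of_mul_eq_mul_left (by norm_num) h3
    rw [h4]
    rw [Nat.odd_iff] at h2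
    omega
  exact ⟨hp.toSylow hi, rfl, hc⟩

/-- a subgroup containing `M` and `P` -/
theorem eq_top_of_le (c : Conf G A z s P M) {H : Subgroup G} (h1 : M ≤ H) (h2 : (P : Subgroup G) ≤ H) : H = ⊤ := by
  have h3 := index_dvd_of_le h1
  rw [c.h2] at h3
  rcases (Nat.dvd_prime Nat.prime_two).mp h3 with h4 | h4
  · exact index_eq_one.mp h4
  · exfalso
    have h5 : M = H := by
      apply Subgroup.eq_of_le_of_card_ge h1
      have h6 := card_mul_index M
      have h7 := card_mul_index H
      rw [c.h2] at h6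
      rw [h4] at h7
      omega
    rw [← h5] at h2
    exact c.not_le h2

/-- the case of a normal 2-complement -/
theorem compl (c : Conf G A z s P M) (hB : ∀ n ∈ M, (∀ v ∈ (P : Subgroup G) ⊓ M, n * v * n⁻¹ ∈ (P : Subgroup G) ⊓ M) →
    ∀ v ∈ (P : Subgroup G) ⊓ M, n * v = v * n) : centralizer ({z} : Set G) ⊔ oddCore G = ⊤ := by
  haveI : Fact (Nat.Prime 2) := ⟨Nat.prime_two⟩
  haveI := c.hM
  obtain ⟨T, hT, hTc⟩ := c.sylM
  have hle : normalizer ((T : Subgroup M) : Set M) ≤ centralizer ((T : Subgroup M) : Set M) := by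
    intro n hn
    rw [mem_centralizer_iff]
    intro v hv
    apply Subtype.ext
    have hmem : ∀ w : M, w ∈ (T : Subgroup M) ↔ (w : G) ∈ (P : Subgroup G) ⊓ M := by
      intro w
      rw [hT, mem_subgroupOf]
      exact ⟨fun h => ⟨h, w.2⟩, fun h => h.1⟩
    have h1 := hB n n.2 (by
      intro v hv
      have h2 : (⟨v, hv.2⟩ : M) ∈ (T : Subgroup M) := (hmem _).mpr hv
      have h3 := (mem_normalizer_iff.mp hn _).mp h2
      exact (hmem _).mp h3) v ((hmem v).mp hv)
    exact h1.symm
  obtain ⟨N, hN, hNc⟩ : ∃ N : Subgroup M, N.Normal ∧ Subgroup.IsComplement' N (T : Subgroup M) :=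
    ⟨_, inferInstance, MonoidHom.ker_transferSylow_isComplement' T hle⟩
  have hNodd : Odd (Nat.card N) := by
    obtain ⟨m, h1, h2, -⟩ := c.cardM
    have h3 := hNc.card_mul
    rw [hTc, h1] at h3
    have : Nat.card N = m := by omega
    rw [this]; exact h2
  have h1 : N ≤ oddCore M := H4.le_oddCore hN hNodd
  haveI : (oddCore M).Characteristic := H1.pPrimeCore_characteristic 2
  have h2 : ((oddCore M).map M.subtype).Normal := inferInstance
  have h3 : (oddCore M).map M.subtype ≤ oddCore G := by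
    apply H4.le_oddCore h2
    rw [card_map_of_injective M.subtype_injective]
    exact H4.oddCore_odd M
  apply c.eq_top_of_le
  · intro x hx
    have h4 : (⟨x, hx⟩ : M) ∈ N ⊔ (T : Subgroup M) := by rw [hNc.sup_eq_top]; trivial
    obtain ⟨a, ha, b, hb, hab⟩ := Subgroup.mem_sup_of_normal_left.mp h4
    have h5 : x = (a : G) * b := (congrArg Subtype.val hab).symm
    rw [h5]
    apply mul_mem
    · exact mem_sup_right (h3 (mem_map_of_mem _ (h1 ha)))
    · apply mem_sup_left
      rw [← c.hP]
      rw [hT, mem_subgroupOf] at hb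
      exact hb
  · rw [c.hP]; exact le_sup_left

end Conf

end Cfsg.Agent.H9.D8
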