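import Cfsg.Agent.H9.D8A
import Cfsg.Agent.H9.BSWQ
import Cfsg.Agent.S1230
import Cfsg.Agent.S0252

set_option autoImplicit false
set_option linter.unusedSectionVars false
set_option linter.style.haveILetI false
set_option linter.unusedVariables false
set_option linter.unusedSimpArgs false
set_option maxHeartbeats 1000000

/-! Involutions with dihedral centralizer of order eight: `A₄`, `A₅` as subgroups of index two. -/

open Cfsg Subgroup

namespace Cfsg.Agent.H9.D8

open BSW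

universe u

variable {G : Type u} [Group G] [Finite G] {A M : Subgroup G} {z s : G} {P : Sylow 2 G}

namespace Conf

/-- an element of `M` normalizing `V` without centralizing it -/
theorem active (c : Conf G A z s P M) {n : G} (hn : n ∈ M)
    (hnV : ∀ v ∈ (P : Subgroup G) ⊓ M, n * v * n⁻¹ ∈ (P : Subgroup G) ⊓ M) {v₀ : G}
    (hv₀ : v₀ ∈ (P : Subgroup G) ⊓ M) (hne : n * v₀ ≠ v₀ * n) :
    ∃ u ∈ (P : Subgroup G) ⊓ M, u ≠ z ∧ u ≠ 1 ∧ u * u = 1 ∧ n * z * n⁻¹ = u ∧ n * u * n⁻¹ = z * u ∧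
      ∀ v ∈ (P : Subgroup G) ⊓ M, v = 1 ∨ v = z ∨ v = u ∨ v = z * u := by
  classical
  haveI : Fact (Nat.Prime 2) := ⟨Nat.prime_two⟩
  set V : Subgroup G := (P : Subgroup G) ⊓ M with hV
  have hzV : z ∈ V := ⟨c.zP, c.zM⟩
  have hcent : ∀ g ∈ M, g * z = z * g → g ∈ V := fun g hg hgz => ⟨c.memP.mpr hgz, hg⟩
  have h1 : n * z * n⁻¹ ≠ z := by
    intro hc
    have h2 := hcent n hn (mul_inv_eq_iff_eq_mul.mp hc)
    exact hne (c.commV n h2 v₀ hv₀)
  have h2 : n * z * n⁻¹ ≠ 1 := conj_ne_one c.d.t1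
  have h3 : n * z * n⁻¹ * (n * z * n⁻¹) = 1 := by
    have : n * z * n⁻¹ * (n * z * n⁻¹) = n * (z * z) * n⁻¹ := by group
    rw [this, c.d.t2]; group
  have huV : n * z * n⁻¹ ∈ V := hnV z hzV
  generalize hu : n * z * n⁻¹ = u at *
  -- `V = {1, z, u, z u}`
  have hall : ∀ v ∈ V, v = 1 ∨ v = z ∨ v = u ∨ v = z * u := by
    intro v hv
    by_contra hc
    push Not at hc
    obtain ⟨hc1, hc2, hc3, hc4⟩ := hc
    have hzu1 : z * u ≠ 1 := by
      intro e
      have : u = z⁻¹ := eq_inv_of_mul_eq_one_right e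
      apply h1
      rw [this]; exact inv_eq_of_mul_eq_one_left c.d.t2
    have hzuz : z * u ≠ z := fun e => h2 (mul_eq_left.mp e)
    have hzuu : z * u ≠ u := fun e => c.d.t1 (mul_eq_right.mp e)
    have h5 : ({1, z, u, z * u, v} : Finset G) ⊆ (Set.toFinite (V : Set G)).toFinset := by
      intro x hx
      simp only [Finset.mem_insert, Finset.mem_singleton] at hx
      rw [Set.Finite.mem_toFinset]
      rcases hx with rfl | rfl | rfl | rfl | rfl
      · exact one_mem V
      · exact hzV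
      · exact huV
      · exact mul_mem hzV huV
      · exact hv
    have h6 := Finset.card_le_card h5
    rw [← Set.ncard_eq_toFinset_card (V : Set G), ← Nat.card_coe_set_eq] at h6
    have h7 : Nat.card (V : Set G) = 4 := c.cardV
    rw [h7, Finset.card_insert_of_notMem, Finset.card_insert_of_notMem, Finset.card_insert_of_notMem,
      Finset.card_insert_of_notMem, Finset.card_singleton] at h6
    · omega
    · simp only [Finset.mem_singleton]; exact fun e => hc4 e.symm
    · simp only [Finset.mem_insert, Finset.mem_singleton, not_or]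
      exact ⟨fun e => hzuu e.symm, fun e => hc3 e.symm⟩
    · simp only [Finset.mem_insert, Finset.mem_singleton, not_or]
      exact ⟨fun e => h1 e.symm, fun e => hzuz e.symm, fun e => hc2 e.symm⟩
    · simp only [Finset.mem_insert, Finset.mem_singleton, not_or]
      exact ⟨fun e => c.d.t1 e.symm, fun e => h2 e.symm, fun e => hzu1 e.symm, fun e => hc1 e.symm⟩
  refine ⟨u, huV, h1, h2, h3, rfl, ?_, hall⟩
  rcases hall _ (hnV u huV) with h5 | h5 | h5 | h5
  · exact absurd h5 (conj_ne_one h2)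
  · -- `n²` centralizes `z`, hence `n` is a 2-element
    exfalso
    have h6 : n * n ∈ V := by
      apply hcent _ (mul_mem hn hn)
      have h7 : n * n * z * (n * n)⁻¹ = z := by
        have : n * n * z * (n * n)⁻¹ = n * (n * z * n⁻¹) * n⁻¹ := by group
        rw [this, hu, h5]
      exact mul_inv_eq_iff_eq_mul.mp h7
    -- the subgroup generated by `V` and `n`
    obtain ⟨T, hT, hTc⟩ := c.sylM
    have hmem : ∀ w : M, w ∈ (T : Subgroup M) ↔ (w : G) ∈ V := by
      intro w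
      rw [hT, mem_subgroupOf]
      exact ⟨fun h => ⟨h, w.2⟩, fun h => h.1⟩
    have hpg : IsPGroup 2 (zpowers (⟨n, hn⟩ : M)) := by
      have h8 : (⟨n, hn⟩ : M) ^ 2 ^ 3 = 1 := by
        have h9 : (n * n) ^ 4 = 1 := by
          have h10 : (⟨n * n, h6⟩ : V) ^ Nat.card V = 1 := pow_card_eq_one'
          rw [c.cardV] at h10
          exact congrArg Subtype.val h10
        apply Subtype.ext
        change n ^ 2 ^ 3 = 1
        rw [← h9, ← pow_two, ← pow_mul]
        norm_num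
      obtain ⟨i, -, hi⟩ := (Nat.dvd_prime_pow Nat.prime_two).mp (orderOf_dvd_of_pow_eq_one h8)
      exact IsPGroup.of_card (n := i) (by rw [Nat.card_zpowers, hi])
    have h8 : (⟨n, hn⟩ : M) ∈ normalizer ((T : Subgroup M) : Set M) := by
      apply mem_normalizer_fintype
      intro w hw
      rw [SetLike.mem_coe, hmem] at hw ⊢
      exact hnV _ hw
    have h9 := hpg.inf_normalizer_sylow T
    have h10 : (⟨n, hn⟩ : M) ∈ zpowers (⟨n, hn⟩ : M) ⊓ (T : Subgroup M) := by
      rw [← h9]; exact ⟨mem_zpowers _, h8⟩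
    have h11 : n ∈ V := (hmem _).mp h10.2
    exact hne (c.commV n h11 v₀ hv₀)
  · exfalso
    have : u = z := by
      have h6 : n * u * n⁻¹ = n * z * n⁻¹ := by rw [h5, hu]
      exact mul_left_cancel (mul_right_cancel h6)
    exact h1 this
  · exact h5

variable {n u : G}

/-- the facts derived from an active element -/
structure Act (A M : Subgroup G) (z s : G) (P : Sylow 2 G) (n u : G) : Prop where
  c : Conf G A z s P M
  nM : n ∈ M
  nV : ∀ v ∈ (P : Subgroup G) ⊓ M, n * v * n⁻¹ ∈ (P : Subgroup G) ⊓ M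
  uV : u ∈ (P : Subgroup G) ⊓ M
  uz : u ≠ z
  u1 : u ≠ 1
  u2 : u * u = 1
  nz : n * z * n⁻¹ = u
  nu : n * u * n⁻¹ = z * u
  all : ∀ v ∈ (P : Subgroup G) ⊓ M, v = 1 ∨ v = z ∨ v = u ∨ v = z * u

end Conf

namespace Conf.Act

variable {n u : G}

theorem conjV (a : Act A M z s P n u) {v : G} (hv : v ∈ (P : Subgroup G) ⊓ M) (hv1 : v ≠ 1) :
    ∃ g ∈ M, g * z * g⁻¹ = v ∧ ∀ v ∈ (P : Subgroup G) ⊓ M, g * v * g⁻¹ ∈ (P : Subgroup G) ⊓ M := by
  rcases a.all v hv with h | h | h | h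
  · exact absurd h hv1
  · exact ⟨1, one_mem _, by rw [h]; group, fun v hv => by simpa using hv⟩
  · exact ⟨n, a.nM, by rw [h]; exact a.nz, a.nV⟩
  · refine ⟨n * n, mul_mem a.nM a.nM, ?_, ?_⟩
    · have : n * n * z * (n * n)⁻¹ = n * (n * z * n⁻¹) * n⁻¹ := by group
      rw [this, a.nz, a.nu, h]
    · intro w hw
      have : n * n * w * (n * n)⁻¹ = n * (n * w * n⁻¹) * n⁻¹ := by group
      rw [this]
      exact a.nV _ (a.nV _ hw)

theorem zV (a : Act A M z s P n u) : z ∈ (P : Subgroup G) ⊓ M := ⟨a.c.zP, a.c.zM⟩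

theorem sqV (a : Act A M z s P n u) {v : G} (hv : v ∈ (P : Subgroup G) ⊓ M) : v * v = 1 := by
  have h1 : z * z = 1 := a.c.d.t2
  rcases a.all v hv with h | h | h | h
  · rw [h, one_mul]
  · rw [h]; exact h1
  · rw [h]; exact a.u2
  · rw [h]
    have h2 := a.c.commV z a.zV u a.uV
    calc z * u * (z * u) = z * (u * z) * u := by group
      _ = (z * z) * (u * u) := by rw [← h2]; group
      _ = 1 := by rw [h1, a.u2, one_mul]

theorem cardNV (a : Act A M z s P n u) (T : Sylow 2 M) (hT : (T : Subgroup M) = (P : Subgroup G).subgroupOf M) :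
    Nat.card (normalizer ((T : Subgroup M) : Set M)) = 12 := by
  classical
  have hmem : ∀ w : M, w ∈ (T : Subgroup M) ↔ (w : G) ∈ (P : Subgroup G) ⊓ M := by
    intro w
    rw [hT, mem_subgroupOf]
    exact ⟨fun h => ⟨h, w.2⟩, fun h => h.1⟩
  set N := normalizer ((T : Subgroup M) : Set M) with hN
  have hTc : Nat.card (T : Subgroup M) = 4 := by
    obtain ⟨T', hT', hc⟩ := a.c.sylM
    rw [← hc, hT, hT']
  -- relative index three
  have h1 : ((T : Subgroup M).subgroupOf N).index = 3 := by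
    have h2 : Nat.card {v : G // v ∈ (P : Subgroup G) ⊓ M ∧ v ≠ 1} = 3 := by
      have h3 : Nat.card ((P : Subgroup G) ⊓ M : Subgroup G) = Nat.card {v : ((P : Subgroup G) ⊓ M : Subgroup G) // v = 1} +
          Nat.card {v : ((P : Subgroup G) ⊓ M : Subgroup G) // v ≠ 1} := by
        rw [← Nat.card_sum]
        exact Nat.card_congr (Equiv.sumCompl (fun v : ((P : Subgroup G) ⊓ M : Subgroup G) => v = 1)).symm
      have h4 : Nat.card {v : ((P : Subgroup G) ⊓ M : Subgroup G) // v = 1} = 1 := by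
        haveI : Unique {v : ((P : Subgroup G) ⊓ M : Subgroup G) // v = 1} := ⟨⟨⟨_, rfl⟩⟩, fun b => Subtype.ext b.2⟩
        exact Nat.card_unique
      have h5 : Nat.card {v : G // v ∈ (P : Subgroup G) ⊓ M ∧ v ≠ 1} =
          Nat.card {v : ((P : Subgroup G) ⊓ M : Subgroup G) // v ≠ 1} := by
        apply Nat.card_congr
        exact { toFun := fun v => ⟨⟨v.1, v.2.1⟩, fun e => v.2.2 (congrArg Subtype.val e)⟩
                invFun := fun v => ⟨v.1.1, v.1.2, fun e => v.2 (Subtype.ext e)⟩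
                left_inv := fun v => rfl
                right_inv := fun v => rfl }
      rw [a.c.cardV] at h3
      omega
    rw [← h2, Subgroup.index]
    have hnc : ∀ x : N, ∀ v : G, v ∈ (P : Subgroup G) ⊓ M → ((x : M) : G) * v * ((x : M) : G)⁻¹ ∈ (P : Subgroup G) ⊓ M := by
      intro x v hv
      have h3 : (⟨v, hv.2⟩ : M) ∈ (T : Subgroup M) := (hmem _).mpr hv
      have h4 := (mem_normalizer_iff.mp x.2 _).mp h3
      exact (hmem _).mp h4
    let f : N ⧸ (T : Subgroup M).subgroupOf N → {v : G // v ∈ (P : Subgroup G) ⊓ M ∧ v ≠ 1} := fun x =>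
      ⟨((x.out : M) : G) * z * ((x.out : M) : G)⁻¹, hnc _ _ a.zV, conj_ne_one a.c.d.t1⟩
    apply Nat.card_congr (Equiv.ofBijective f ?_)
    have hcz : ∀ x y : N, ((x : M) : G) * z * ((x : M) : G)⁻¹ = ((y : M) : G) * z * ((y : M) : G)⁻¹ →
        (y⁻¹ * x) ∈ (T : Subgroup M).subgroupOf N := by
      intro x y hxy
      rw [mem_subgroupOf, hmem]
      refine ⟨a.c.memP.mpr ?_, (((y⁻¹ * x : N) : M)).2⟩
      have h3 : (((y⁻¹ * x : N) : M) : G) = ((y : M) : G)⁻¹ * ((x : M) : G) := rfl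
      rw [h3]
      have h4 : ((y : M) : G)⁻¹ * ((x : M) : G) * z * (((y : M) : G)⁻¹ * ((x : M) : G))⁻¹ = z := by
        have h5 : ((y : M) : G)⁻¹ * ((x : M) : G) * z * (((y : M) : G)⁻¹ * ((x : M) : G))⁻¹ =
          ((y : M) : G)⁻¹ * (((x : M) : G) * z * ((x : M) : G)⁻¹) * ((y : M) : G) := by group
        rw [h5, hxy]; group
      exact mul_inv_eq_iff_eq_mul.mp h4
    constructor
    · intro x y hxy
      have h3 := congrArg Subtype.val hxy
      have h4 := hcz _ _ h3
      rw [← QuotientGroup.out_eq' x, ← QuotientGroup.out_eq' y]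
      exact ((QuotientGroup.eq (s := (T : Subgroup M).subgroupOf N)).mpr h4).symm
    · rintro ⟨v, hv, hv1⟩
      obtain ⟨g, hg, hgz, hgV⟩ := a.conjV hv hv1
      have hgN : (⟨g, hg⟩ : M) ∈ N := by
        apply mem_normalizer_fintype
        intro w hw
        rw [SetLike.mem_coe, hmem] at hw ⊢
        exact hgV _ hw
      refine ⟨QuotientGroup.mk ⟨⟨g, hg⟩, hgN⟩, ?_⟩
      apply Subtype.ext
      change (((QuotientGroup.mk (⟨⟨g, hg⟩, hgN⟩ : N) : N ⧸ (T : Subgroup M).subgroupOf N).out : M) : G) * z * _ = v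
      obtain ⟨m, hm⟩ := QuotientGroup.mk_out_eq_mul ((T : Subgroup M).subgroupOf N) (⟨⟨g, hg⟩, hgN⟩ : N)
      rw [hm]
      have hmz : (((m : N) : M) : G) * z = z * (((m : N) : M) : G) :=
        a.c.memP.mp ((hmem _).mp (mem_subgroupOf.mp m.2)).1
      change (g * (((m : N) : M) : G)) * z * (g * (((m : N) : M) : G))⁻¹ = v
      have h3 : (g * (((m : N) : M) : G)) * z * (g * (((m : N) : M) : G))⁻¹ =
        g * ((((m : N) : M) : G) * z * (((m : N) : M) : G)⁻¹) * g⁻¹ := by group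
      rw [h3, hmz, mul_inv_cancel_right, hgz]
  have h2 := card_mul_index ((T : Subgroup M).subgroupOf N)
  have h3 : Nat.card ((T : Subgroup M).subgroupOf N) = 4 := by
    rw [← hTc]; exact Nat.card_congr (subgroupOfEquivOfLe le_normalizer).toEquiv
  rw [h1, h3] at h2
  exact h2.symm

/-- all involutions of `M` are conjugate -/
theorem conjM (a : Act A M z s P n u) {w : G} (hw : w ∈ M) (hw1 : w ≠ 1) (hw2 : w * w = 1) :
    ∃ g ∈ M, g * z * g⁻¹ = w := by
  haveI : Fact (Nat.Prime 2) := ⟨Nat.prime_two⟩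
  obtain ⟨T, hT, hTc⟩ := a.c.sylM
  have hmem : ∀ w : M, w ∈ (T : Subgroup M) ↔ (w : G) ∈ (P : Subgroup G) ⊓ M := by
    intro w
    rw [hT, mem_subgroupOf]
    exact ⟨fun h => ⟨h, w.2⟩, fun h => h.1⟩
  have ho : orderOf (⟨w, hw⟩ : M) = 2 :=
    orderOf_two (fun e => hw1 (congrArg Subtype.val e)) (Subtype.ext hw2)
  obtain ⟨g, hg⟩ := exists_conj_sylow T ho
  have h1 := (hmem _).mp hg
  have h2 : ((g * ⟨w, hw⟩ * g⁻¹ : M) : G) ≠ 1 := by
    change (g : G) * w * (g : G)⁻¹ ≠ 1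
    exact conj_ne_one hw1
  obtain ⟨x, hx, hxz, -⟩ := a.conjV h1 h2
  refine ⟨(g : G)⁻¹ * x, M.mul_mem (M.inv_mem g.2) hx, ?_⟩
  have h3 : ((g * ⟨w, hw⟩ * g⁻¹ : M) : G) = g * w * (g : G)⁻¹ := rfl
  rw [h3] at hxz
  have h4 : (g : G)⁻¹ * x * z * ((g : G)⁻¹ * x)⁻¹ = (g : G)⁻¹ * (x * z * x⁻¹) * g := by group
  rw [h4, hxz]; group

theorem elem (a : Act A M z s P n u) (t : M) (ht : orderOf t = 2) :
    IsMulCommutative (centralizer ({t} : Set M)) ∧ ∀ c ∈ centralizer ({t} : Set M), c ^ 2 = 1 := by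
  obtain ⟨t1, t2⟩ := mul_self_of_orderOf ht
  obtain ⟨g, hg, hgt⟩ := a.conjM t.2 (fun e => t1 (Subtype.ext e)) (congrArg Subtype.val t2)
  have key : ∀ c ∈ centralizer ({t} : Set M), g⁻¹ * (c : G) * g ∈ (P : Subgroup G) ⊓ M := by
    intro c hc
    have h1 : (c : G) * t = t * c := congrArg Subtype.val (mem_centralizer_singleton_iff.mp hc)
    rw [← hgt] at h1
    refine Subgroup.mem_inf.mpr ⟨a.c.memP.mpr ?_, M.mul_mem (M.mul_mem (M.inv_mem hg) c.2) hg⟩
    have e1 : g⁻¹ * (c : G) * g * z = g⁻¹ * (c * (g * z * g⁻¹)) * g := by group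
    have e2 : z * (g⁻¹ * (c : G) * g) = g⁻¹ * ((g * z * g⁻¹) * c) * g := by group
    rw [e1, e2, h1]
  refine ⟨⟨⟨?_⟩⟩, ?_⟩
  · rintro ⟨x, hx⟩ ⟨y, hy⟩
    apply Subtype.ext
    apply Subtype.ext
    change (x : G) * y = y * x
    have h1 := a.c.commV _ (key x hx) _ (key y hy)
    have e1 : g⁻¹ * x * g * (g⁻¹ * y * g) = g⁻¹ * (x * y) * g := by group
    have e2 : g⁻¹ * y * g * (g⁻¹ * x * g) = g⁻¹ * (y * x) * g := by group
    rw [e1, e2] at h1
    exact mul_left_cancel (mul_right_cancel h1)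
  · intro c hc
    have h1 := a.sqV (key c hc)
    apply Subtype.ext
    change (c : G) ^ 2 = 1
    have e1 : g⁻¹ * c * g * (g⁻¹ * c * g) = g⁻¹ * ((c : G) ^ 2) * g := by rw [pow_two]; group
    rw [e1] at h1
    have h2 : (c : G) ^ 2 = g * (g⁻¹ * ((c : G) ^ 2) * g) * g⁻¹ := by group
    rw [h2, h1]; group

/-- the order of `M` -/
theorem order (a : Act A M z s P n u) (T : Sylow 2 M) (hT : (T : Subgroup M) = (P : Subgroup G).subgroupOf M) :
    ((T : Subgroup M).Normal ∧ Nat.card M = 12) ∨ (¬ (T : Subgroup M).Normal ∧ IsSimpleGroup M ∧ Nat.card M = 60) := by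
  have hTc : Nat.card (T : Subgroup M) = 4 := by
    obtain ⟨T', hT', hc⟩ := a.c.sylM
    rw [← hc, hT, hT']
  have hmem : ∀ w : M, w ∈ (T : Subgroup M) ↔ (w : G) ∈ (P : Subgroup G) ⊓ M := by
    intro w
    rw [hT, mem_subgroupOf]
    exact ⟨fun h => ⟨h, w.2⟩, fun h => h.1⟩
  by_cases hN : (T : Subgroup M).Normal
  · left
    refine ⟨hN, ?_⟩
    have h1 := a.cardNV T hT
    rw [normalizer_eq_top_iff.mpr hN, card_top] at h1
    exact h1
  · right
    have hnc : ¬ IsCyclic (T : Subgroup M) := by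
      intro hcy
      obtain ⟨x, hx⟩ := hcy.exists_ofOrder_eq_natCard
      have h1 : x ^ 2 = 1 := by
        apply Subtype.ext
        apply Subtype.ext
        change ((x : M) : G) ^ 2 = 1
        rw [pow_two]; exact a.sqV ((hmem _).mp x.2)
      have h2 := orderOf_dvd_of_pow_eq_one h1
      rw [hx, hTc] at h2
      omega
    obtain ⟨F, iF, iFin, hF, ⟨e1⟩⟩ := Cfsg.Agent.S1230.result T hnc hN (fun t ht => a.elem t ht)
    have hF4 : Fintype.card F = 4 := by rw [hF]; exact hTc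
    obtain ⟨e2⟩ := Cfsg.Agent.S0252.result (F := F) hF4
    have e := e1.trans e2
    haveI : IsSimpleGroup (alternatingGroup (Fin 5)) := alternatingGroup.isSimpleGroup_five
    refine ⟨hN, ?_, ?_⟩
    · haveI : Nontrivial M := e.toEquiv.nontrivial
      exact IsSimpleGroup.isSimpleGroup_of_surjective e.symm.toMonoidHom e.symm.surjective
    · rw [Nat.card_congr e.toEquiv]
      have h := two_mul_nat_card_alternatingGroup (α := Fin 5)
      rw [Nat.card_perm, Nat.card_eq_fintype_card (α := Fin 5), Fintype.card_fin] at h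
      have h2 : Nat.factorial 5 = 120 := rfl
      rw [h2] at h
      omega

end Conf.Act

end Cfsg.Agent.H9.D8
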