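import Cfsg.Agent.H9.D8B
import Cfsg.Agent.S0255

set_option autoImplicit false
set_option linter.unusedSectionVars false
set_option linter.style.haveILetI false
set_option linter.unusedVariables false
set_option linter.unusedSimpArgs false
set_option maxHeartbeats 1000000

/-! Involutions with dihedral centralizer of order eight: `S₄`, `S₅`. -/

open Cfsg Subgroup

namespace Cfsg.Agent.H9.D8

open BSW

universe u

variable {G : Type u} [Group G] [Finite G] {A M : Subgroup G} {z s : G} {P : Sylow 2 G}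

namespace Conf.Act

variable {n u : G}

/-- central involutions of `P` -/
theorem eq_z_of_central (a : Act A M z s P n u) {x : G} (hx : x ∈ (P : Subgroup G)) (hx2 : x * x = 1)
    (hc : ∀ y ∈ (P : Subgroup G), x * y = y * x) : x = 1 ∨ x = z := by
  have d := a.c.d
  have hsP : s ∈ (P : Subgroup G) := a.c.memP.mpr d.st
  rcases d.cent x (a.c.memP.mp hx) with h1 | h1
  · exact d.uniq h1 hx2
  · exfalso
    obtain ⟨y, hy⟩ := d.cyc.exists_ofOrder_eq_natCard
    rw [d.card] at hy
    have hyo : orderOf (y : G) = 4 := by rw [Subgroup.orderOf_coe]; exact hy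
    have h2 : x * s * y = y * (x * s) := d.comm h1 y.2
    have h3 := hc y (a.c.hAP y.2)
    have h4 : s * y * s⁻¹ = (y : G) := by
      have h5 : s * y = y * s := by
        have h6 : x * (s * y) = x * (y * s) := by
          rw [← mul_assoc, h2, ← mul_assoc, ← h3, mul_assoc]
        exact mul_left_cancel h6
      rw [h5, mul_inv_cancel_right]
    rw [d.inv y y.2] at h4
    have h5 : (y : G) ^ 2 = 1 := by
      rw [pow_two]; nth_rewrite 1 [← h4]; exact inv_mul_cancel _
    have h6 := orderOf_dvd_of_pow_eq_one h5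
    rw [hyo] at h6
    omega

/-- a normal subgroup meeting `M` trivially is trivial -/
theorem eq_bot (a : Act A M z s P n u) {N : Subgroup G} (hN : N.Normal) (hNM : N ⊓ M = ⊥) : N = ⊥ := by
  have hcomm : ∀ g ∈ N, ∀ m ∈ M, g * m = m * g := by
    intro g hg m hm
    have h1 : g * m * g⁻¹ * m⁻¹ ∈ N ⊓ M := by
      refine Subgroup.mem_inf.mpr ⟨?_, ?_⟩
      · have : g * m * g⁻¹ * m⁻¹ = g * (m * g⁻¹ * m⁻¹) := by group
        rw [this]; exact N.mul_mem hg (hN.conj_mem _ (N.inv_mem hg) m)
      · exact M.mul_mem (a.c.hM.conj_mem m hm g) (M.inv_mem hm)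
    rw [hNM, mem_bot] at h1
    have h2 : g * m = (g * m * g⁻¹ * m⁻¹) * (m * g) := by group
    rw [h2, h1, one_mul]
  rw [eq_bot_iff]
  intro g hg
  have hgP : g ∈ (P : Subgroup G) := a.c.memP.mpr (hcomm g hg z a.c.zM)
  have hgu := hcomm g hg u (Subgroup.mem_inf.mp a.uV).2
  -- `g ∈ M`
  have hgM : g ∈ M := by
    by_contra hgM
    have huc : u = 1 ∨ u = z := by
      apply a.eq_z_of_central (Subgroup.mem_inf.mp a.uV).1 a.u2
      intro y hy
      by_cases hyM : y ∈ M
      · exact a.c.commV u a.uV y (Subgroup.mem_inf.mpr ⟨hy, hyM⟩)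
      · have h3 : g⁻¹ * y ∈ M := by
          rw [Subgroup.mul_mem_iff_of_index_two a.c.h2, inv_mem_iff]
          exact iff_of_false hgM hyM
        have h4 := a.c.commV u a.uV (g⁻¹ * y) (Subgroup.mem_inf.mpr
          ⟨(P : Subgroup G).mul_mem ((P : Subgroup G).inv_mem hgP) hy, h3⟩)
        have h5 : y = g * (g⁻¹ * y) := by group
        calc u * y = u * g * (g⁻¹ * y) := by group
          _ = g * u * (g⁻¹ * y) := by rw [hgu]
          _ = g * (u * (g⁻¹ * y)) := by rw [mul_assoc]
          _ = g * (g⁻¹ * y * u) := by rw [h4]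
          _ = y * u := by group
    rcases huc with h | h
    · exact a.u1 h
    · exact a.uz h
  have : g ∈ N ⊓ M := Subgroup.mem_inf.mpr ⟨hg, hgM⟩
  rwa [hNM] at this

theorem iso_of_index (a : Act A M z s P n u) {H : Subgroup G} {k : ℕ} (hk : H.index = k)
    (hcore : H.normalCore ⊓ M = ⊥) (hG : Nat.card G = k.factorial) : Nonempty (G ≃* Equiv.Perm (Fin k)) := by
  have h1 : H.normalCore = ⊥ := a.eq_bot (normalCore_normal H) hcore
  have h2 : Function.Injective (MulAction.toPermHom G (G ⧸ H)) := by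
    rw [← MonoidHom.ker_eq_bot_iff, ← normalCore_eq_ker]; exact h1
  exact Cfsg.Agent.H5.equiv_perm_of_injective _ h2 k (by rw [← Subgroup.index]; exact hk) hG

theorem five (a : Act A M z s P n u) (T : Sylow 2 M) (hT : (T : Subgroup M) = (P : Subgroup G).subgroupOf M)
    (hTn : ¬ (T : Subgroup M).Normal) (hs : IsSimpleGroup M) (hM : Nat.card M = 60) :
    Nonempty (G ≃* Equiv.Perm (Fin 5)) := by
  have hcG : Nat.card G = 120 := by
    have := card_mul_index M
    rw [hM, a.c.h2] at this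
    omega
  have hmem : ∀ w : M, w ∈ (T : Subgroup M) ↔ (w : G) ∈ (P : Subgroup G) ⊓ M := by
    intro w
    rw [hT, mem_subgroupOf]
    exact ⟨fun h => ⟨h, w.2⟩, fun h => h.1⟩
  set V : Subgroup G := (P : Subgroup G) ⊓ M with hV
  set H := normalizer (V : Set G) with hH
  have hHM : ∀ x : M, (x : G) ∈ H ↔ x ∈ normalizer ((T : Subgroup M) : Set M) := by
    intro x
    constructor
    · intro hx
      apply mem_normalizer_fintype
      intro w hw
      rw [SetLike.mem_coe, hmem] at hw ⊢
      exact (mem_normalizer_iff.mp hx w).mp hw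
    · intro hx
      apply mem_normalizer_fintype
      intro w hw
      have h3 : (⟨w, (Subgroup.mem_inf.mp hw).2⟩ : M) ∈ (T : Subgroup M) := (hmem _).mpr hw
      exact (hmem _).mp ((mem_normalizer_iff.mp hx _).mp h3)
  -- `P` normalizes `V`
  have hPH : (P : Subgroup G) ≤ H := by
    intro x hx
    apply mem_normalizer_fintype
    intro w hw
    have hw' := Subgroup.mem_inf.mp hw
    exact Subgroup.mem_inf.mpr ⟨(P : Subgroup G).mul_mem ((P : Subgroup G).mul_mem hx hw'.1) ((P : Subgroup G).inv_mem hx),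
      a.c.hM.conj_mem _ hw'.2 x⟩
  have hcH : Nat.card H = 24 := by
    have h1 : Nat.card (H.subgroupOf M) = 12 := by
      rw [← a.cardNV T hT]
      apply Nat.card_congr
      exact Equiv.subtypeEquivRight (fun x => by rw [mem_subgroupOf]; exact hHM x)
    have h2 : Nat.card (H.subgroupOf M) = Nat.card (M.subgroupOf H) := by
      have e1 : Nat.card (H.subgroupOf M) = Nat.card (H ⊓ M : Subgroup G) := by
        rw [← subgroupOf_map_subtype]
        exact Nat.card_congr ((H.subgroupOf M).equivMapOfInjective _ (subtype_injective _))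
      have e2 : Nat.card (M.subgroupOf H) = Nat.card (M ⊓ H : Subgroup G) := by
        rw [← subgroupOf_map_subtype]
        exact Nat.card_congr ((M.subgroupOf H).equivMapOfInjective _ (subtype_injective _))
      rw [e1, e2, inf_comm]
    have h3 : (M.subgroupOf H).index = 2 := by
      haveI := a.c.hM
      have h4 : M.relIndex H ∣ M.index := relIndex_dvd_index_of_normal M H
      rw [a.c.h2] at h4
      rcases (Nat.dvd_prime Nat.prime_two).mp h4 with h5 | h5
      · exfalso
        exact a.c.not_le (hPH.trans (relIndex_eq_one.mp h5))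
      · exact h5
    have h4 := card_mul_index (M.subgroupOf H)
    rw [h3, ← h2, h1] at h4
    exact h4.symm
  have hidx : H.index = 5 := by
    have := card_mul_index H
    rw [hcH, hcG] at this
    omega
  refine a.iso_of_index hidx ?_ (by rw [hcG]; rfl)
  -- the core meets `M` trivially
  have h1 : (H.normalCore.subgroupOf M).Normal := by
    haveI := normalCore_normal H
    infer_instance
  rcases h1.eq_bot_or_eq_top with h2 | h2
  · rw [eq_bot_iff]
    intro x hx
    have hx' := Subgroup.mem_inf.mp hx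
    have h3 : (⟨x, hx'.2⟩ : M) ∈ H.normalCore.subgroupOf M := mem_subgroupOf.mpr hx'.1
    rw [h2, mem_bot] at h3
    exact mem_bot.mpr (congrArg Subtype.val h3)
  · exfalso
    apply hTn
    rw [← normalizer_eq_top_iff, eq_top_iff]
    intro x _
    rw [← hHM]
    apply normalCore_le H
    have h3 : x ∈ H.normalCore.subgroupOf M := by rw [h2]; trivial
    exact mem_subgroupOf.mp h3

theorem four (a : Act A M z s P n u) (T : Sylow 2 M) (hT : (T : Subgroup M) = (P : Subgroup G).subgroupOf M)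
    (hTn : (T : Subgroup M).Normal) (hM : Nat.card M = 12) : Nonempty (G ≃* Equiv.Perm (Fin 4)) := by
  haveI : Fact (Nat.Prime 3) := ⟨by norm_num⟩
  have hcG : Nat.card G = 24 := by
    have := card_mul_index M
    rw [hM, a.c.h2] at this
    omega
  have hmem : ∀ w : M, w ∈ (T : Subgroup M) ↔ (w : G) ∈ (P : Subgroup G) ⊓ M := by
    intro w
    rw [hT, mem_subgroupOf]
    exact ⟨fun h => ⟨h, w.2⟩, fun h => h.1⟩
  set V : Subgroup G := (P : Subgroup G) ⊓ M with hV
  obtain ⟨R⟩ : Nonempty (Sylow 3 G) := inferInstance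
  have hR : Nat.card (R : Subgroup G) = 3 := by
    rw [Syl.card_sylow_of_card R (k := 1) (m := 8) (by rw [hcG]; norm_num) (by norm_num)]
    norm_num
  -- order three elements lie in `M`
  have hRM : (R : Subgroup G) ≤ M := by
    intro x hx
    have h1 : x ^ 3 = 1 := by
      have h2 : (⟨x, hx⟩ : (R : Subgroup G)) ^ Nat.card (R : Subgroup G) = 1 := pow_card_eq_one'
      rw [hR] at h2
      exact congrArg Subtype.val h2
    by_contra hxM
    have h2 : x * x ∈ M := Subgroup.mul_self_mem_of_index_two a.c.h2 x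
    have h3 : x ^ 3 ∈ M := by rw [h1]; exact M.one_mem
    have h4 : x ^ 3 = x * x * x := by simp only [pow_succ, pow_zero, one_mul]
    rw [h4] at h3
    have := (Subgroup.mul_mem_iff_of_index_two a.c.h2).mp h3
    exact hxM (this.mp h2)
  have hVM : ∀ m ∈ M, ∀ v ∈ V, m * v * m⁻¹ ∈ V := by
    intro m hm v hv
    have h3 : (⟨v, (Subgroup.mem_inf.mp hv).2⟩ : M) ∈ (T : Subgroup M) := (hmem _).mpr hv
    exact (hmem _).mp (hTn.conj_mem _ h3 ⟨m, hm⟩)
  -- `R` meets `V` trivially
  have hRV : ∀ x ∈ (R : Subgroup G), x ∈ V → x = 1 := by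
    intro x hx hxV
    have h1 := orderOf_dvd_of_mem hx
    rw [hR] at h1
    have h2 : orderOf x ∣ 2 := orderOf_dvd_of_pow_eq_one (by rw [pow_two]; exact a.sqV hxV)
    exact orderOf_eq_one_iff.mp (Nat.eq_one_of_dvd_coprimes (by norm_num : Nat.Coprime 3 2) h1 h2)
  -- no element of `V` commutes with `R`
  have hno : ∀ v ∈ V, v ≠ 1 → ∃ x ∈ (R : Subgroup G), x * v ≠ v * x := by
    intro v hv hv1
    by_contra hc
    push Not at hc
    obtain ⟨g, hg, hgz, hgV⟩ := a.conjV hv hv1
    haveI : Nontrivial (R : Subgroup G) := Finite.one_lt_card_iff_nontrivial.mp (by rw [hR]; norm_num)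
    obtain ⟨x, hx⟩ := _root_.exists_ne (1 : (R : Subgroup G))
    have hx1 : (x : G) ≠ 1 := fun e => hx (Subtype.ext e)
    have h1 := hc x x.2
    rw [← hgz] at h1
    have h2 : g⁻¹ * (x : G) * g ∈ V := by
      refine Subgroup.mem_inf.mpr ⟨a.c.memP.mpr ?_, M.mul_mem (M.mul_mem (M.inv_mem hg) (hRM x.2)) hg⟩
      have e1 : g⁻¹ * (x : G) * g * z = g⁻¹ * (x * (g * z * g⁻¹)) * g := by group
      have e2 : z * (g⁻¹ * (x : G) * g) = g⁻¹ * ((g * z * g⁻¹) * x) * g := by group
      rw [e1, e2, h1]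
    have h3 := hVM g hg _ h2
    have h4 : g * (g⁻¹ * (x : G) * g) * g⁻¹ = x := by group
    rw [h4] at h3
    exact hx1 (hRV x x.2 h3)
  set H := normalizer ((R : Subgroup G) : Set G) with hH
  -- elements of `V` normalizing `R` are trivial
  have hVH : ∀ v ∈ V, v ∈ H → v = 1 := by
    intro v hv hvH
    by_contra hv1
    obtain ⟨x, hx, hxv⟩ := hno v hv hv1
    apply hxv
    have h1 : v * x * v⁻¹ * x⁻¹ ∈ (R : Subgroup G) :=
      (R : Subgroup G).mul_mem ((mem_normalizer_iff.mp hvH x).mp hx) ((R : Subgroup G).inv_mem hx)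
    have h2 : v * x * v⁻¹ * x⁻¹ ∈ V := by
      have : v * x * v⁻¹ * x⁻¹ = v * (x * v⁻¹ * x⁻¹) := by group
      rw [this]; exact V.mul_mem hv (hVM x (hRM hx) _ (V.inv_mem hv))
    have h3 := hRV _ h1 h2
    have h4 : v * x = (v * x * v⁻¹ * x⁻¹) * (x * v) := by group
    rw [h4, h3, one_mul]
  have hidx : H.index = 4 := by
    have h1 : H.index = Nat.card (Sylow 3 G) := (Sylow.card_eq_index_normalizer R).symm
    have h2 := card_sylow_modEq_one 3 G
    have h3 := Syl.card_sylow_dvd_of_card R (k := 1) (m := 8) (by rw [hcG]; norm_num) (by norm_num)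
    have h4 : Nat.card (Sylow 3 G) ≠ 1 := by
      intro h5
      have h6 := Syl.normal_of_card_sylow_eq_one h5 R
      have h7 : u ∈ H := by
        rw [hH, normalizer_eq_top_iff.mpr h6]; trivial
      exact a.u1 (hVH u a.uV h7)
    have h5 : Nat.card (Sylow 3 G) ≤ 8 := Nat.le_of_dvd (by norm_num) h3
    rw [h1]
    generalize Nat.card (Sylow 3 G) = k at *
    interval_cases k <;> first | rfl | (exfalso; exact h4 rfl) | (exfalso; revert h2; decide) | (exfalso; revert h3; decide)
  refine a.iso_of_index hidx ?_ (by rw [hcG]; rfl)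
  rw [eq_bot_iff]
  intro x hx
  have hx' := Subgroup.mem_inf.mp hx
  haveI := normalCore_normal H
  -- `x` commutes with `V`
  have h1 : ∀ v ∈ V, x * v = v * x := by
    intro v hv
    have h2 : x * v * x⁻¹ * v⁻¹ ∈ V := V.mul_mem (hVM x hx'.2 v hv) (V.inv_mem hv)
    have h3 : x * v * x⁻¹ * v⁻¹ ∈ H.normalCore := by
      have : x * v * x⁻¹ * v⁻¹ = x * (v * x⁻¹ * v⁻¹) := by group
      rw [this]
      exact H.normalCore.mul_mem hx'.1 ((normalCore_normal H).conj_mem _ (H.normalCore.inv_mem hx'.1) v)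
    have h4 := hVH _ h2 (normalCore_le H h3)
    have h5 : x * v = (x * v * x⁻¹ * v⁻¹) * (v * x) := by group
    rw [h5, h4, one_mul]
  have h2 : x ∈ V := Subgroup.mem_inf.mpr ⟨a.c.memP.mpr (h1 z a.zV), hx'.2⟩
  exact mem_bot.mpr (hVH x h2 (normalCore_le H hx'.1))

end Conf.Act

/-- `SL(3,2)` has trivial center -/
theorem sl32_iso : Nonempty (Matrix.ProjectiveSpecialLinearGroup (Fin 3) (ZMod 2) ≃* Matrix.SpecialLinearGroup (Fin 3) (ZMod 2)) := by
  have h1 : center (Matrix.SpecialLinearGroup (Fin 3) (ZMod 2)) = ⊥ := by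
    rw [eq_bot_iff]
    intro x hx
    rw [Matrix.SpecialLinearGroup.mem_center_iff] at hx
    obtain ⟨r, hr, hrx⟩ := hx
    have key : ∀ r : ZMod 2, r ^ 3 = 1 → r = 1 := by decide
    have hr1 : r = 1 := key r (by rw [Fintype.card_fin] at hr; exact hr)
    rw [mem_bot]
    apply Subtype.ext
    rw [← hrx, hr1]
    simp
  exact ⟨(QuotientGroup.quotientMulEquivOfEq h1).trans QuotientGroup.quotientBot⟩

/-- **Involutions with a dihedral centralizer of order eight** -/
theorem main {z : G} (hz : orderOf z = 2) (e : centralizer ({z} : Set G) ≃* DihedralGroup 4) :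
    centralizer ({z} : Set G) ⊔ oddCore G = ⊤ ∨ Nonempty (G ≃* Equiv.Perm (Fin 4)) ∨ Nonempty (G ≃* Equiv.Perm (Fin 5)) ∨
      Nonempty (G ≃* Matrix.SpecialLinearGroup (Fin 3) (ZMod 2)) ∨ Nonempty (G ≃* ↥(alternatingGroup (Fin 6))) := by
  classical
  obtain ⟨A, s, d⟩ := D8.of_iso hz e
  obtain ⟨P, hP, hAP, hrel⟩ := d.sylow
  by_cases hno : ∀ M : Subgroup G, M.Normal → M.index ≠ 2
  · right; right; right
    have hone := one_class hno P hAP hrel (fun x hx hx2 => d.uniq hx hx2)
    rcases psl_of_four (d.setup hone) with ⟨-, F, iF, iFin, hF, ⟨e1⟩⟩ | ⟨-, F, iF, iFin, hF, ⟨e1⟩⟩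
    · right
      obtain ⟨F', iF', iFin', hF', ⟨e'⟩⟩ := BSW.Alt6.psl
      obtain ⟨e2⟩ := BSW.psl_iso_of_card (F := F) (F' := F') (by rw [hF, hF'])
      exact ⟨(e1.trans e2).trans e'.symm⟩
    · left
      obtain ⟨e2⟩ := Cfsg.Agent.S0255.result (F := F) (K := ZMod 2) hF (ZMod.card 2)
      obtain ⟨e3⟩ := sl32_iso
      exact ⟨(e1.trans e2).trans e3⟩
  · push Not at hno
    obtain ⟨M, hM, h2⟩ := hno
    have c : Conf G A z s P M := ⟨d, hP, hAP, hrel, hM, h2⟩
    by_cases hB : ∀ n ∈ M, (∀ v ∈ (P : Subgroup G) ⊓ M, n * v * n⁻¹ ∈ (P : Subgroup G) ⊓ M) →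
        ∀ v ∈ (P : Subgroup G) ⊓ M, n * v = v * n
    · exact Or.inl (c.compl hB)
    · right
      push Not at hB
      obtain ⟨n, hn, hnV, v, hv, hne⟩ := hB
      obtain ⟨u, h1, h3, h4, h5, h6, h7, h8⟩ := c.active hn hnV hv hne
      have a : Conf.Act A M z s P n u := ⟨c, hn, hnV, h1, h3, h4, h5, h6, h7, h8⟩
      obtain ⟨T, hT, -⟩ := c.sylM
      rcases a.order T hT with ⟨h9, h10⟩ | ⟨h9, h10, h11⟩
      · exact Or.inl (a.four T hT h9 h10)
      · exact Or.inr (Or.inl (a.five T hT h9 h10 h11))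

end Cfsg.Agent.H9.D8
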