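import Cfsg.Agent.H27.Util
import Cfsg.Agent.H27.ClifN
import Cfsg.Agent.H27.TISolv3
import Cfsg.Agent.H3.BrauerE
import Cfsg.Agent.H3.Basic2
import Cfsg.Agent.H3.Perm
import Cfsg.Agent.H20.ZFpf

set_option autoImplicit false
set_option linter.unusedSectionVars false
set_option linter.unusedVariables false

/-! Characters multiplicative on coprime elements: characters. -/

open Cfsg

namespace Cfsg.Agent.H9.MC

open Subgroup
open scoped commutatorElement

variable {G : Type*} [Group G]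

/-- The character condition. -/
def Hyp (G : Type*) [Group G] : Prop :=
  ∀ (x y : G) (χ : Cfsg.IrrCharacter G), x ≠ 1 → y ≠ 1 →
    (∃ p q a b : ℕ, p.Prime ∧ q.Prime ∧ p ≠ q ∧ orderOf x = p ^ a ∧ orderOf y = q ^ b) →
    (χ : G → ℂ) (x * y) = (χ : G → ℂ) x * (χ : G → ℂ) y

/-- Vanishing on the nonidentity `p`-elements. -/
def Van (χ : G → ℂ) (p : ℕ) : Prop := ∀ x : G, x ≠ 1 → (∃ a, orderOf x = p ^ a) → χ x = 0

theorem orderOf_cj (z x : G) : orderOf (z * x * z⁻¹) = orderOf x := by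
  rw [← MulAut.conj_apply]; exact MulEquiv.orderOf_eq _ _

variable [Finite G]

theorem van1 (h : Hyp G) (χ : IrrCharacter G) (hχ : (χ : G → ℂ) 1 ≠ 1) {x y : G} (hx : x ≠ 1)
    (hy : y ≠ 1) {p q a b : ℕ} (hp : p.Prime) (hq : q.Prime) (hpq : p ≠ q)
    (hxo : orderOf x = p ^ a) (hyo : orderOf y = q ^ b) :
    (χ : G → ℂ) x = 0 ∨ (χ : G → ℂ) y = 0 := by
  classical
  have := Fintype.ofFinite G
  have h3 := H27.irr_sum_conj_mul χ.2 x y
  have h4 : ∀ z : G, (χ : G → ℂ) (z * x * z⁻¹ * y) = (χ : G → ℂ) x * (χ : G → ℂ) y := fun z => by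
    rw [h (z * x * z⁻¹) y χ (by rwa [Ne, conj_eq_one_iff]) hy
      ⟨p, q, a, b, hp, hq, hpq, by rw [orderOf_cj]; exact hxo, hyo⟩,
      H27.isCharacter_conj (H27.isIrr_isCharacter χ.2)]
  simp only [h4, Finset.sum_const, Finset.card_univ, nsmul_eq_mul] at h3
  have h0 := H27.isIrr_one_ne_zero χ.2
  have hG : (Fintype.card G : ℂ) ≠ 0 := by exact_mod_cast Fintype.card_ne_zero
  rw [eq_div_iff h0] at h3
  have h7 : (Fintype.card G : ℂ) * ((χ : G → ℂ) x * (χ : G → ℂ) y * ((χ : G → ℂ) 1 - 1)) = 0 := by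
    linear_combination h3
  rcases mul_eq_zero.mp h7 with h8 | h8
  · exact absurd h8 hG
  rcases mul_eq_zero.mp h8 with h9 | h9
  · exact mul_eq_zero.mp h9
  · exact absurd (sub_eq_zero.mp h9) hχ

theorem van_or (h : Hyp G) (χ : IrrCharacter G) (hχ : (χ : G → ℂ) 1 ≠ 1) {p q : ℕ}
    (hp : p.Prime) (hq : q.Prime) (hpq : p ≠ q) : Van (χ : G → ℂ) p ∨ Van (χ : G → ℂ) q := by
  by_cases h1 : Van (χ : G → ℂ) p
  · exact Or.inl h1
  · right
    rintro y hy ⟨b, hb⟩
    unfold Van at h1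
    push Not at h1
    obtain ⟨x, hx, ⟨a, ha⟩, hne⟩ := h1
    exact (van1 h χ hχ hx hy hp hq hpq ha hb).resolve_left hne

theorem van_dvd {χ : G → ℂ} (hχ : IsCharacter G χ) {p : ℕ} (hp : p.Prime) (hv : Van χ p) {d : ℕ}
    (hd : χ 1 = d) : p ^ (Nat.card G).factorization p ∣ d := by
  haveI : Fact p.Prime := ⟨hp⟩
  obtain ⟨P⟩ : Nonempty (Sylow p G) := inferInstance
  have hPv : ∀ g : G, g ∈ (P : Subgroup G) → g ≠ 1 → χ g = 0 := by
    intro g hg hg1
    apply hv g hg1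
    obtain ⟨k, hk⟩ := IsPGroup.iff_orderOf.mp P.isPGroup' ⟨g, hg⟩
    exact ⟨k, by rw [← hk, Subgroup.orderOf_mk]⟩
  obtain ⟨k, hk⟩ := H3.card_dvd_degree_of_vanish (P : Subgroup G) hχ hPv
  rw [← P.card_eq_multiplicity]
  refine ⟨k, ?_⟩
  rw [hd] at hk
  exact_mod_cast hk

theorem exists_nonlinear (hna : commutator G ≠ ⊥) : ∃ χ : IrrCharacter G, (χ : G → ℂ) 1 ≠ 1 := by
  by_contra hcon
  push Not at hcon
  apply hna
  rw [eq_bot_iff]
  intro g hg
  rw [mem_bot]
  have h1 : IsConj g 1 := by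
    rw [H3.isConj_iff_irr]
    intro χ
    rw [hcon χ]
    exact H3.linear_commutator (H27.isIrr_isCharacter χ.2) (hcon χ) hg
  exact isConj_one_left.mp h1

theorem key (h : Hyp G) (χ : IrrCharacter G) (hχ : (χ : G → ℂ) 1 ≠ 1) :
    ∃ p : ℕ, p.Prime ∧ (∀ q : ℕ, q.Prime → q ≠ p → Van (χ : G → ℂ) q) ∧
      Nat.card G / p ^ (Nat.card G).factorization p < p ^ (Nat.card G).factorization p := by
  obtain ⟨d, hd0, hd⟩ := H3.irr_one_eq_nat χ.2
  have hn : Nat.card G ≠ 0 := Nat.card_pos.ne'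
  have hne : (χ : G → ℂ) ≠ fun _ => 1 := by
    intro h1; exact hχ (congrFun h1 1)
  have hlt := H27.degree_sq_lt χ.2 hne
  have hdd : charDegree (χ : G → ℂ) = d := by
    have := H27.charDegree_cast (H27.isIrr_isCharacter χ.2)
    rw [hd] at this
    exact_mod_cast this
  rw [hdd] at hlt
  have hex : ∃ p : ℕ, p.Prime ∧ ¬ Van (χ : G → ℂ) p := by
    by_contra hcon
    push Not at hcon
    have h1 : Nat.card G ∣ d := by
      rw [Nat.dvd_iff_prime_pow_dvd_dvd]
      intro q k hq hk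
      exact (pow_dvd_pow q ((hq.pow_dvd_iff_le_factorization hn).mp hk)).trans
        (van_dvd (H27.isIrr_isCharacter χ.2) hq (hcon q hq) hd)
    have h2 := Nat.le_of_dvd hd0 h1
    nlinarith
  obtain ⟨p, hp, hnv⟩ := hex
  have hv : ∀ q : ℕ, q.Prime → q ≠ p → Van (χ : G → ℂ) q := fun q hq hqp =>
    (van_or h χ hχ hq hp hqp).resolve_right hnv
  refine ⟨p, hp, hv, ?_⟩
  have h1 : Nat.card G / p ^ (Nat.card G).factorization p ∣ d := by
    rw [Nat.dvd_iff_prime_pow_dvd_dvd]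
    intro q k hq hk
    by_cases hqp : q = p
    · subst hqp
      have h2 : k = 0 := by
        by_contra hk0
        exact Nat.not_dvd_ordCompl hq hn ((dvd_pow_self q hk0).trans hk)
      rw [h2, pow_zero]; exact one_dvd _
    · exact (pow_dvd_pow q ((hq.pow_dvd_iff_le_factorization hn).mp
        (hk.trans (Nat.ordCompl_dvd _ _)))).trans
        (van_dvd (H27.isIrr_isCharacter χ.2) hq (hv q hq hqp) hd)
  have h2 := Nat.le_of_dvd hd0 h1
  have h3 := Nat.ordProj_mul_ordCompl_eq_self (Nat.card G) p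
  by_contra h4
  push Not at h4
  have h5 : Nat.card G ≤ d * d := by
    calc Nat.card G = _ := h3.symm
      _ ≤ d * d := Nat.mul_le_mul (h4.trans h2) h2
  nlinarith

theorem exists_p (h : Hyp G) (hna : commutator G ≠ ⊥) :
    ∃ p : ℕ, p.Prime ∧ ∀ χ : IrrCharacter G, (χ : G → ℂ) 1 ≠ 1 →
      ∀ q : ℕ, q.Prime → q ≠ p → Van (χ : G → ℂ) q := by
  obtain ⟨χ₀, hχ₀⟩ := exists_nonlinear hna
  obtain ⟨p, hp, -, hlt⟩ := key h χ₀ hχ₀
  refine ⟨p, hp, fun χ hχ => ?_⟩
  obtain ⟨p₁, hp₁, hv, hlt₁⟩ := key h χ hχ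
  have hpp : p₁ = p := by
    by_contra hne
    have hn : 0 < Nat.card G := Nat.card_pos
    have hd : ∀ r s : ℕ, r.Prime → s.Prime → r ≠ s →
        r ^ (Nat.card G).factorization r ≤ Nat.card G / s ^ (Nat.card G).factorization s := by
      intro r s hr hs hrs
      have h1 : r ^ (Nat.card G).factorization r ∣ Nat.card G := Nat.ordProj_dvd _ _
      have h3 := Nat.ordProj_mul_ordCompl_eq_self (Nat.card G) s
      have h2 : Nat.Coprime (r ^ (Nat.card G).factorization r) (s ^ (Nat.card G).factorization s) :=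
        Nat.Coprime.pow _ _ ((Nat.coprime_primes hr hs).mpr hrs)
      have h4 : r ^ (Nat.card G).factorization r ∣
          s ^ (Nat.card G).factorization s * (Nat.card G / s ^ (Nat.card G).factorization s) := by
        rw [h3]; exact h1
      exact Nat.le_of_dvd (Nat.ordCompl_pos _ hn.ne') (h2.dvd_of_dvd_mul_left h4)
    have h1 := hd p₁ p hp₁ hp hne
    have h2 := hd p p₁ hp hp₁ (Ne.symm hne)
    omega
  rw [← hpp]
  exact hv

/-- nonlinear characters vanish on the `p'`-elements -/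
theorem van_reg {p : ℕ} (χ : IrrCharacter G)
    (hv : ∀ q : ℕ, q.Prime → q ≠ p → Van (χ : G → ℂ) q) {x : G} (hx : x ≠ 1)
    (hco : ¬ p ∣ orderOf x) : (χ : G → ℂ) x = 0 := by
  obtain ⟨q, hq, hqx⟩ := Nat.exists_prime_and_dvd (n := orderOf x) (by rwa [Ne, orderOf_eq_one_iff])
  have hqp : q ≠ p := by rintro rfl; exact hco hqx
  obtain ⟨d, hd0, hd⟩ := H3.irr_one_eq_nat χ.2
  exact H3.char_eq_zero_of_defect_zero χ.2 hq (n := (Nat.card G).factorization q)
    (Nat.pow_succ_factorization_not_dvd Nat.card_pos.ne' hq) hd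
    (van_dvd (H27.isIrr_isCharacter χ.2) hq (hv q hq hqp) hd) x hqx

theorem conj_coset {x : G} (h2 : ∀ χ : IrrCharacter G, (χ : G → ℂ) 1 ≠ 1 → (χ : G → ℂ) x = 0)
    {z : G} (hz : x⁻¹ * z ∈ commutator G) : IsConj x z := by
  classical
  have := Fintype.ofFinite (Cfsg.IrrCharacter G)
  by_contra hcon
  have h3 := Cfsg.Agent.H3.column_orth x z
  rw [if_neg hcon] at h3
  have h4 : ∀ χ : Cfsg.IrrCharacter G, (χ : G → ℂ) x * (starRingEnd ℂ) ((χ : G → ℂ) z)
      = ((‖(χ : G → ℂ) x‖ ^ 2 : ℝ) : ℂ) := by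
    intro χ
    by_cases hχ : (χ : G → ℂ) 1 = 1
    · obtain ⟨μ, hμ⟩ := H27.exists_hom_of_one (H27.isIrr_isCharacter χ.2) hχ
      have h5 : (χ : G → ℂ) z = (χ : G → ℂ) x := by
        rw [hμ, hμ]
        have h6 : μ (x⁻¹ * z) = 1 :=
          Abelianization.commutator_subset_ker μ hz
        rw [map_mul, map_inv] at h6
        have h7 : μ z = μ x := (inv_mul_eq_one.mp h6).symm
        rw [h7]
      rw [h5, Complex.mul_conj, Complex.normSq_eq_norm_sq]
    · rw [h2 χ hχ]; simp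
  rw [Finset.sum_congr rfl fun χ _ => h4 χ, ← Complex.ofReal_sum, Complex.ofReal_eq_zero,
    Finset.sum_eq_zero_iff_of_nonneg (fun _ _ => by positivity)] at h3
  have h5 := h3 (H27.oneIrr G) (Finset.mem_univ _)
  simp at h5

theorem dvd_index {q : ℕ} (hq : q.Prime)
    (hv : ∀ χ : IrrCharacter G, (χ : G → ℂ) 1 ≠ 1 → Van (χ : G → ℂ) q) :
    q ^ (Nat.card G).factorization q ∣ (commutator G).index := by
  classical
  have := Fintype.ofFinite (IrrCharacter G)
  have h1 := H27.sum_charDegree_sq (G := G)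
  rw [← Finset.sum_filter_add_sum_filter_not Finset.univ
    (fun χ : IrrCharacter G => (χ : G → ℂ) 1 = 1)] at h1
  have h2 : ∑ χ ∈ Finset.univ.filter (fun χ : IrrCharacter G => (χ : G → ℂ) 1 = 1),
      charDegree (χ : G → ℂ) ^ 2 = (commutator G).index := by
    rw [← H3.card_linear_irr, Nat.card_eq_fintype_card, Fintype.card_subtype,
      Finset.card_eq_sum_ones]
    refine Finset.sum_congr rfl fun χ hχ => ?_
    have h3 : (charDegree (χ : G → ℂ) : ℂ) = 1 := by
      rw [H27.charDegree_cast (H27.isIrr_isCharacter χ.2)]; exact (Finset.mem_filter.mp hχ).2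
    have h4 : charDegree (χ : G → ℂ) = 1 := by exact_mod_cast h3
    rw [h4, one_pow]
  rw [h2] at h1
  have h5 : q ^ (Nat.card G).factorization q ∣
      ∑ χ ∈ Finset.univ.filter (fun χ : IrrCharacter G => ¬ (χ : G → ℂ) 1 = 1),
        charDegree (χ : G → ℂ) ^ 2 := by
    refine Finset.dvd_sum fun χ hχ => ?_
    refine Dvd.dvd.trans (van_dvd (H27.isIrr_isCharacter χ.2) hq
      (hv χ (Finset.mem_filter.mp hχ).2) (H27.charDegree_cast (H27.isIrr_isCharacter χ.2)).symm)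
      (dvd_pow_self _ two_ne_zero)
  have h6 : q ^ (Nat.card G).factorization q ∣ Nat.card G := Nat.ordProj_dvd _ _
  rw [← h1] at h6
  exact (Nat.dvd_add_left h5).mp (by rw [h1]; rw [h1] at h6; exact h6)

theorem pgroup_commutator {p : ℕ} (hp : p.Prime)
    (hv : ∀ χ : IrrCharacter G, (χ : G → ℂ) 1 ≠ 1 →
      ∀ q : ℕ, q.Prime → q ≠ p → Van (χ : G → ℂ) q) : IsPGroup p (commutator G) := by
  have hn : Nat.card G ≠ 0 := Nat.card_pos.ne'
  have h1 : ∀ {q : ℕ}, q.Prime → q ∣ Nat.card (commutator G) → q = p := by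
    intro q hq hd
    by_contra hqp
    have h2 := dvd_index hq (fun χ hχ => hv χ hχ q hq hqp)
    have h3 : q ^ ((Nat.card G).factorization q + 1) ∣ Nat.card G := by
      have h4 := mul_dvd_mul hd h2
      rw [card_mul_index] at h4
      rwa [pow_succ, mul_comm]
    exact Nat.pow_succ_factorization_not_dvd hn hq h3
  exact IsPGroup.of_card (Nat.eq_prime_pow_of_unique_prime_dvd Nat.card_pos.ne' h1)

end Cfsg.Agent.H9.MC
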