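import Cfsg.Agent.H9.MCA

set_option autoImplicit false
set_option linter.unusedSectionVars false
set_option linter.unusedVariables false

/-! Characters multiplicative on coprime elements: group structure. -/

open Cfsg

namespace Cfsg.Agent.H9.MC

open Subgroup
open scoped commutatorElement

variable {G : Type*} [Group G] [Finite G]

/-- an injective-hence-surjective twisted commutator map on a normal subgroup -/
theorem exists_conj {D : Subgroup G} [hD : D.Normal] {s : G} (hs : ∀ d ∈ D, s * d = d * s → d = 1)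
    {e : G} (he : e ∈ D) : ∃ d ∈ D, d * s * d⁻¹ = s * e := by
  have hm : ∀ d : D, s⁻¹ * d * s * (d : G)⁻¹ ∈ D := fun d => by
    apply D.mul_mem _ (D.inv_mem d.2)
    have := hD.conj_mem d d.2 s⁻¹
    rwa [inv_inv] at this
  let f : D → D := fun d => ⟨s⁻¹ * d * s * (d : G)⁻¹, hm d⟩
  have hf : Function.Injective f := by
    intro a b hab
    have h1 : s⁻¹ * a * s * (a : G)⁻¹ = s⁻¹ * b * s * (b : G)⁻¹ := congrArg Subtype.val hab
    have h2 : (a : G) * s * (a : G)⁻¹ = b * s * (b : G)⁻¹ := by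
      have := congrArg (fun z => s * z) h1
      simpa [mul_assoc] using this
    have h3 : s * ((b : G)⁻¹ * a) = (b : G)⁻¹ * a * s := by
      have h4 : (a : G) * s = b * s * (b : G)⁻¹ * a := by rw [← h2]; group
      calc s * ((b : G)⁻¹ * a) = (b : G)⁻¹ * (b * s * (b : G)⁻¹ * a) := by group
        _ = (b : G)⁻¹ * (a * s) := by rw [h4]
        _ = (b : G)⁻¹ * a * s := by group
    have h4 := hs _ (D.mul_mem (D.inv_mem b.2) a.2) h3
    exact Subtype.ext (inv_mul_eq_one.mp h4).symm
  obtain ⟨d, hd⟩ := (Finite.injective_iff_surjective.mp hf) ⟨e, he⟩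
  refine ⟨d, d.2, ?_⟩
  have h1 : s⁻¹ * d * s * (d : G)⁻¹ = e := congrArg Subtype.val hd
  rw [← h1]; group

/-- the structure in the third case -/
def Str (G : Type*) [Group G] : Prop :=
  ∃ (p : ℕ) (_ : Fact p.Prime) (P : Sylow p G) (A : Subgroup G), (P : Subgroup G).Normal ∧ IsCyclic ↥A ∧ A ≠ ⊥ ∧ (Nat.card ↥A).Coprime p ∧ A ⊔ (P : Subgroup G) = ⊤ ∧ IsMulCommutative ↥((P : Subgroup G) ⊓ Subgroup.centralizer (A : Set G)) ∧ (⁅A, (P : Subgroup G)⁆).Normal ∧ ((P : Subgroup G) ⊓ Subgroup.centralizer (A : Set G)) ⊔ ⁅A, (P : Subgroup G)⁆ = (P : Subgroup G) ∧ ((P : Subgroup G) ⊓ Subgroup.centralizer (A : Set G)) ⊓ ⁅A, (P : Subgroup G)⁆ = ⊥ ∧ ∀ a ∈ A, a ≠ 1 → ∀ d ∈ ⁅A, (P : Subgroup G)⁆, a * d = d * a → d = 1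

theorem forward (h : Hyp G) (hna : commutator G ≠ ⊥) (hnp : ∀ p : ℕ, p.Prime → ¬ IsPGroup p G) :
    Str G := by
  obtain ⟨p, hp, hv⟩ := exists_p h hna
  haveI : Fact p.Prime := ⟨hp⟩
  have hG' : IsPGroup p (commutator G) := pgroup_commutator hp hv
  obtain ⟨P⟩ : Nonempty (Sylow p G) := inferInstance
  have hle : commutator G ≤ (P : Subgroup G) := by
    have h1 := P.is_maximal' (IsPGroup.to_sup_of_normal_left hG' P.isPGroup') le_sup_right
    rw [← h1]; exact le_sup_left
  have hPn : (P : Subgroup G).Normal := Subgroup.Normal.of_commutator_le G hle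
  obtain ⟨A, hA⟩ := Subgroup.exists_right_complement'_of_coprime (N := (P : Subgroup G)) P.card_coprime_index
  have hsup : A ⊔ (P : Subgroup G) = ⊤ := by rw [sup_comm]; exact hA.sup_eq_top
  have hdis : ∀ x, x ∈ (P : Subgroup G) → x ∈ A → x = 1 := fun x h1 h2 =>
    Subgroup.disjoint_def.mp hA.disjoint h1 h2
  have hcA : Nat.card A = (P : Subgroup G).index := by
    have h1 := hA.card_mul
    have h2 := card_mul_index (P : Subgroup G)
    have h3 : 0 < Nat.card (P : Subgroup G) := Nat.card_pos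
    exact Nat.eq_of_mul_eq_mul_left h3 (h1.trans h2.symm)
  have hpA : ¬ p ∣ Nat.card A := by rw [hcA]; exact P.not_dvd_index
  have hA1 : A ≠ ⊥ := by
    rintro rfl
    rw [bot_sup_eq] at hsup
    apply hnp p hp
    have h1 := P.isPGroup'
    intro g
    obtain ⟨k, hk⟩ := h1 ⟨g, by rw [hsup]; trivial⟩
    exact ⟨k, by simpa using congrArg Subtype.val hk⟩
  have hAab : ∀ a ∈ A, ∀ b ∈ A, a * b = b * a := by
    intro a ha b hb
    have h1 : ⁅a, b⁆ ∈ (P : Subgroup G) := hle (by
      rw [_root_.commutator_def]; exact commutator_mem_commutator (mem_top _) (mem_top _))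
    have h2 : ⁅a, b⁆ ∈ A := by
      rw [commutatorElement_def]
      exact A.mul_mem (A.mul_mem (A.mul_mem ha hb) (A.inv_mem ha)) (A.inv_mem hb)
    have h3 := hdis _ h1 h2
    exact commutatorElement_eq_one_iff_mul_comm.mp h3
  have hordA : ∀ a ∈ A, ¬ p ∣ orderOf a := by
    intro a ha hd
    apply hpA
    refine hd.trans ?_
    have := orderOf_dvd_natCard (⟨a, ha⟩ : A)
    rwa [Subgroup.orderOf_mk] at this
  -- conjugacy
  have hconj : ∀ a ∈ A, a ≠ 1 → ∀ z, a⁻¹ * z ∈ commutator G → IsConj a z := by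
    intro a ha ha1 z hz
    exact conj_coset (fun χ hχ => van_reg χ (hv χ hχ) ha1 (hordA a ha)) hz
  -- `x` a fixed nonidentity element
  obtain ⟨x, hx, hx1⟩ : ∃ x : G, x ∈ A ∧ x ≠ 1 := by
    obtain ⟨a, ha⟩ := Subgroup.ne_bot_iff_exists_ne_one.mp hA1
    exact ⟨a, a.2, fun h1 => ha (Subtype.ext h1)⟩
  have hDle : ⁅A, (P : Subgroup G)⁆ ≤ commutator G := by
    rw [_root_.commutator_def]; exact commutator_mono le_top le_top
  have hDge : commutator G ≤ ⁅A, (P : Subgroup G)⁆ := by
    intro g hg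
    obtain ⟨c, hc⟩ := isConj_iff.mp (hconj x hx hx1 (x * g) (by rwa [inv_mul_cancel_left]))
    have hcm : c ∈ (P : Subgroup G) ⊔ A := by rw [sup_comm, hsup]; trivial
    obtain ⟨u, hu, a, ha, rfl⟩ := mem_sup_of_normal_left.mp hcm
    have h1 : g = ⁅x⁻¹, u⁆ := by
      have h2 : u * a * x * (u * a)⁻¹ = u * x * u⁻¹ := by
        rw [mul_inv_rev, mul_assoc u a x, hAab a ha x hx]; group
      rw [h2] at hc
      rw [commutatorElement_def, inv_inv]
      have h3 : g = x⁻¹ * (u * x * u⁻¹) := by rw [hc]; group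
      rw [h3]; group
    rw [h1]
    exact commutator_mem_commutator (A.inv_mem hx) hu
  have hD : ⁅A, (P : Subgroup G)⁆ = commutator G := le_antisymm hDle hDge
  have hfpf : ∀ a ∈ A, a ≠ 1 → ∀ d ∈ commutator G, a * d = d * a → d = 1 := by
    intro a ha ha1 d hd hcomm
    obtain ⟨c, hc⟩ := isConj_iff.mp (hconj a ha ha1 (a * d) (by rwa [inv_mul_cancel_left]))
    have h1 : orderOf (a * d) = orderOf a := by rw [← hc, orderOf_cj]
    obtain ⟨k, hk⟩ := IsPGroup.iff_orderOf.mp hG' ⟨d, hd⟩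
    rw [Subgroup.orderOf_mk] at hk
    have hcop : (orderOf a).Coprime (orderOf d) := by
      rw [hk]
      exact (Nat.Coprime.pow_left k ((Nat.Prime.coprime_iff_not_dvd hp).mpr (hordA a ha))).symm
    have hcomm' : Commute a d := hcomm
    rw [hcomm'.orderOf_mul_eq_mul_orderOf_of_coprime hcop] at h1
    have h2 : 0 < orderOf a := orderOf_pos a
    have h3 : orderOf d = 1 := by
      have : orderOf a * orderOf d = orderOf a * 1 := by rw [h1, mul_one]
      exact Nat.eq_of_mul_eq_mul_left h2 this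
    exact orderOf_eq_one_iff.mp h3
  have hCinf : ∀ c, c ∈ (P : Subgroup G) ⊓ centralizer (A : Set G) → c ∈ commutator G → c = 1 := by
    intro c hc hc2
    exact hfpf x hx hx1 c hc2 (mem_centralizer_iff.mp hc.2 x hx)
  refine ⟨p, inferInstance, P, A, hPn, ?_, hA1, ?_, hsup, ?_, ?_, ?_, ?_, ?_⟩
  · refine H20.isCyclic_of_fpf_comm (K := commutator G) hna ?_ hfpf ?_ hAab
    · rw [normalizer_eq_top]; exact le_top
    · obtain ⟨k, hk⟩ := (IsPGroup.iff_card (p := p)).mp hG'
      rw [hk]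
      exact (Nat.Coprime.pow_left k ((Nat.Prime.coprime_iff_not_dvd hp).mpr hpA)).symm
  · exact ((Nat.Prime.coprime_iff_not_dvd hp).mpr hpA).symm
  · refine ⟨⟨fun a b => Subtype.ext ?_⟩⟩
    have h1 : ⁅(a : G), (b : G)⁆ = 1 := by
      apply hCinf
      · rw [commutatorElement_def]
        exact mul_mem (mul_mem (mul_mem a.2 b.2) (inv_mem a.2)) (inv_mem b.2)
      · rw [_root_.commutator_def]; exact commutator_mem_commutator (mem_top _) (mem_top _)
    exact commutatorElement_eq_one_iff_mul_comm.mp h1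
  · rw [hD]; infer_instance
  · rw [hD]
    apply le_antisymm
    · exact sup_le inf_le_left hle
    · intro u hu
      have hz : x⁻¹ * (u * x * u⁻¹) ∈ commutator G := by
        have : x⁻¹ * (u * x * u⁻¹) = ⁅x⁻¹, u⁆ := by rw [commutatorElement_def]; group
        rw [this, _root_.commutator_def]; exact commutator_mem_commutator (mem_top _) (mem_top _)
      obtain ⟨d, hd, hd2⟩ := exists_conj (D := commutator G) (hfpf x hx hx1) hz
      rw [mul_inv_cancel_left] at hd2
      -- `d * x * d⁻¹ = u * x * u⁻¹`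
      have hcx : x * (d⁻¹ * u) = d⁻¹ * u * x := by
        calc x * (d⁻¹ * u) = d⁻¹ * (d * x * d⁻¹) * u := by group
          _ = d⁻¹ * (u * x * u⁻¹) * u := by rw [hd2]
          _ = d⁻¹ * u * x := by group
      have hcP : d⁻¹ * u ∈ (P : Subgroup G) := mul_mem (inv_mem (hle hd)) hu
      have hcC : d⁻¹ * u ∈ (P : Subgroup G) ⊓ centralizer (A : Set G) := by
        refine ⟨hcP, mem_centralizer_iff.mpr ?_⟩
        intro b hb
        have h1 : ⁅b, d⁻¹ * u⁆ = 1 := by
          refine hfpf x hx hx1 _ ?_ ?_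
          · rw [_root_.commutator_def]; exact commutator_mem_commutator (mem_top _) (mem_top _)
          · have c1 : Commute x b := hAab x hx b hb
            have c2 : Commute x (d⁻¹ * u) := hcx
            rw [commutatorElement_def]
            exact ((c1.mul_right c2).mul_right c1.inv_right).mul_right c2.inv_right
        exact commutatorElement_eq_one_iff_mul_comm.mp h1
      have : u = d * (d⁻¹ * u) := by group
      rw [this, sup_comm]
      exact mul_mem_sup hd hcC
  · rw [hD, eq_bot_iff]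
    intro c hc
    rw [mem_bot]
    exact hCinf c hc.1 hc.2
  · rw [hD]; exact hfpf

theorem reverse (hs : Str G) : Hyp G := by
  classical
  have := Fintype.ofFinite G
  obtain ⟨p, hpf, P, A, hPn, hAc, hA1, hcop, hsup, hCc, hDn, hCD, hinf, hfpf⟩ := hs
  have hp : p.Prime := hpf.out
  set D : Subgroup G := ⁅A, (P : Subgroup G)⁆ with hDdef
  set C : Subgroup G := (P : Subgroup G) ⊓ centralizer (A : Set G) with hCdef
  have hDP : D ≤ (P : Subgroup G) := by rw [← hCD]; exact le_sup_right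
  have hdec : ∀ g : G, ∃ a ∈ A, ∃ c ∈ C, ∃ d ∈ D, g = a * c * d := by
    intro g
    have hg : g ∈ A ⊔ (P : Subgroup G) := by rw [hsup]; trivial
    obtain ⟨a, ha, u, hu, rfl⟩ := mem_sup_of_normal_right.mp hg
    rw [← hCD] at hu
    obtain ⟨c, hc, d, hd, rfl⟩ := mem_sup_of_normal_right.mp hu
    exact ⟨a, ha, c, hc, d, hd, by group⟩
  have hAab : ∀ a ∈ A, ∀ b ∈ A, a * b = b * a := by
    intro a ha b hb
    letI := hAc.commGroup
    exact congrArg Subtype.val (mul_comm (⟨a, ha⟩ : A) ⟨b, hb⟩)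
  have hCab : ∀ a ∈ C, ∀ b ∈ C, a * b = b * a := by
    intro a ha b hb
    exact congrArg Subtype.val (hCc.is_comm.comm (⟨a, ha⟩ : C) ⟨b, hb⟩)
  have hAC : ∀ a ∈ A, ∀ c ∈ C, a * c = c * a := by
    intro a ha c hc
    exact mem_centralizer_iff.mp hc.2 a ha
  have hG'D : commutator G ≤ D := by
    rw [_root_.commutator_def, commutator_le]
    intro g _ h _
    obtain ⟨a, ha, c, hc, d, hd, rfl⟩ := hdec g
    obtain ⟨a', ha', c', hc', d', hd', rfl⟩ := hdec h
    rw [← QuotientGroup.eq_one_iff, commutatorElement_def]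
    have e1 : ((a * c * d : G) : G ⧸ D) = ((a * c : G) : G ⧸ D) := by
      rw [QuotientGroup.mk_mul, (QuotientGroup.eq_one_iff d).mpr hd, mul_one]
    have e2 : ((a' * c' * d' : G) : G ⧸ D) = ((a' * c' : G) : G ⧸ D) := by
      rw [QuotientGroup.mk_mul, (QuotientGroup.eq_one_iff d').mpr hd', mul_one]
    simp only [QuotientGroup.mk_mul, QuotientGroup.mk_inv] at e1 e2 ⊢
    rw [e1, e2]
    have h1 : (a * c) * (a' * c') = (a' * c') * (a * c) := by
      have c1 : Commute a a' := hAab a ha a' ha'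
      have c2 : Commute a c' := hAC a ha c' hc'
      have c3 : Commute c a' := (hAC a' ha' c hc).symm
      have c4 : Commute c c' := hCab c hc c' hc'
      exact (c1.mul_right c2).mul_left (c3.mul_right c4)
    have h2 : ((a : G ⧸ D) * c) * (a' * c') = (a' * c') * (a * c) := by
      have := congrArg (QuotientGroup.mk : G → G ⧸ D) h1
      simpa only [QuotientGroup.mk_mul] using this
    rw [h2]; group
  have hpg : ∀ u ∈ (P : Subgroup G), ∃ k, orderOf u = p ^ k := by
    intro u hu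
    obtain ⟨k, hk⟩ := IsPGroup.iff_orderOf.mp P.isPGroup' ⟨u, hu⟩
    exact ⟨k, by rw [← hk, Subgroup.orderOf_mk]⟩
  -- conjugacy of cosets
  have hcoset : ∀ g : G, g ∉ (P : Subgroup G) → ∀ e ∈ D, IsConj g (g * e) := by
    intro g hg
    obtain ⟨a, ha, c, hc, d0, hd0, rfl⟩ := hdec g
    have ha1 : a ≠ 1 := by
      rintro rfl
      apply hg
      rw [one_mul]
      exact mul_mem hc.1 (hDP hd0)
    have hs : ∀ d ∈ D, a * c * d = d * (a * c) → d = 1 := by
      intro d hd hcomm
      set k := Nat.card (P : Subgroup G) with hk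
      have h1 : c ^ k = 1 := by
        have := pow_card_eq_one' (x := (⟨c, hc.1⟩ : (P : Subgroup G)))
        exact congrArg Subtype.val this
      have hac : Commute a c := hAC a ha c hc
      have h2 : (a * c) ^ k = a ^ k := by rw [hac.mul_pow, h1, mul_one]
      have h3 : a ^ k ≠ 1 := by
        intro h3
        have h4 : orderOf a ∣ k := orderOf_dvd_of_pow_eq_one h3
        have h5 : orderOf a ∣ Nat.card A := by
          have := orderOf_dvd_natCard (⟨a, ha⟩ : A)
          rwa [Subgroup.orderOf_mk] at this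
        obtain ⟨m, hm⟩ := (IsPGroup.iff_card (p := p)).mp P.isPGroup'
        have h6 : Nat.Coprime (Nat.card A) k := by
          rw [hk, hm]; exact Nat.Coprime.pow_right m hcop
        have h7 : orderOf a = 1 := Nat.eq_one_of_dvd_coprimes h6 h5 h4
        exact ha1 (orderOf_eq_one_iff.mp h7)
      have hcm : Commute (a * c) d := hcomm
      have h8 : Commute ((a * c) ^ k) d := hcm.pow_left k
      rw [h2] at h8
      exact hfpf (a ^ k) (A.pow_mem ha k) h3 d hd h8
    intro e he
    obtain ⟨x1, -, hx1⟩ := exists_conj (D := D) hs hd0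
    obtain ⟨x2, -, hx2⟩ := exists_conj (D := D) hs (D.mul_mem hd0 he)
    have c1 : IsConj (a * c) (a * c * d0) := isConj_iff.mpr ⟨x1, hx1⟩
    have c2 : IsConj (a * c) (a * c * (d0 * e)) := isConj_iff.mpr ⟨x2, hx2⟩
    rw [mul_assoc (a * c) d0 e]
    exact c1.symm.trans c2
  have hvan : ∀ (χ : IrrCharacter G), (χ : G → ℂ) 1 ≠ 1 → ∀ g : G, g ∉ (P : Subgroup G) →
      (χ : G → ℂ) g = 0 := by
    intro χ hχ g hg
    have h1 := H27.irr_sum_normal_eq χ.2 D g
    rw [if_neg] at h1
    · have h2 : ∀ n : D, (χ : G → ℂ) (n * g) = (χ : G → ℂ) g := by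
        intro n
        have h3 : (n : G) * g = g * (g⁻¹ * n * g) := by group
        rw [h3]
        have h4 : g⁻¹ * n * g ∈ D := by
          have := hDn.conj_mem n n.2 g⁻¹
          rwa [inv_inv] at this
        exact ((H3.isConj_iff_irr _ _).mp (hcoset g hg _ h4) χ).symm
      simp only [h2, Finset.sum_const, Finset.card_univ, nsmul_eq_mul] at h1
      rcases mul_eq_zero.mp h1 with h3 | h3
      · exfalso
        have : (Fintype.card D : ℂ) ≠ 0 := by exact_mod_cast Fintype.card_ne_zero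
        exact this h3
      · exact h3
    · intro hker
      apply hχ
      refine H27.irr_one_of_commutator χ.2 fun x y => ?_
      apply hker
      apply hG'D
      rw [_root_.commutator_def]; exact commutator_mem_commutator (mem_top _) (mem_top _)
  intro x y χ hx hy hex
  obtain ⟨r, q, a, b, hr, hq, hrq, hxo, hyo⟩ := hex
  by_cases hχ : (χ : G → ℂ) 1 = 1
  · obtain ⟨μ, hμ⟩ := H27.exists_hom_of_one (H27.isIrr_isCharacter χ.2) hχ
    rw [hμ, hμ, hμ, map_mul, Units.val_mul]
  have hnot : ∀ (z : G) (s c : ℕ), s.Prime → z ≠ 1 → orderOf z = s ^ c → s ≠ p → z ∉ (P : Subgroup G) := by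
    intro z s c hs hz hzo hsp hzP
    obtain ⟨k, hk⟩ := hpg z hzP
    have h1 : Nat.Coprime (s ^ c) (p ^ k) := Nat.Coprime.pow _ _ ((Nat.coprime_primes hs hp).mpr hsp)
    rw [← hzo, hk, Nat.coprime_self] at h1
    rw [h1] at hk
    exact hz (orderOf_eq_one_iff.mp hk)
  have hxy : r ≠ p ∨ q ≠ p := by
    by_contra hcon
    push Not at hcon
    exact hrq (hcon.1.trans hcon.2.symm)
  have hmulnot : x * y ∉ (P : Subgroup G) := by
    intro hmem
    have h1 : ((x : G) : G ⧸ (P : Subgroup G)) * (y : G) = 1 := by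
      rw [← QuotientGroup.mk_mul]; exact (QuotientGroup.eq_one_iff _).mpr hmem
    have ho : ∀ z : G, orderOf ((z : G) : G ⧸ (P : Subgroup G)) ∣ orderOf z := fun z =>
      orderOf_map_dvd (QuotientGroup.mk' (P : Subgroup G)) z
    have h2 : orderOf ((x : G) : G ⧸ (P : Subgroup G)) = orderOf ((y : G) : G ⧸ (P : Subgroup G)) := by
      rw [eq_inv_of_mul_eq_one_left h1, orderOf_inv]
    have h3 : Nat.Coprime (r ^ a) (q ^ b) := Nat.Coprime.pow _ _ ((Nat.coprime_primes hr hq).mpr hrq)
    have h4 : orderOf ((x : G) : G ⧸ (P : Subgroup G)) = 1 :=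
      Nat.eq_one_of_dvd_coprimes h3 (hxo ▸ ho x) (by rw [h2]; exact hyo ▸ ho y)
    have h5 : orderOf ((y : G) : G ⧸ (P : Subgroup G)) = 1 := by rw [← h2]; exact h4
    rcases hxy with h | h
    · exact hnot x r a hr hx hxo h ((QuotientGroup.eq_one_iff x).mp (orderOf_eq_one_iff.mp h4))
    · exact hnot y q b hq hy hyo h ((QuotientGroup.eq_one_iff y).mp (orderOf_eq_one_iff.mp h5))
  rw [hvan χ hχ _ hmulnot]
  rcases hxy with h | h
  · rw [hvan χ hχ x (hnot x r a hr hx hxo h), zero_mul]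
  · rw [hvan χ hχ y (hnot y q b hq hy hyo h), mul_zero]

theorem hyp_of_pgroup {p : ℕ} (hp : p.Prime) (hG : IsPGroup p G) : Hyp G := by
  intro x y χ hx hy hex
  exfalso
  obtain ⟨r, q, a, b, hr, hq, hrq, hxo, hyo⟩ := hex
  have key : ∀ (z : G) (s c : ℕ), s.Prime → z ≠ 1 → orderOf z = s ^ c → s = p := by
    intro z s c hs hz hzo
    haveI : Fact p.Prime := ⟨hp⟩
    by_contra hsp
    obtain ⟨k, hk⟩ := IsPGroup.iff_orderOf.mp hG z
    have h1 : Nat.Coprime (s ^ c) (p ^ k) := Nat.Coprime.pow _ _ ((Nat.coprime_primes hs hp).mpr hsp)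
    rw [← hzo, hk, Nat.coprime_self] at h1
    rw [h1] at hk
    exact hz (orderOf_eq_one_iff.mp hk)
  exact hrq ((key x r a hr hx hxo).trans (key y q b hq hy hyo).symm)

theorem hyp_of_comm (hG : IsMulCommutative G) : Hyp G := by
  intro x y χ hx hy hex
  obtain ⟨μ, hμ⟩ := H27.exists_hom_of_one (H27.isIrr_isCharacter χ.2) (H3.irr_degree_one_of_comm χ.2)
  rw [hμ, hμ, hμ, map_mul, Units.val_mul]

theorem comm_of_bot (hc : commutator G = ⊥) : IsMulCommutative G := by
  refine ⟨⟨fun a b => ?_⟩⟩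
  have h1 : ⁅a, b⁆ ∈ commutator G := by
    rw [_root_.commutator_def]
    exact Subgroup.commutator_mem_commutator (Subgroup.mem_top _) (Subgroup.mem_top _)
  rw [hc, Subgroup.mem_bot] at h1
  exact commutatorElement_eq_one_iff_mul_comm.mp h1

end Cfsg.Agent.H9.MC
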