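import Cfsg.Agent.H9.Sieve2
import Mathlib.GroupTheory.GroupAction.Jordan

set_option autoImplicit false
set_option linter.unusedSectionVars false
set_option linter.style.haveILetI false
set_option linter.unusedVariables false
set_option linter.unusedSimpArgs false

/-! There is no simple group of order 5400. -/

namespace Cfsg.Agent.H9.N5400

open Subgroup MulAction

/-- the fixed points of a `p`-element -/
theorem five_sylow_one {K : Type*} [Group K] [Finite K] {m : ℕ} (h : Nat.card K = 5 ^ 2 * m) (hm : m = 3 ∨ m = 9) :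
    Nat.card (Sylow 5 K) = 1 := by
  haveI : Fact (Nat.Prime 5) := ⟨by norm_num⟩
  obtain ⟨P⟩ : Nonempty (Sylow 5 K) := inferInstance
  have hm' : ¬ 5 ∣ m := by rcases hm with rfl | rfl <;> norm_num
  have h1 := Syl.card_sylow_dvd_of_card P h hm'
  have h2 : Nat.card (Sylow 5 K) % 5 = 1 := card_sylow_modEq_one 5 K
  have h3 : Nat.card (Sylow 5 K) ∣ 9 := h1.trans (by rcases hm with rfl | rfl <;> norm_num)
  have h4 : Nat.card (Sylow 5 K) ≤ 9 := Nat.le_of_dvd (by norm_num) h3
  generalize Nat.card (Sylow 5 K) = t at *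
  interval_cases t <;> omega

theorem five_sylow_two {K : Type*} [Group K] [Finite K] {m : ℕ} (h : Nat.card K = 5 ^ 2 * (2 * m)) (hm : m = 3 ∨ m = 9) :
    Nat.card (Sylow 5 K) = 1 := by
  haveI : Fact (Nat.Prime 5) := ⟨by norm_num⟩
  haveI : Fact (Nat.Prime 2) := ⟨by norm_num⟩
  obtain ⟨T⟩ : Nonempty (Sylow 2 K) := inferInstance
  have hT : Nat.card (T : Subgroup K) = 2 ^ 1 := by
    apply Syl.card_sylow_of_card T (m := 25 * m) (by rw [h]; ring)
    rcases hm with rfl | rfl <;> norm_num
  rw [pow_one] at hT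
  haveI hcyc : IsCyclic (T : Subgroup K) := isCyclic_of_prime_card hT
  have hmin : (Nat.card K).minFac = 2 := by
    rw [h, Nat.minFac_eq_two_iff]
    exact ⟨5 ^ 2 * m, by ring⟩
  have hc := IsCyclic.isComplement' hmin (P := T) hcyc
  set N := (MonoidHom.transferSylow T (IsCyclic.normalizer_le_centralizer hmin (P := T) hcyc)).ker with hN
  have hidx : N.index = 2 := by
    have := hc.symm.index_eq_card
    rw [this, hT]
  have hcN : Nat.card N = 5 ^ 2 * m := by
    have h1 := N.card_mul_index
    rw [hidx, h] at h1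
    omega
  rw [← Syl.card_sylow_eq_of_forall_le (M := N) (p := 5) (fun Q => ?_)]
  · exact five_sylow_one hcN hm
  · intro x hx
    haveI : N.Normal := inferInstance
    have h1 : x ^ 2 ∈ N := by
      have := N.pow_index_mem x
      rwa [hidx] at this
    obtain ⟨k, hk⟩ := Q.isPGroup' ⟨x, hx⟩
    have hk' : x ^ 5 ^ k = 1 := congrArg Subtype.val hk
    have h2 : x ^ 5 ^ k ∈ N := by rw [hk']; exact one_mem N
    have hodd : (5 ^ k) % 2 = 1 := by
      rw [Nat.pow_mod]; simp
    have h3 : x ^ 5 ^ k = (x ^ 2) ^ (5 ^ k / 2) * x := by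
      rw [← pow_mul, ← pow_succ]
      congr 1
      omega
    rw [h3] at h2
    exact (mul_mem_cancel_left (pow_mem h1 _)).mp h2

/-- A point stabilizer that is a centralizer of an element with few moved points cannot exist -/
theorem two_trans {G : Type*} [Group G] [Finite G] {M : Subgroup G} (hM : M.index = 18) (hmax : IsCoatom M)
    {x : G} (hx5 : Nat.card (zpowers x) = 5) (hF : Nat.card (fixedBy (G ⧸ M) x) = 13) : 17 * 18 ∣ Nat.card G := by
  haveI : Fact (Nat.Prime 5) := ⟨by norm_num⟩
  have hcard : Nat.card (G ⧸ M) = 18 := hM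
  haveI : Nontrivial (G ⧸ M) := Finite.one_lt_card_iff_nontrivial.mp (by rw [hcard]; norm_num)
  have hprim : IsPreprimitive G (G ⧸ M) := by
    rw [← isCoatom_stabilizer_iff_preprimitive (G := G) ((1 : G) : G ⧸ M), stabilizer_quotient]
    exact hmax
  have hzp : IsPGroup 5 (zpowers x) := IsPGroup.of_card (n := 1) (by rw [hx5, pow_one])
  have h2 : IsMultiplyPretransitive G (G ⧸ M) 2 := by
    refine hprim.is_two_pretransitive (s := fixedBy (G ⧸ M) x) (n := 12) ?_ (by rw [hcard]; norm_num) ?_
    · rw [← Nat.card_coe_set_eq, hF]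
    · have hxf : x ∈ fixingSubgroup G (fixedBy (G ⧸ M) x) := by
        rw [mem_fixingSubgroup_iff]
        intro y hy
        exact hy
      refine ⟨fun a b => ?_⟩
      have ha := a.2
      have hb := b.2
      rw [SubMulAction.mem_ofFixingSubgroup_iff] at ha hb
      -- the orbit of a under x is the complement of the fixed points
      have horb : orbit (zpowers x) (a : G ⧸ M) ⊆ (fixedBy (G ⧸ M) x)ᶜ := by
        rintro _ ⟨⟨g, hg⟩, rfl⟩
        intro hfix
        obtain ⟨k, rfl⟩ := mem_zpowers_iff.mp hg
        apply ha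
        rw [mem_fixedBy] at hfix ⊢
        change x • (x ^ k) • (a : G ⧸ M) = (x ^ k) • (a : G ⧸ M) at hfix
        rw [smul_smul, ← zpow_one_add, add_comm, zpow_add_one, ← smul_smul] at hfix
        exact smul_left_cancel _ hfix
      have hoc : Nat.card (orbit (zpowers x) (a : G ⧸ M)) = 5 := by
        have h1 : Nat.card (orbit (zpowers x) (a : G ⧸ M)) ∣ 5 := by
          rw [← hx5, Nat.card_coe_set_eq, ← index_stabilizer]
          exact index_dvd_card _
        rcases (Nat.dvd_prime (by norm_num)).mp h1 with h | h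
        · exfalso
          apply ha
          rw [mem_fixedBy]
          have h2 := (Nat.card_eq_one_iff_unique.mp h).1
          have h3 : (⟨x • (a : G ⧸ M), ⟨⟨x, mem_zpowers x⟩, rfl⟩⟩ : orbit (zpowers x) (a : G ⧸ M)) =
            ⟨(a : G ⧸ M), mem_orbit_self _⟩ := Subsingleton.elim _ _
          exact congrArg Subtype.val h3
        · exact h
      have hcc : (fixedBy (G ⧸ M) x)ᶜ.ncard = 5 := by
        have := Set.ncard_add_ncard_compl (fixedBy (G ⧸ M) x)
        rw [← Nat.card_coe_set_eq (fixedBy (G ⧸ M) x), hF, hcard] at this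
        omega
      have heq : orbit (zpowers x) (a : G ⧸ M) = (fixedBy (G ⧸ M) x)ᶜ := by
        apply Set.eq_of_subset_of_ncard_le horb
        rw [hcc, ← Nat.card_coe_set_eq, hoc]
      have hb' : (b : G ⧸ M) ∈ orbit (zpowers x) (a : G ⧸ M) := by
        rw [heq]; exact hb
      obtain ⟨⟨g, hg⟩, hgb⟩ := hb'
      have hg' : g ∈ fixingSubgroup G (fixedBy (G ⧸ M) x) := (zpowers_le.mpr hxf) hg
      refine ⟨⟨g, hg'⟩, ?_⟩
      apply Subtype.ext
      exact hgb
  have h3 : IsPretransitive G (Fin 2 ↪ (G ⧸ M)) := h2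
  letI := Fintype.ofFinite (G ⧸ M)
  obtain ⟨e⟩ : Nonempty (Fin 2 ↪ (G ⧸ M)) := by
    apply Function.Embedding.nonempty_of_card_le
    · rw [Fintype.card_fin, ← Nat.card_eq_fintype_card, hcard]; norm_num
  have h4 := index_stabilizer_of_transitive G e
  have h5 : Nat.card (Fin 2 ↪ (G ⧸ M)) = 17 * 18 := by
    rw [Nat.card_eq_fintype_card, Fintype.card_embedding_eq, Fintype.card_fin, ← Nat.card_eq_fintype_card, hcard]
    rfl
  rw [h5] at h4
  rw [← h4]
  exact index_dvd_card _

section conj
variable {G : Type*} [Group G] [Finite G]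

/-- conjugates of `x` in `M` -/
def Y (M : Subgroup G) (x : G) : Set G := {y | IsConj x y ∧ y ∈ M}

instance actY (M : Subgroup G) (x : G) : MulAction M (Y M x) where
  smul m y := ⟨m * y * (m : G)⁻¹, by
    refine ⟨y.2.1.trans (isConj_iff.mpr ⟨m, rfl⟩), mul_mem (mul_mem m.2 y.2.2) (inv_mem m.2)⟩⟩
  one_smul y := by
    apply Subtype.ext
    change ((1 : M) : G) * y * ((1 : M) : G)⁻¹ = y
    simp
  mul_smul a b y := by
    apply Subtype.ext
    change ((a * b : M) : G) * y * ((a * b : M) : G)⁻¹ = a * (b * y * (b : G)⁻¹) * (a : G)⁻¹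
    push_cast
    group

theorem coe_smul_Y {M : Subgroup G} {x : G} (m : M) (y : Y M x) : ((m • y : Y M x) : G) = m * y * (m : G)⁻¹ := rfl

theorem modEq_six {M : Subgroup G} {x : G} (hM : M = centralizer {x}) (hMN : M = normalizer (zpowers x : Set G))
    (hx5 : Nat.card (zpowers x) = 5) (hM5 : Nat.card M = 300) (h6 : Nat.card (Sylow 5 M) = 6) :
    Nat.card (Y M x) ≡ 1 [MOD 6] := by
  haveI : Fact (Nat.Prime 5) := ⟨by norm_num⟩
  have hxM : x ∈ M := by rw [hM, mem_centralizer_singleton_iff]
  have hzp : IsPGroup 5 (zpowers x) := IsPGroup.of_card (n := 1) (by rw [hx5, pow_one])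
  have horder : orderOf x = 5 := by rw [← Nat.card_zpowers, hx5]
  have hMc : ∀ m : M, (m : G) * x = x * m := fun m => mem_centralizer_singleton_iff.mp (hM.le m.2)
  -- `x` is in every Sylow subgroup of `M`
  let xM : M := ⟨x, hxM⟩
  have hxc : ∀ m : M, m * xM = xM * m := by
    intro m
    apply Subtype.ext
    exact hMc m
  have hxS : ∀ S : Sylow 5 M, xM ∈ (S : Subgroup M) := by
    intro S
    have h1 : IsPGroup 5 (zpowers xM) := by
      apply IsPGroup.of_card (n := 1)
      rw [Nat.card_zpowers, pow_one]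
      have : orderOf xM = orderOf x := by
        rw [← orderOf_injective M.subtype M.subtype_injective xM]; rfl
      rw [this, horder]
    obtain ⟨S', hS'⟩ := h1.exists_le_sylow
    obtain ⟨g, rfl⟩ := exists_smul_eq M S' S
    rw [Syl.mem_smul_iff]
    have h2 : xM ∈ (S' : Subgroup M) := hS' (mem_zpowers xM)
    have h3 : g⁻¹ * xM * g = xM := by rw [mul_assoc, ← hxc g, inv_mul_cancel_left]
    rwa [h3]
  have hSc : ∀ S : Sylow 5 M, Nat.card (S : Subgroup M) = 25 := by
    intro S
    have := Syl.card_sylow_of_card S (k := 2) (m := 12) (by rw [hM5]; norm_num) (by norm_num)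
    rw [this]; norm_num
  have hidx : ∀ S : Sylow 5 M, (normalizer ((S : Subgroup M) : Set M)).index = 6 := by
    intro S
    rw [← Syl.card_sylow_eq_index S, h6]
  have key : ∀ y : Y M x, (y : G) ≠ x → 6 ∣ Nat.card (orbit M y) := by
    intro y hy
    rw [Count.card_orbit_eq_index]
    let yM : M := ⟨y, y.2.2⟩
    obtain ⟨c, hc⟩ := isConj_iff.mp y.2.1
    have hyz : (y : G) ∉ zpowers x := by
      intro hmem
      apply hy
      have h1 : c ∈ normalizer (zpowers x : Set G) := by
        have h2 : (zpowers x).map (MulAut.conj c).toMonoidHom ≤ zpowers x := by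
          rw [MonoidHom.map_zpowers, zpowers_le]
          change c * x * c⁻¹ ∈ zpowers x
          rw [hc]; exact hmem
        have h3 : (zpowers x).map (MulAut.conj c).toMonoidHom = zpowers x := by
          apply eq_of_le_of_card_ge h2
          rw [card_map_of_injective (MulAut.conj c).injective]
        rw [mem_normalizer_iff]
        intro h
        constructor
        · intro hh
          rw [← h3]
          exact ⟨h, hh, rfl⟩
        · intro hh
          rw [← h3] at hh
          obtain ⟨k, hk, hk2⟩ := hh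
          have : k = h := (MulAut.conj c).injective hk2
          rw [← this]; exact hk
      rw [← hMN, hM, mem_centralizer_singleton_iff] at h1
      rw [← hc, h1]; group
    have hyo : orderOf yM = 5 := by
      have h1 : orderOf yM = orderOf (y : G) := by
        rw [← orderOf_injective M.subtype M.subtype_injective yM]; rfl
      rw [h1, ← hc]
      have : orderOf (c * x * c⁻¹) = orderOf x := by
        have := orderOf_injective (MulAut.conj c).toMonoidHom (MulAut.conj c).injective x
        exact this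
      rw [this, horder]
    have hyp : IsPGroup 5 (zpowers yM) := IsPGroup.of_card (n := 1) (by rw [Nat.card_zpowers, hyo, pow_one])
    obtain ⟨S, hS⟩ := hyp.exists_le_sylow
    have hyS : yM ∈ (S : Subgroup M) := hS (mem_zpowers yM)
    have hle : stabilizer M y ≤ normalizer ((S : Subgroup M) : Set M) := by
      intro m hm
      rw [mem_stabilizer_iff] at hm
      have hm' : m * yM = yM * m := by
        apply Subtype.ext
        have h1 : (m : G) * y * (m : G)⁻¹ = y := congrArg Subtype.val hm
        change (m : G) * y = y * m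
        nth_rewrite 2 [← h1]
        group
      refine Sylow.smul_eq_iff_mem_normalizer.mp ?_
      by_contra hne
      -- the two Sylow subgroups meet in order at most 5
      have hyS2 : yM ∈ ((m • S : Sylow 5 M) : Subgroup M) := by
        rw [Syl.mem_smul_iff]
        have h3 : m⁻¹ * yM * m = yM := by rw [mul_assoc, ← hm', inv_mul_cancel_left]
        rwa [h3]
      set D : Subgroup M := (S : Subgroup M) ⊓ ((m • S : Sylow 5 M) : Subgroup M) with hD
      have hDS : D ≠ (S : Subgroup M) := by
        intro h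
        apply hne
        have h1 : (S : Subgroup M) ≤ ((m • S : Sylow 5 M) : Subgroup M) := by
          rw [← h]; exact inf_le_right
        exact (Sylow.ext (S.is_maximal' (m • S).isPGroup' h1))
      have hDd : Nat.card D ∣ 5 ^ 2 := by
        have := card_dvd_of_le (inf_le_left : D ≤ (S : Subgroup M))
        rwa [hSc S] at this
      obtain ⟨j, hj, hDj⟩ := (Nat.dvd_prime_pow (by norm_num)).mp hDd
      have hj1 : j ≠ 2 := by
        rintro rfl
        exact hDS (eq_of_le_of_card_ge inf_le_left (by rw [hSc S, hDj]; norm_num))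
      have hDle : Nat.card D ≤ 5 := by
        rw [hDj]
        calc 5 ^ j ≤ 5 ^ 1 := Nat.pow_le_pow_right (by norm_num) (by omega)
          _ = 5 := by norm_num
      have hzx : zpowers xM ≤ D := zpowers_le.mpr (mem_inf.mpr ⟨hxS S, hxS _⟩)
      have hzxc : Nat.card (zpowers xM) = 5 := by
        rw [Nat.card_zpowers]
        have : orderOf xM = orderOf x := by
          rw [← orderOf_injective M.subtype M.subtype_injective xM]; rfl
        rw [this, horder]
      have heq : zpowers xM = D := eq_of_le_of_card_ge hzx (by rw [hzxc]; exact hDle)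
      have h1 : yM ∈ zpowers xM := by rw [heq]; exact mem_inf.mpr ⟨hyS, hyS2⟩
      obtain ⟨k, hk⟩ := mem_zpowers_iff.mp h1
      apply hyz
      rw [mem_zpowers_iff]
      exact ⟨k, by have := congrArg Subtype.val hk; simpa using this⟩
    rw [← hidx S]
    exact index_dvd_of_le hle
  have h1 := Count.card_modEq_fixed (G := M) (α := Y M x) 6 (fun y hy => by
    apply key y
    intro hyx
    apply hy
    intro m
    apply Subtype.ext
    rw [coe_smul_Y, hyx, hMc]; group)
  have h2 : Nat.card (fixedPoints M (Y M x)) = 1 := by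
    rw [Nat.card_eq_one_iff_unique]
    refine ⟨⟨fun a b => ?_⟩, ⟨⟨⟨x, IsConj.refl x, hxM⟩, fun m => ?_⟩⟩⟩
    · have hfix : ∀ a : fixedPoints M (Y M x), ((a : Y M x) : G) = x := by
        intro a
        by_contra hne
        have h3 := key a hne
        letI := Fintype.ofFinite (orbit M (a : Y M x))
        rw [Nat.card_eq_fintype_card, mem_fixedPoints_iff_card_orbit_eq_one.mp a.2] at h3
        omega
      apply Subtype.ext
      apply Subtype.ext
      rw [hfix a, hfix b]
    · apply Subtype.ext
      rw [coe_smul_Y]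
      change (m : G) * x * (m : G)⁻¹ = x
      rw [hMc]; group
  rw [h2] at h1
  exact h1

end conj

/-- the main result -/
theorem card_ne {G : Type*} [Group G] [Finite G] [IsSimpleGroup G] : Nat.card G ≠ 5400 := by
  intro h
  haveI : Fact (Nat.Prime 5) := ⟨by norm_num⟩
  have hG : ¬ IsMulCommutative G := Simple.not_comm_of_not_prime (by rw [h]; norm_num)
  have h' : Nat.card G = 5 ^ 2 * 216 := by rw [h]; norm_num
  have hm' : ¬ 5 ∣ 216 := by norm_num
  obtain ⟨P⟩ : Nonempty (Sylow 5 G) := inferInstance
  -- number of Sylow 5-subgroups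
  have hn : Nat.card (Sylow 5 G) = 36 := by
    have h1 := Sieve.possC_true hG (p := 5) (k := 2) (m := 216) h (by norm_num) hm' (by norm_num)
    have h2 := Syl.card_sylow_dvd_of_card P h' hm'
    have h3 : Nat.card (Sylow 5 G) ≤ 216 := Nat.le_of_dvd (by norm_num) h2
    have h4 : (List.range 217).all (fun s => !(Sieve.possC 5400 5 2 216 s) || !(s % 5 == 1) || s == 36) = true := by
      decide +kernel
    have h5 := List.all_eq_true.mp h4 _ (List.mem_range.mpr (Nat.lt_succ_of_le h3))
    have h6 : Nat.card (Sylow 5 G) % 5 = 1 := card_sylow_modEq_one 5 G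
    rw [h1, h6] at h5
    simpa using h5
  have hmod : ¬ Nat.card (Sylow 5 G) ≡ 1 [MOD 5 ^ 2] := by rw [hn]; decide
  obtain ⟨Q, hne, hc, hPN, hQN⟩ := Simple.exists_index_p P hmod
  set D : Subgroup G := (Q : Subgroup G) ⊓ (P : Subgroup G) with hD
  set M := normalizer (D : Set G) with hM
  have hPc : Nat.card (P : Subgroup G) = 5 ^ 2 := Syl.card_sylow_of_card P h' hm'
  have hQc : Nat.card (Q : Subgroup G) = 5 ^ 2 := Syl.card_sylow_of_card Q h' hm'
  have hDc : Nat.card D = 5 := by omega
  have hDt : D ≠ ⊥ := by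
    intro h1
    rw [h1, card_bot] at hDc
    omega
  have hMt : M ≠ ⊤ := by
    intro hMt
    have hDn : D.Normal := normalizer_eq_top_iff.mp hMt
    rcases hDn.eq_bot_or_eq_top with h1 | h1
    · exact hDt h1
    · have h2 : Nat.card D = 5400 := by rw [h1, card_top, h]
      omega
  -- subgroups containing P and Q
  have two : ∀ K : Subgroup G, (P : Subgroup G) ≤ K → (Q : Subgroup G) ≤ K → Nat.card (Sylow 5 K) ≠ 1 := by
    intro K hP hQ h1
    have h2 := (Nat.card_eq_one_iff_unique.mp h1).1
    have h3 : (P.subtype hP : Sylow 5 K) = Q.subtype hQ := Subsingleton.elim _ _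
    have h4 : (P : Subgroup G).subgroupOf K = (Q : Subgroup G).subgroupOf K :=
      congrArg (fun S : Sylow 5 K => (S : Subgroup K)) h3
    have h5 := congrArg (Subgroup.map K.subtype) h4
    rw [map_subgroupOf_eq_of_le hP, map_subgroupOf_eq_of_le hQ] at h5
    exact hne (Sylow.ext h5.symm)
  have hcK : ∀ K : Subgroup G, (P : Subgroup G) ≤ K → (Q : Subgroup G) ≤ K → K ≠ ⊤ →
      (Nat.card K = 300 ∧ K.index = 18 ∧ Nat.card (Sylow 5 K) = 6) := by
    intro K hP hQ hKt
    have h1 := Simple.two_mul_card_dvd_factorial hG hKt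
    have hdP : 5 ^ 2 ∣ Nat.card K := by rw [← hPc]; exact card_dvd_of_le hP
    obtain ⟨m, hm⟩ := hdP
    have h2 := K.card_mul_index
    rw [hm, h', mul_assoc] at h2
    have h3 : m * K.index = 216 := Nat.eq_of_mul_eq_mul_left (by norm_num) h2
    have hm5 : ¬ 5 ∣ m := fun h => hm' (h3 ▸ Dvd.dvd.mul_right h _)
    have h4 : Nat.card (Sylow 5 K) ∣ m := by
      obtain ⟨S⟩ : Nonempty (Sylow 5 K) := inferInstance
      exact Syl.card_sylow_dvd_of_card S hm hm5
    have h5 : Nat.card (Sylow 5 K) % 5 = 1 := card_sylow_modEq_one 5 K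
    have h6 := two K hP hQ
    have h7 : K.index ∣ 216 := ⟨m, by rw [mul_comm, h3]⟩
    rw [h] at h1
    have h8 : 10 ≤ K.index := by
      by_contra hcon
      push Not at hcon
      have h9 : 25 ∣ (K.index).factorial := (by norm_num : 25 ∣ 2 * 5400).trans h1
      have h10 : (K.index).factorial ∣ (9).factorial := Nat.factorial_dvd_factorial (by omega)
      have h11 := h9.trans h10
      revert h11; decide
    have hm0 : 0 < m := Nat.pos_of_ne_zero (by rintro rfl; omega)
    have h9 : Nat.card (Sylow 5 K) ≤ m := Nat.le_of_dvd hm0 h4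
    have h10 : m ≤ 21 := by
      by_contra hcon
      push Not at hcon
      have : 22 * 10 ≤ m * K.index := Nat.mul_le_mul hcon h8
      omega
    have h11 : m ∣ 216 := ⟨K.index, h3.symm⟩
    have h12 : m = 6 ∨ m = 12 ∨ m = 18 := by
      clear_value M D
      have ht : Nat.card (Sylow 5 K) = 1 ∨ Nat.card (Sylow 5 K) = 6 ∨ Nat.card (Sylow 5 K) = 11 ∨ Nat.card (Sylow 5 K) = 16
        ∨ Nat.card (Sylow 5 K) = 21 := by omega
      rcases ht with h | h | h | h | h
      · exact absurd h h6
      · rw [h] at h4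
        interval_cases m <;> omega
      · rw [h] at h4
        interval_cases m <;> omega
      · rw [h] at h4
        interval_cases m <;> omega
      · rw [h] at h4
        interval_cases m <;> omega
    rcases h12 with rfl | rfl | rfl
    · exact absurd (five_sylow_two (m := 3) (by rw [hm]) (Or.inl rfl)) h6
    · refine ⟨by rw [hm]; norm_num, by omega, ?_⟩
      have h13 : Nat.card (Sylow 5 K) ≤ 12 := h9
      generalize Nat.card (Sylow 5 K) = t at *
      interval_cases t <;> omega
    · exact absurd (five_sylow_two (m := 9) (by rw [hm]) (Or.inr rfl)) h6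
  obtain ⟨hMc, hMi, hM6⟩ := hcK M hPN hQN hMt
  -- the centralizer
  obtain ⟨x, hx⟩ : ∃ x : G, D = zpowers x := by
    haveI : IsCyclic D := isCyclic_of_prime_card hDc
    obtain ⟨x, hx⟩ := IsCyclic.exists_generator (α := D)
    refine ⟨x, ?_⟩
    apply le_antisymm
    · intro y hy
      obtain ⟨k, hk⟩ := mem_zpowers_iff.mp (hx ⟨y, hy⟩)
      rw [mem_zpowers_iff]
      exact ⟨k, by have := congrArg Subtype.val hk; simpa using this⟩
    · rw [zpowers_le]; exact x.2
  have hx5 : Nat.card (zpowers x) = 5 := by rw [← hx, hDc]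
  have hxP : x ∈ (P : Subgroup G) := by
    have : x ∈ D := by rw [hx]; exact mem_zpowers x
    exact (mem_inf.mp this).2
  have hxQ : x ∈ (Q : Subgroup G) := by
    have : x ∈ D := by rw [hx]; exact mem_zpowers x
    exact (mem_inf.mp this).1
  have hab : ∀ S : Sylow 5 G, Nat.card (S : Subgroup G) = 5 ^ 2 → x ∈ (S : Subgroup G) → (S : Subgroup G) ≤ centralizer {x} := by
    intro S hS hxS y hy
    have h1 := isMulCommutative_iff.mp (IsPGroup.isMulCommutative_of_card_eq_prime_sq hS)
    rw [mem_centralizer_singleton_iff]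
    exact congrArg Subtype.val (h1 ⟨y, hy⟩ ⟨x, hxS⟩)
  have hCt : centralizer {x} ≠ ⊤ := by
    intro h1
    have h2 : x ∈ center G := by
      rw [mem_center_iff]
      intro g
      have : g ∈ centralizer {x} := by rw [h1]; exact mem_top g
      exact mem_centralizer_singleton_iff.mp this
    rw [Simple.center_eq_bot hG, mem_bot] at h2
    rw [h2, zpowers_one_eq_bot, card_bot] at hx5
    omega
  obtain ⟨hCc, hCi, hC6⟩ := hcK _ (hab P hPc hxP) (hab Q hQc hxQ) hCt
  have hCM : centralizer {x} ≤ M := by
    have h1 : centralizer {x} = centralizer (D : Set G) := by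
      rw [hx, zpowers_eq_closure, centralizer_closure]
    rw [h1]
    exact centralizer_le_normalizer _
  have hMC : M = centralizer {x} := (eq_of_le_of_card_ge hCM (by rw [hCc, hMc])).symm
  have hMN : M = normalizer (zpowers x : Set G) := by rw [hM, hx]
  have hY := modEq_six hMC hMN hx5 hMc hM6
  have hF1 := Count.card_fixedBy_mul_card M x
  have hF2 := Count.card_conj_mem M x
  have hF3 : Nat.card (fixedBy (G ⧸ M) x) = Nat.card (Y M x) := by
    rw [hCc] at hF2
    rw [← hF2, hMc] at hF1
    exact Nat.eq_of_mul_eq_mul_right (by norm_num) hF1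
  -- modulo 5
  have hF4 : Nat.card (G ⧸ M) ≡ Nat.card (fixedPoints (zpowers x) (G ⧸ M)) [MOD 5] := by
    apply Count.card_modEq_fixed
    intro a ha
    have h1 : Nat.card (orbit (zpowers x) a) ∣ 5 := by
      rw [Count.card_orbit_eq_index]
      exact (index_dvd_card _).trans (by rw [hx5])
    rcases (Nat.dvd_prime (by norm_num)).mp h1 with h | h
    · exfalso
      apply ha
      letI := Fintype.ofFinite (orbit (zpowers x) a)
      rw [mem_fixedPoints_iff_card_orbit_eq_one, ← Nat.card_eq_fintype_card, h]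
    · rw [h]
  have hF5 : fixedPoints (zpowers x) (G ⧸ M) = fixedBy (G ⧸ M) x := by
    ext a
    rw [mem_fixedPoints, mem_fixedBy]
    constructor
    · intro h1
      exact h1 ⟨x, mem_zpowers x⟩
    · rintro h1 ⟨g, hg⟩
      have h2 : zpowers x ≤ stabilizer G a := zpowers_le.mpr (mem_stabilizer_iff.mpr h1)
      exact mem_stabilizer_iff.mp (h2 hg)
  have hq : Nat.card (G ⧸ M) = 18 := hMi
  rw [hF5, hq] at hF4
  rw [← hF3] at hY
  have hFle : Nat.card (fixedBy (G ⧸ M) x) ≤ 18 := by
    rw [← hq, Nat.card_coe_set_eq, ← Set.ncard_univ]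
    exact Set.ncard_le_ncard (Set.subset_univ _)
  have hF13 : Nat.card (fixedBy (G ⧸ M) x) = 13 := by
    unfold Nat.ModEq at hF4 hY
    omega
  have hmax : IsCoatom M := by
    refine ⟨hMt, fun K hK => ?_⟩
    by_contra hKt
    have h1 := hcK K (hPN.trans hK.le) (hQN.trans hK.le) hKt
    have h2 : M = K := eq_of_le_of_card_ge hK.le (by rw [h1.1, hMc])
    exact hK.ne h2
  have hfin := two_trans hMi hmax hx5 hF13
  rw [h] at hfin
  revert hfin
  decide

end Cfsg.Agent.H9.N5400
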