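import Mathlib
import Cfsg.Agent.H23.Coprime
import Cfsg.Agent.H9.Syl
import Cfsg.Agent.H9.Simple
import Cfsg.Agent.H1.Basic
import Cfsg.Agent.H1.Cores

set_option autoImplicit false
set_option linter.unusedSectionVars false
set_option linter.unusedVariables false

/-! Adjacency in the prime graph of groups of order 7920, part 1. -/

open Cfsg

namespace Cfsg.Agent.H9.PG

open Subgroup

variable {X : Type*} [Group X] [Finite X]

theorem dvd_sub_fixed {y : X} {q : ℕ} [Fact q.Prime] (hy : orderOf y = q) {P : Subgroup X}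
    (hn : y ∈ normalizer (P : Set X)) :
    q ∣ Nat.card P - Nat.card (P ⊓ centralizer ({y} : Set X) : Subgroup X) := by
  classical
  have hle : zpowers y ≤ normalizer (P : Set X) := zpowers_le.mpr hn
  let f : zpowers y →* MulAut P := P.normalizerMonoidHom.comp (Subgroup.inclusion hle)
  let _ : MulAction (zpowers y) P := MulAction.compHom P f
  have hq : IsPGroup q (zpowers y) := IsPGroup.of_card (n := 1) (by rw [Nat.card_zpowers, hy, pow_one])
  have h1 := hq.card_modEq_card_fixedPoints P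
  have hsm : ∀ (z : zpowers y) (a : P), ((z • a : P) : X) = (z : X) * a * (z : X)⁻¹ := fun z a => rfl
  have h2 : Nat.card (MulAction.fixedPoints (zpowers y) P) = Nat.card (P ⊓ centralizer ({y} : Set X) : Subgroup X) := by
    apply Nat.card_congr
    refine ⟨fun a => ⟨(a.1 : X), a.1.2, ?_⟩, fun b => ⟨⟨b.1, b.2.1⟩, ?_⟩, ?_, ?_⟩
    · have := a.2 ⟨y, mem_zpowers y⟩
      have h3 : y * (a.1 : X) * y⁻¹ = a.1 := by
        have h4 := congrArg (Subtype.val) this
        rw [hsm] at h4; exact h4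
      exact mem_centralizer_singleton_iff.mpr (mul_inv_eq_iff_eq_mul.mp h3).symm
    · intro z
      have hb : (b : X) * y = y * b := mem_centralizer_singleton_iff.mp b.2.2
      apply Subtype.ext
      rw [hsm]
      obtain ⟨k, hk⟩ := mem_zpowers_iff.mp z.2
      have hc : Commute y (b : X) := hb.symm
      show (z : X) * (b : X) * (z : X)⁻¹ = b
      rw [← hk, (hc.zpow_left k).eq, mul_inv_cancel_right]
    · intro a; rfl
    · intro b; rfl
  rw [h2] at h1
  have hle2 : Nat.card (P ⊓ centralizer ({y} : Set X) : Subgroup X) ≤ Nat.card P := card_le_of_le inf_le_left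
  exact (Nat.modEq_iff_dvd' hle2).mp h1.symm

theorem inv {y : X} {q : ℕ} [Fact q.Prime] (hy : orderOf y = q) {K : Subgroup X}
    (hn : y ∈ normalizer (K : Set X)) (hqK : ¬ q ∣ Nat.card K) (r : ℕ) [hr : Fact r.Prime]
    (hnum : ∀ c, c ∣ r ^ (Nat.card K).factorization r → q ∣ r ^ (Nat.card K).factorization r - c →
      c = r ^ (Nat.card K).factorization r) :
    r ^ (Nat.card K).factorization r ∣ Nat.card (K ⊓ centralizer ({y} : Set X) : Subgroup X) := by
  have hcop : (Nat.card (zpowers y)).Coprime (Nat.card K) := by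
    rw [Nat.card_zpowers, hy]; exact (Nat.Prime.coprime_iff_not_dvd Fact.out).mpr hqK
  have hs : Group.IsSolvable (zpowers y) := inferInstance
  obtain ⟨P, hP, hyP⟩ := H23.exists_invariant_sylow (A := zpowers y) (G := K) (zpowers_le.mpr hn) hcop (Or.inl hs) r
  have hPc : Nat.card P = r ^ (Nat.card K).factorization r := by
    obtain ⟨S, hS⟩ := hP
    rw [← hS, card_map_of_injective K.subtype_injective]
    exact S.card_eq_multiplicity
  have hyn : y ∈ normalizer (P : Set X) := hyP (mem_zpowers y)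
  have h1 := dvd_sub_fixed hy hyn
  have hle : (P ⊓ centralizer ({y} : Set X) : Subgroup X) ≤ K ⊓ centralizer ({y} : Set X) := inf_le_inf_right _ hP.le
  have h3 : Nat.card (P ⊓ centralizer ({y} : Set X) : Subgroup X) ∣ Nat.card P := card_dvd_of_le inf_le_left
  rw [hPc] at h1 h3
  rw [← hnum _ h3 h1]
  exact card_dvd_of_le hle

theorem pp720 {r k : ℕ} (hr : r.Prime) (h : r ^ k ∣ 720) :
    r ^ k = 1 ∨ r ^ k = 2 ∨ r ^ k = 4 ∨ r ^ k = 8 ∨ r ^ k = 16 ∨ r ^ k = 3 ∨ r ^ k = 9 ∨ r ^ k = 5 := by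
  rcases Nat.eq_zero_or_pos k with rfl | hk
  · left; rfl
  have h1 : r ∣ 720 := (dvd_pow_self r hk.ne').trans h
  have h2 : r = 2 ∨ r = 3 ∨ r = 5 := by
    have h3 : r ∣ 2 ^ 4 * 3 ^ 2 * 5 := h1
    rcases (hr.dvd_mul).mp h3 with h4 | h4
    · rcases (hr.dvd_mul).mp h4 with h5 | h5
      · left; exact (Nat.prime_dvd_prime_iff_eq hr Nat.prime_two).mp (hr.dvd_of_dvd_pow h5)
      · right; left; exact (Nat.prime_dvd_prime_iff_eq hr Nat.prime_three).mp (hr.dvd_of_dvd_pow h5)
    · right; right; exact (Nat.prime_dvd_prime_iff_eq hr Nat.prime_five).mp h4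
  rcases h2 with rfl | rfl | rfl
  · have hk5 : k < 5 := by
      by_contra hcon
      have : 2 ^ 5 ∣ 720 := (pow_dvd_pow 2 (not_lt.mp hcon)).trans h
      revert this; decide
    interval_cases k <;> norm_num
  · have hk5 : k < 3 := by
      by_contra hcon
      have : 3 ^ 3 ∣ 720 := (pow_dvd_pow 3 (not_lt.mp hcon)).trans h
      revert this; decide
    interval_cases k <;> norm_num
  · have hk5 : k < 2 := by
      by_contra hcon
      have : 5 ^ 2 ∣ 720 := (pow_dvd_pow 5 (not_lt.mp hcon)).trans h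
      revert this; decide
    interval_cases k; norm_num

theorem num11 : ∀ m ∈ ({1, 2, 4, 8, 16, 3, 9, 5} : Finset ℕ), ∀ c ≤ m, c ∣ m → 11 ∣ m - c → c = m := by decide

theorem num5 : ∀ m ∈ ({1, 3, 9} : Finset ℕ), ∀ c ≤ m, c ∣ m → 5 ∣ m - c → c = m := by decide

/-- elements of order 11 centralize invariant subgroups of order dividing 720 -/
theorem inv11 {y : X} (hy : orderOf y = 11) {K : Subgroup X} (hn : y ∈ normalizer (K : Set X))
    (hK : Nat.card K ∣ 720) : K ≤ centralizer ({y} : Set X) := by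
  haveI : Fact (Nat.Prime 11) := ⟨by norm_num⟩
  have hqK : ¬ 11 ∣ Nat.card K := fun h => by
    have := h.trans hK
    revert this; decide
  have h1 : Nat.card K ∣ Nat.card (K ⊓ centralizer ({y} : Set X) : Subgroup X) := by
    rw [Nat.dvd_iff_prime_pow_dvd_dvd]
    intro r k hr hk
    haveI : Fact r.Prime := ⟨hr⟩
    have hle : k ≤ (Nat.card K).factorization r := (hr.pow_dvd_iff_le_factorization Nat.card_pos.ne').mp hk
    refine (pow_dvd_pow r hle).trans (inv hy hn hqK r ?_)
    intro c hc hd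
    have h2 : r ^ (Nat.card K).factorization r ∣ 720 := (Nat.ordProj_dvd _ _).trans hK
    have h3 := pp720 hr h2
    refine num11 _ ?_ c (Nat.le_of_dvd (pow_pos hr.pos _) hc) hc hd
    simp only [Finset.mem_insert, Finset.mem_singleton]
    tauto
  have h2 : (K ⊓ centralizer ({y} : Set X) : Subgroup X) = K :=
    eq_of_le_of_card_ge inf_le_left (Nat.le_of_dvd Nat.card_pos h1)
  rw [← h2]; exact inf_le_right

theorem inv3 {y : X} (hy : orderOf y = 5) {K : Subgroup X} (hn : y ∈ normalizer (K : Set X))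
    (hqK : ¬ 5 ∣ Nat.card K) (h3 : 3 ∣ Nat.card K) (h27 : ¬ 27 ∣ Nat.card K) :
    3 ∣ Nat.card (centralizer ({y} : Set X)) := by
  haveI : Fact (Nat.Prime 5) := ⟨by norm_num⟩
  haveI : Fact (Nat.Prime 3) := ⟨by norm_num⟩
  have hp : Nat.Prime 3 := by norm_num
  have hk0 : 1 ≤ (Nat.card K).factorization 3 :=
    (hp.pow_dvd_iff_le_factorization Nat.card_pos.ne').mp (by rw [pow_one]; exact h3)
  have hk3 : (Nat.card K).factorization 3 < 3 := by
    by_contra hcon
    exact h27 ((hp.pow_dvd_iff_le_factorization Nat.card_pos.ne').mpr (not_lt.mp hcon))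
  have h1 := inv hy hn hqK 3 (by
    intro c hc hd
    refine num5 _ ?_ c (Nat.le_of_dvd (pow_pos (by norm_num) _) hc) hc hd
    interval_cases ((Nat.card K).factorization 3) <;> simp)
  exact (dvd_pow_self 3 (by omega)).trans (h1.trans (card_dvd_of_le inf_le_right))

end Cfsg.Agent.H9.PG
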