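import Cfsg.Agent.H9.PGA
import Cfsg.Agent.H9.Syl2
import Cfsg.Agent.H9.BRK
import Cfsg.Agent.H5.Small
import Cfsg.Agent.S4700

set_option autoImplicit false
set_option linter.unusedSectionVars false
set_option linter.unusedVariables false

/-! Adjacency in the prime graph of groups of order 7920, part 2. -/

open Cfsg

namespace Cfsg.Agent.H9.PG

open Subgroup

universe u

variable {G : Type u} [Group G] [Finite G]

theorem exists_sylow_zpowers {p : ℕ} [Fact p.Prime] {x : G} (hx : orderOf x = p)
    (h2 : ¬ p ^ 2 ∣ Nat.card G) : ∃ P : Sylow p G, (P : Subgroup G) = zpowers x := by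
  have h1 : IsPGroup p (zpowers x) := IsPGroup.of_card (n := 1) (by rw [Nat.card_zpowers, hx, pow_one])
  obtain ⟨P, hP⟩ := h1.exists_le_sylow
  have hd : p ∣ Nat.card G := by rw [← hx]; exact orderOf_dvd_natCard x
  have hPc := Syl.card_sylow_prime P hd h2
  refine ⟨P, (eq_of_le_of_card_ge hP ?_).symm⟩
  rw [hPc, Nat.card_zpowers, hx]

theorem cz (x : G) : centralizer ((zpowers x : Subgroup G) : Set G) = centralizer ({x} : Set G) := by
  ext g
  rw [mem_centralizer_singleton_iff, mem_centralizer_iff]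
  constructor
  · intro h; exact (h x (mem_zpowers x)).symm
  · rintro h y hy
    obtain ⟨k, hk⟩ := mem_zpowers_iff.mp hy
    rw [← hk]
    exact ((show Commute g x from h).zpow_right k).eq.symm

/-- the facts on the normalizer of `⟨x⟩` -/
theorem norm_facts {p : ℕ} [Fact p.Prime] {x : G} (hx : orderOf x = p) :
    ∃ e, e ∣ p - 1 ∧ Nat.card (centralizer ({x} : Set G)) * e = Nat.card (normalizer ((zpowers x : Subgroup G) : Set G)) := by
  have hc : centralizer ((zpowers x : Subgroup G) : Set G) = centralizer ({x} : Set G) := by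
    ext g
    rw [mem_centralizer_singleton_iff, mem_centralizer_iff]
    constructor
    · intro h; exact (h x (mem_zpowers x)).symm
    · rintro h y hy
      obtain ⟨k, hk⟩ := mem_zpowers_iff.mp hy
      rw [← hk]
      exact ((show Commute g x from h).zpow_right k).eq.symm
  refine ⟨_, Simple.relIndex_dvd_of_card_eq (P := zpowers x) (by rw [Nat.card_zpowers, hx]), ?_⟩
  rw [← hc]
  exact H1.card_mul_relIndex_aux (centralizer_le_normalizer _)

theorem frattini {p : ℕ} [Fact p.Prime] {x : G} (hx : orderOf x = p) (h2 : ¬ p ^ 2 ∣ Nat.card G)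
    {D : Subgroup G} (hD : D.Normal) (hxD : x ∈ D) :
    D.index ∣ Nat.card (normalizer ((zpowers x : Subgroup G) : Set G)) := by
  obtain ⟨P, hP⟩ := exists_sylow_zpowers hx h2
  have hPD : (P : Subgroup G) ≤ D := by rw [hP]; exact zpowers_le.mpr hxD
  have h3 : normalizer ((P : Subgroup G) : Set G) ⊔ D = ⊤ := Sylow.normalizer_sup_eq_top' P hPD
  have h4 : D.relIndex (normalizer ((P : Subgroup G) : Set G)) = D.index := by
    rw [← relIndex_sup_left, sup_comm, h3, relIndex_top_right]
  rw [← h4, ← hP]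
  exact relIndex_dvd_card _ _

variable (hG : Nat.card G = 7920) {A : Set ℕ}
  (hA : ∀ (x : G) (r s : ℕ), r.Prime → s.Prime → r ≠ s → orderOf x = r → s ∣ Nat.card (centralizer ({x} : Set G)) →
    (r ∈ A ↔ s ∈ A))

include hG hA

theorem conn_case1 {N : Subgroup G} (hN : N.Normal) (hN1 : N ≠ ⊥) (h11 : ¬ 11 ∣ Nat.card N) :
    (2 ∈ A ↔ 11 ∈ A) ∧ (3 ∈ A ↔ 11 ∈ A) ∧ (5 ∈ A ↔ 11 ∈ A) := by
  haveI f11 : Fact (Nat.Prime 11) := ⟨by norm_num⟩
  haveI f5 : Fact (Nat.Prime 5) := ⟨by norm_num⟩
  haveI f3 : Fact (Nat.Prime 3) := ⟨by norm_num⟩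
  haveI f2 : Fact (Nat.Prime 2) := ⟨by norm_num⟩
  obtain ⟨x, hx⟩ := exists_prime_orderOf_dvd_card' (G := G) 11 (by rw [hG]; norm_num)
  have hN720 : Nat.card N ∣ 720 := by
    have h1 : Nat.card N ∣ 720 * 11 := by
      have := card_subgroup_dvd_card N
      rw [hG] at this; exact this
    exact (Nat.Coprime.symm ((Nat.Prime.coprime_iff_not_dvd f11.out).mpr h11)).dvd_of_dvd_mul_right h1
  have hNtop : normalizer (N : Set G) = ⊤ := normalizer_eq_top_iff.mpr hN
  have hxN : N ≤ centralizer ({x} : Set G) := inv11 hx (by rw [hNtop]; exact mem_top x) hN720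
  obtain ⟨e, he, hCe⟩ := norm_facts hx
  have hNn0 : Nat.card (normalizer ((zpowers x : Subgroup G) : Set G)) ∣ 7920 := by
    rw [← hG]; exact card_subgroup_dvd_card _
  haveI := hN
  have hDn : (centralizer (N : Set G)).Normal := inferInstance
  have hxD : x ∈ centralizer (N : Set G) := by
    rw [mem_centralizer_iff]
    intro n hn
    exact (mem_centralizer_singleton_iff.mp (hxN hn))
  have hDi := frattini hx (by rw [hG]; norm_num) hDn hxD
  have hDc := card_mul_index (centralizer (N : Set G))
  rw [hG] at hDc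
  set D := centralizer (N : Set G) with hDdef
  set c := Nat.card (centralizer ({x} : Set G)) with hcdef
  -- primes dividing |N|
  have hNs : ∀ s : ℕ, s.Prime → s ∣ Nat.card N → (s ∈ A ↔ 11 ∈ A) := by
    intro s hs hsN
    have hne : 11 ≠ s := by rintro rfl; exact h11 hsN
    exact (hA x 11 s f11.out hs hne hx (hsN.trans (card_dvd_of_le hxN))).symm
  have hDs : ∀ s : ℕ, s.Prime → s ∣ Nat.card D → (s ∈ A ↔ 11 ∈ A) := by
    intro s hs hsD
    by_cases hsN : s ∣ Nat.card N
    · exact hNs s hs hsN
    · have hN2 : Nat.card N ≠ 1 := fun h => hN1 (card_eq_one.mp h)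
      obtain ⟨r, hr, hrN⟩ := Nat.exists_prime_and_dvd hN2
      haveI := Fact.mk hr
      obtain ⟨n, hn⟩ := exists_prime_orderOf_dvd_card' (G := N) r hrN
      have hn' : orderOf (n : G) = r := by rw [Subgroup.orderOf_coe]; exact hn
      have hle : D ≤ centralizer ({(n : G)} : Set G) := by
        intro d hd
        rw [mem_centralizer_singleton_iff]
        exact ((mem_centralizer_iff.mp hd) n n.2).symm
      have hne : r ≠ s := by rintro rfl; exact hsN hrN
      have h1 := hA n r s hr hs hne hn' (hsD.trans (card_dvd_of_le hle))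
      exact h1.symm.trans (hNs r hr hrN)
  have hCs : ∀ s : ℕ, s.Prime → s ≠ 11 → s ∣ c → (s ∈ A ↔ 11 ∈ A) := by
    intro s hs hne hsC
    exact (hA x 11 s f11.out hs hne.symm hx hsC).symm
  have he10 : e ∣ 10 := he
  have he0 : e ≤ 10 := Nat.le_of_dvd (by norm_num) he10
  have h3A : 3 ∈ A ↔ 11 ∈ A := by
    by_cases h3c : 3 ∣ c
    · exact hCs 3 f3.out (by norm_num) h3c
    · apply hDs 3 f3.out
      have h3e : ¬ 3 ∣ e := fun h => by
        have := h.trans he10
        revert this; decide
      have h4 : ¬ 3 ∣ D.index := fun h => by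
        have h5 := h.trans hDi
        rw [← hCe] at h5
        rcases (f3.out.dvd_mul).mp h5 with h6 | h6
        · exact h3c h6
        · exact h3e h6
      have h5 : 3 ∣ Nat.card D * D.index := by rw [hDc]; norm_num
      rcases (f3.out.dvd_mul).mp h5 with h6 | h6
      · exact h6
      · exact absurd h6 h4
  have h2A : 2 ∈ A ↔ 11 ∈ A := by
    by_cases h2c : 2 ∣ c
    · exact hCs 2 f2.out (by norm_num) h2c
    · apply hDs 2 f2.out
      by_contra h2D
      have h16 : 16 ∣ D.index := by
        have h5 : 16 ∣ Nat.card D * D.index := by rw [hDc]; norm_num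
        have h6 : Nat.Coprime 16 (Nat.card D) := by
          have : Nat.Coprime (2 ^ 4) (Nat.card D) := Nat.Coprime.pow_left 4 ((Nat.Prime.coprime_iff_not_dvd f2.out).mpr h2D)
          exact this
        exact h6.dvd_of_dvd_mul_left h5
      have h7 := h16.trans hDi
      rw [← hCe] at h7
      have h8 : Nat.Coprime 16 c := by
        have : Nat.Coprime (2 ^ 4) c := Nat.Coprime.pow_left 4 ((Nat.Prime.coprime_iff_not_dvd f2.out).mpr h2c)
        exact this
      have h9 := (h8.dvd_of_dvd_mul_left h7).trans he10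
      revert h9; decide
  refine ⟨h2A, h3A, ?_⟩
  by_cases h5c : 5 ∣ c
  · exact hCs 5 f5.out (by norm_num) h5c
  by_cases h5D : 5 ∣ Nat.card D
  · exact hDs 5 f5.out h5D
  have h27 : ∀ K : Subgroup G, ¬ 27 ∣ Nat.card K := by
    intro K hK
    have := hK.trans (card_subgroup_dvd_card K)
    rw [hG] at this
    revert this; decide
  have fin : ∀ y : G, orderOf y = 5 → 3 ∣ Nat.card (centralizer ({y} : Set G)) → (5 ∈ A ↔ 11 ∈ A) := by
    intro y hy h
    exact (hA y 5 3 f5.out f3.out (by norm_num) hy h).trans h3A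
  by_cases h3c : 3 ∣ c
  · have h5n : 5 ∣ Nat.card (normalizer ((zpowers x : Subgroup G) : Set G)) := by
      have h6 : 5 ∣ Nat.card D * D.index := by rw [hDc]; norm_num
      rcases (f5.out.dvd_mul).mp h6 with h7 | h7
      · exact absurd h7 h5D
      · exact h7.trans hDi
    obtain ⟨y, hy⟩ := exists_prime_orderOf_dvd_card' (G := normalizer ((zpowers x : Subgroup G) : Set G)) 5 h5n
    have hy' : orderOf (y : G) = 5 := by rw [Subgroup.orderOf_coe]; exact hy
    refine fin y hy' (inv3 hy' (K := centralizer ({x} : Set G)) ?_ h5c h3c (h27 _))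
    -- the normalizer of ⟨x⟩ normalizes the centralizer
    have hyx : (y : G) ∈ normalizer ((zpowers x : Subgroup G) : Set G) := y.2
    rw [mem_normalizer_iff] at hyx ⊢
    have key : ∀ z : G, z ∈ normalizer ((zpowers x : Subgroup G) : Set G) → ∀ g ∈ centralizer ({x} : Set G),
        z * g * z⁻¹ ∈ centralizer ({x} : Set G) := by
      intro z hz g hg
      rw [mem_centralizer_singleton_iff] at hg ⊢
      have h1 : z⁻¹ * x * z ∈ zpowers x := by
        have h2 := (mem_normalizer_iff.mp (inv_mem hz) x).mp (mem_zpowers x)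
        simpa using h2
      obtain ⟨k, hk⟩ := mem_zpowers_iff.mp h1
      have h3 : Commute g (z⁻¹ * x * z) := by
        rw [← hk]; exact (show Commute g x from hg).zpow_right k
      have h4 : g * (z⁻¹ * x * z) = (z⁻¹ * x * z) * g := h3.eq
      calc z * g * z⁻¹ * x = z * (g * (z⁻¹ * x * z)) * z⁻¹ := by group
        _ = z * ((z⁻¹ * x * z) * g) * z⁻¹ := by rw [h4]
        _ = x * (z * g * z⁻¹) := by group
    intro g
    constructor
    · exact key y y.2 g
    · intro h
      have h1 := key (y : G)⁻¹ (inv_mem y.2) _ h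
      have h2 : (y : G)⁻¹ * (y * g * (y : G)⁻¹) * (y : G)⁻¹⁻¹ = g := by group
      rw [h2] at h1; exact h1
  · have h3e : ¬ 3 ∣ e := fun h => by
      have := h.trans he10
      revert this; decide
    have h4 : ¬ 3 ∣ D.index := fun h => by
      have h5 := h.trans hDi
      rw [← hCe] at h5
      rcases (f3.out.dvd_mul).mp h5 with h6 | h6
      · exact h3c h6
      · exact h3e h6
    have h5 : 3 ∣ Nat.card D * D.index := by rw [hDc]; norm_num
    have h6 : 3 ∣ Nat.card D := by
      rcases (f3.out.dvd_mul).mp h5 with h6 | h6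
      · exact h6
      · exact absurd h6 h4
    obtain ⟨y, hy⟩ := exists_prime_orderOf_dvd_card' (G := G) 5 (by rw [hG]; norm_num)
    have hDtop : normalizer (D : Set G) = ⊤ := normalizer_eq_top_iff.mpr hDn
    exact fin y hy (inv3 hy (K := D) (by rw [hDtop]; exact mem_top y) h5D h6 (h27 _))

end Cfsg.Agent.H9.PG
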