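import Cfsg.Agent.H9.PGB
import Cfsg.Agent.H10.Basic

set_option autoImplicit false
set_option linter.unusedSectionVars false
set_option linter.unusedVariables false

/-! Adjacency in the prime graph of groups of order 7920, part 3. -/

open Cfsg

namespace Cfsg.Agent.H9.PG

open Subgroup

universe u

variable {G : Type u} [Group G] [Finite G]

set_option maxRecDepth 20000 in
theorem div720 : ∀ v ∈ Nat.divisors 720, v % 11 = 1 → v = 1 ∨ v = 12 ∨ v = 45 ∨ v = 144 := by decide

/-- a perfect proper normal subgroup has order 660 -/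
theorem card_perfect (hG : Nat.card G = 7920) {N : Subgroup G} (hN : N.Normal) (hNt : N ≠ ⊤)
    (hperf : commutator N = ⊤) (hcore : pPrimeCore 11 N = ⊥) (P : Sylow 11 G) (hPN : (P : Subgroup G) ≤ N)
    (hPc : Nat.card P = 11) (hPn : ¬ (P : Subgroup G).Normal) : Nat.card N = 660 := by
  haveI f11 : Fact (Nat.Prime 11) := ⟨by norm_num⟩
  haveI := hN
  have hP'c : Nat.card (P.subtype hPN : Sylow 11 N) = 11 := by
    have : Nat.card ((P.subtype hPN : Sylow 11 N) : Subgroup N) = Nat.card (P : Subgroup G) := by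
      rw [Sylow.coe_subtype]
      exact Nat.card_congr (subgroupOfEquivOfLe hPN).toEquiv
    exact this.trans hPc
  have hNd : Nat.card N ∣ 7920 := by rw [← hG]; exact card_subgroup_dvd_card _
  have hidx := card_mul_index ((P.subtype hPN : Sylow 11 N) : Subgroup N)
  rw [show Nat.card ((P.subtype hPN : Sylow 11 N) : Subgroup N) = 11 from hP'c] at hidx
  have hv1 : Nat.card (Sylow 11 N) ∣ 720 := by
    have h1 : Nat.card (Sylow 11 N) ∣ ((P.subtype hPN : Sylow 11 N) : Subgroup N).index := Sylow.card_dvd_index _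
    have h2 : 11 * ((P.subtype hPN : Sylow 11 N) : Subgroup N).index ∣ 11 * 720 := by rw [hidx]; exact hNd
    exact h1.trans (Nat.dvd_of_mul_dvd_mul_left (by norm_num) h2)
  have hv2 : Nat.card (Sylow 11 N) % 11 = 1 := by
    have := card_sylow_modEq_one 11 N
    exact this
  have hv := div720 _ (Nat.mem_divisors.mpr ⟨hv1, by norm_num⟩) hv2
  have hd : 11 ∣ Nat.card N := ⟨_, hidx.symm⟩
  have main : ∀ n, Nat.card (Sylow 11 N) = 1 + n * 11 → (∀ h u : ℕ, 0 < h → 0 < u → n * (u + 1) ≠ h * u * 11 + u ^ 2 + u + h) →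
      Nat.card N = 660 := by
    intro n hn hno
    rcases S4700.result hperf 11 (P.subtype hPN) hP'c n hn with ⟨F, _, _, hF, -, ⟨eq⟩⟩ | ⟨m, F, _, _, hF, h11, -⟩ | ⟨h, u, hh, hu, h3⟩
    · have h1 := H5.card_PSL2 hF
      have h2 : Nat.gcd 2 (11 - 1) = 2 := by norm_num
      rw [h2] at h1
      have h3 : Nat.card (N ⧸ pPrimeCore 11 N) = Nat.card (Matrix.ProjectiveSpecialLinearGroup (Fin 2) F) :=
        Nat.card_congr eq.toEquiv
      have h4 := Subgroup.card_eq_card_quotient_mul_card_subgroup (pPrimeCore 11 N)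
      have h5 : Nat.card (pPrimeCore 11 N) = 1 := by rw [hcore]; exact Subgroup.card_bot
      rw [h5, mul_one, h3] at h4
      omega
    · exfalso
      have : 2 ^ m = 10 := by omega
      rcases Nat.lt_or_ge m 4 with h | h
      · interval_cases m <;> omega
      · have : 2 ^ 4 ≤ 2 ^ m := Nat.pow_le_pow_right (by norm_num) h
        omega
    · exact absurd h3 (hno h u hh hu)
  rcases hv with hv | hv | hv | hv
  · exfalso
    exact hPn (Syl.normal_of_subtype_normal P N hPN (Syl.normal_of_card_sylow_eq_one hv _))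
  · refine main 1 (by rw [hv]) ?_
    intro h u hh hu h3
    have h4 : 1 ≤ h * u := Nat.mul_pos hh hu
    nlinarith [sq_nonneg u]
  · refine main 4 (by rw [hv]) ?_
    intro h u hh hu h3
    have h4 : u ≤ h * u := Nat.le_mul_of_pos_left u hh
    nlinarith [sq_nonneg u]
  · exfalso
    have h1 := Syl.card_normalizer_mul (P.subtype hPN : Sylow 11 N)
    have h2 := BR.one_lt_index hperf hd (P.subtype hPN)
    have h3 := H1.card_mul_relIndex_aux (centralizer_le_normalizer
      (s := (((P.subtype hPN : Sylow 11 N) : Subgroup N) : Set N)))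
    have h4 : Nat.card ((P.subtype hPN : Sylow 11 N) : Subgroup N) ≤
        Nat.card (centralizer (((P.subtype hPN : Sylow 11 N) : Subgroup N) : Set N)) :=
      card_le_of_le (Syl.le_centralizer_of_card_prime hP'c)
    rw [show Nat.card ((P.subtype hPN : Sylow 11 N) : Subgroup N) = 11 from hP'c] at h4
    have h5 : 22 ≤ Nat.card (normalizer (((P.subtype hPN : Sylow 11 N) : Subgroup N) : Set N)) := by
      rw [← h3]; nlinarith
    rw [hv] at h1
    generalize Nat.card (normalizer (((P.subtype hPN : Sylow 11 N) : Subgroup N) : Set N)) = m at h1 h5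
    have h6 : m * 144 ∣ 55 * 144 := by
      rw [h1]; exact hNd
    have h7 : m ∣ 55 := Nat.dvd_of_mul_dvd_mul_right (by norm_num) h6
    have h8 : m = 55 := by
      have h9 : ∀ m ∈ Nat.divisors 55, 22 ≤ m → m = 55 := by decide
      exact h9 m (Nat.mem_divisors.mpr ⟨h7, by norm_num⟩) h5
    apply hNt
    apply eq_top_of_card_eq
    rw [hG, ← h1, h8]

variable (hG : Nat.card G = 7920) {A : Set ℕ}
  (hA : ∀ (x : G) (r s : ℕ), r.Prime → s.Prime → r ≠ s → orderOf x = r → s ∣ Nat.card (centralizer ({x} : Set G)) →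
    (r ∈ A ↔ s ∈ A))

include hG hA

theorem conn_case2 (h11 : ∀ N : Subgroup G, N.Normal → N ≠ ⊥ → 11 ∣ Nat.card N)
    (hns : ∃ N : Subgroup G, N.Normal ∧ N ≠ ⊥ ∧ N ≠ ⊤) :
    (2 ∈ A ↔ 11 ∈ A) ∧ (3 ∈ A ↔ 11 ∈ A) ∧ (5 ∈ A ↔ 11 ∈ A) := by
  haveI f11 : Fact (Nat.Prime 11) := ⟨by norm_num⟩
  haveI f5 : Fact (Nat.Prime 5) := ⟨by norm_num⟩
  haveI f3 : Fact (Nat.Prime 3) := ⟨by norm_num⟩
  haveI f2 : Fact (Nat.Prime 2) := ⟨by norm_num⟩
  obtain ⟨M, hM, hM1, hMt⟩ := hns
  obtain ⟨N, ⟨hN, hN1⟩, hmin⟩ := Set.exists_min_image {N : Subgroup G | N.Normal ∧ N ≠ ⊥} (fun N => Nat.card N)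
    (Set.toFinite _) ⟨M, hM, hM1⟩
  have hNt : N ≠ ⊤ := by
    rintro rfl
    have h1 := hmin M ⟨hM, hM1⟩
    apply hMt
    apply eq_top_of_card_eq
    refine le_antisymm (card_le_card_group M) ?_
    simpa using h1
  haveI := hN
  obtain ⟨x', hx'⟩ := exists_prime_orderOf_dvd_card' (G := N) 11 (h11 N hN hN1)
  set x : G := (x' : G) with hxdef
  have hx : orderOf x = 11 := by rw [hxdef, Subgroup.orderOf_coe]; exact hx'
  obtain ⟨P, hP⟩ := exists_sylow_zpowers hx (by rw [hG]; norm_num)
  have hPN : (P : Subgroup G) ≤ N := by rw [hP]; exact zpowers_le.mpr x'.2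
  have hPc : Nat.card P = 11 := by
    have : Nat.card (P : Subgroup G) = 11 := by rw [hP, Nat.card_zpowers, hx]
    exact this
  obtain ⟨e, he, hCe⟩ := norm_facts hx
  have he10 : e ∣ 10 := he
  have he0 : e ≤ 10 := Nat.le_of_dvd (by norm_num) he10
  set c := Nat.card (centralizer ({x} : Set G)) with hcdef
  have hCs : ∀ s : ℕ, s.Prime → s ≠ 11 → s ∣ c → (s ∈ A ↔ 11 ∈ A) := by
    intro s hs hne hsC
    exact (hA x 11 s f11.out hs hne.symm hx hsC).symm
  by_cases hPn : (P : Subgroup G).Normal
  · have hPn' : (zpowers x).Normal := by rw [← hP]; exact hPn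
    have h1 : normalizer ((zpowers x : Subgroup G) : Set G) = ⊤ := normalizer_eq_top_iff.mpr hPn'
    rw [h1, card_top, hG] at hCe
    have hCn : (centralizer ({x} : Set G)).Normal := by
      rw [← cz]; infer_instance
    have h2c : 2 ∣ c := by interval_cases e <;> omega
    have h3c : 3 ∣ c := by interval_cases e <;> omega
    have h3A := hCs 3 f3.out (by norm_num) h3c
    refine ⟨hCs 2 f2.out (by norm_num) h2c, h3A, ?_⟩
    by_cases h5c : 5 ∣ c
    · exact hCs 5 f5.out (by norm_num) h5c
    · obtain ⟨y, hy⟩ := exists_prime_orderOf_dvd_card' (G := G) 5 (by rw [hG]; norm_num)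
      have h27 : ¬ 27 ∣ Nat.card (centralizer ({x} : Set G)) := by
        intro hK
        have := hK.trans (card_subgroup_dvd_card _)
        rw [hG] at this
        revert this; decide
      have h4 := inv3 hy (K := centralizer ({x} : Set G)) (by rw [normalizer_eq_top_iff.mpr hCn]; exact mem_top y)
        h5c h3c h27
      exact (hA y 5 3 f5.out f3.out (by norm_num) hy h4).trans h3A
  · have hperf : commutator N = ⊤ := by
      have h1 : ((commutator N).map N.subtype).Normal := ConjAct.normal_of_characteristic_of_normal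
      by_cases h2 : commutator N = ⊥
      · exfalso
        apply hPn
        have hab : ∀ a b : N, a * b = b * a := by
          intro a b
          rw [commutator_eq_bot_iff_center_eq_top] at h2
          have h3 : b ∈ center N := by rw [h2]; exact mem_top b
          exact mem_center_iff.mp h3 a
        refine Syl.normal_of_subtype_normal P N hPN ⟨fun n hn g => ?_⟩
        rw [hab g n, mul_inv_cancel_right]; exact hn
      · have h3 : (commutator N).map N.subtype ≠ ⊥ := by
          intro h4
          apply h2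
          exact (Subgroup.map_eq_bot_iff_of_injective _ N.subtype_injective).mp h4
        have h4 := hmin _ ⟨h1, h3⟩
        have h5 : Nat.card ((commutator N).map N.subtype) = Nat.card (commutator N) :=
          card_map_of_injective N.subtype_injective
        apply eq_top_of_card_eq
        refine le_antisymm (card_le_card_group _) ?_
        rw [← h5]; exact h4
    have hcore : pPrimeCore 11 N = ⊥ := by
      by_contra h2
      haveI := H10.pPrimeCore_characteristic 11 N
      have h1 : ((pPrimeCore 11 N).map N.subtype).Normal := ConjAct.normal_of_characteristic_of_normal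
      have h3 : (pPrimeCore 11 N).map N.subtype ≠ ⊥ := by
        intro h4
        apply h2
        exact (Subgroup.map_eq_bot_iff_of_injective _ N.subtype_injective).mp h4
      have h4 := h11 _ h1 h3
      have h5 : Nat.card ((pPrimeCore 11 N).map N.subtype) = Nat.card (pPrimeCore 11 N) :=
        card_map_of_injective N.subtype_injective
      rw [h5] at h4
      exact (Nat.Prime.coprime_iff_not_dvd f11.out).mp (H10.pPrimeCore_coprime 11 N).symm h4
    have h660 := card_perfect hG hN hNt hperf hcore P hPN hPc hPn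
    have hidx : N.index = 12 := by
      have := card_mul_index N
      rw [h660, hG] at this
      omega
    have hF := frattini hx (by rw [hG]; norm_num) hN x'.2
    rw [hidx, ← hCe] at hF
    have h2c : 2 ∣ c := by interval_cases e <;> omega
    have h3c : 3 ∣ c := by interval_cases e <;> omega
    have h3A := hCs 3 f3.out (by norm_num) h3c
    refine ⟨hCs 2 f2.out (by norm_num) h2c, h3A, ?_⟩
    obtain ⟨y', hy'⟩ := exists_prime_orderOf_dvd_card' (G := N) 5 (by rw [h660]; norm_num)
    have hy : orderOf (y' : G) = 5 := by rw [Subgroup.orderOf_coe]; exact hy'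
    obtain ⟨e', he', hCe'⟩ := norm_facts hy
    have hF' := frattini hy (by rw [hG]; norm_num) hN y'.2
    rw [hidx, ← hCe'] at hF'
    have he4 : e' ∣ 4 := he'
    have he40 : e' ≤ 4 := Nat.le_of_dvd (by norm_num) he4
    have h3c' : 3 ∣ Nat.card (centralizer ({(y' : G)} : Set G)) := by
      generalize Nat.card (centralizer ({(y' : G)} : Set G)) = c' at hF'
      interval_cases e' <;> omega
    exact (hA y' 5 3 f5.out f3.out (by norm_num) hy h3c').trans h3A

end Cfsg.Agent.H9.PG
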