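import Mathlib

set_option autoImplicit false
set_option linter.unusedSectionVars false
set_option linter.style.haveILetI false
set_option linter.unusedVariables false
set_option linter.unusedSimpArgs false
set_option maxHeartbeats 1000000

/-! Transitive groups of degree `p + 1` and order `(p + 1) p d` with `d < p`. -/

open Subgroup

namespace Cfsg.Agent.H9.PP

open MulAction

/-- the situation -/
structure PP (G Ω : Type*) [Group G] [MulAction G Ω] (p d : ℕ) : Prop where
  hp : p.Prime
  faith : FaithfulSMul G Ω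
  trans : IsPretransitive G Ω
  card : Nat.card Ω = p + 1
  order : Nat.card G = (p + 1) * p * d
  lt : d < p

variable {G Ω : Type*} [Group G] [MulAction G Ω] [Finite G] [Finite Ω] {p d : ℕ}

namespace PP

variable (h : PP G Ω p d)
include h

theorem d_pos : 0 < d := by
  rcases Nat.eq_zero_or_pos d with e | e
  · have := h.order
    rw [e, mul_zero] at this
    exact absurd this Nat.card_pos.ne'
  · exact e

theorem card_stab (a : Ω) : Nat.card (stabilizer G a) = p * d := by
  haveI := h.trans
  have h1 := card_mul_index (stabilizer G a)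
  rw [index_stabilizer_of_transitive, h.card, h.order] at h1
  have h2 : 0 < p + 1 := by omega
  apply Nat.eq_of_mul_eq_mul_right h2
  rw [h1]; ring

theorem not_dvd : ¬ p ∣ d := fun hc => by
  have := Nat.le_of_dvd h.d_pos hc
  have := h.lt
  omega

/-- elements of order `p` have one fixed point -/
theorem fix_unique {x : G} (hx : orderOf x = p) {a c : Ω} (ha : x • a = a) (hc : x • c = c) : c = a := by
  classical
  by_contra hca
  haveI := h.faith
  have hp := h.hp
  haveI : Finite (zpowers x) := inferInstance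
  have hfix : ∀ b : Ω, x • b = b := by
    intro b
    by_contra hb
    have h1 : (orbit (zpowers x) b).ncard ∣ p := by
      have h2 := MulAction.index_stabilizer (zpowers x) b
      rw [← h2]
      have h3 := (stabilizer (zpowers x) b).index_dvd_card
      rwa [Nat.card_zpowers, hx] at h3
    rcases (Nat.dvd_prime hp).mp h1 with h2 | h2
    · obtain ⟨w, hw⟩ := Set.ncard_eq_one.mp h2
      have h3 : b ∈ orbit (zpowers x) b := mem_orbit_self b
      have h4 : x • b ∈ orbit (zpowers x) b := ⟨⟨x, mem_zpowers x⟩, rfl⟩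
      rw [hw, Set.mem_singleton_iff] at h3 h4
      exact hb (h4.trans h3.symm)
    · have hzfix : ∀ w : Ω, x • w = w → ∀ z : zpowers x, z • w = w := by
        rintro w hw ⟨z, hz⟩
        have h3 : x ∈ stabilizer G w := hw
        have h4 : zpowers x ≤ stabilizer G w := zpowers_le.mpr h3
        exact h4 hz
      have hsub : orbit (zpowers x) b ⊆ (Set.univ \ {a, c} : Set Ω) := by
        rintro w ⟨z, rfl⟩
        refine ⟨Set.mem_univ _, ?_⟩
        rintro (h3 | h3)
        · have h3' : z • b = a := h3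
          apply hb
          have h4 : b = a := by rw [← inv_smul_smul z b, h3', hzfix a ha]
          rw [h4, ha]
        · have h3' : z • b = c := h3
          apply hb
          have h4 : b = c := by rw [← inv_smul_smul z b, h3', hzfix c hc]
          rw [h4, hc]
      have h3 := Set.ncard_le_ncard hsub (Set.toFinite _)
      rw [h2, Set.ncard_diff (Set.subset_univ _) (Set.toFinite _), Set.ncard_univ, h.card, Set.ncard_pair (Ne.symm hca)] at h3
      have := hp.two_le
      omega
  have h1 : x = 1 := eq_of_smul_eq_smul (α := Ω) (fun b => by rw [hfix b, one_smul])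
  rw [h1, orderOf_one] at hx
  exact hp.one_lt.ne hx

/-- the normal subgroup of order `p` in a point stabilizer -/
theorem exists_A (a : Ω) : ∃ A : Subgroup G, Nat.card A = p ∧ A ≤ stabilizer G a ∧
    (∀ g ∈ stabilizer G a, ∀ x ∈ A, g * x * g⁻¹ ∈ A) ∧ (∀ x ∈ A, ∀ y ∈ A, x * y = y * x) ∧
    (∀ b c : Ω, b ≠ a → c ≠ a → ∃ x ∈ A, x • b = c) ∧ (∀ x ∈ A, x ≠ 1 → ∀ c : Ω, x • c = c → c = a) ∧
    (∀ x ∈ A, x ≠ 1 → orderOf x = p) := by
  classical
  have hp := h.hp
  haveI := Fact.mk hp
  haveI := h.faith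
  set H := stabilizer G a with hH
  have hcH := h.card_stab a
  obtain ⟨P⟩ : Nonempty (Sylow p H) := inferInstance
  have hP : Nat.card P = p := by
    rw [P.card_eq_multiplicity, hcH, Nat.factorization_mul hp.ne_zero h.d_pos.ne', Finsupp.add_apply,
      hp.factorization_self, Nat.factorization_eq_zero_of_not_dvd h.not_dvd, add_zero, pow_one]
  have hPi : (P : Subgroup H).index = d := by
    have h1 := card_mul_index (P : Subgroup H)
    rw [hP, hcH] at h1
    exact Nat.eq_of_mul_eq_mul_left hp.pos h1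
  have hn : Nat.card (Sylow p H) = 1 := by
    have h1 := P.card_dvd_index
    rw [hPi] at h1
    have h2 := Nat.le_of_dvd h.d_pos h1
    have h3 := card_sylow_modEq_one p H
    have h4 := h.lt
    have h5 : Nat.card (Sylow p H) % p = 1 % p := h3
    rw [Nat.mod_eq_of_lt (by omega), Nat.mod_eq_of_lt hp.one_lt] at h5
    exact h5
  haveI : Subsingleton (Sylow p H) := (Nat.card_eq_one_iff_unique.mp hn).1
  obtain ⟨Q, hPQ, hPn⟩ : ∃ Q : Subgroup H, Nat.card Q = p ∧ Q.Normal :=
    ⟨P, hP, P.normal_of_subsingleton⟩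
  have hcardA : Nat.card (Q.map H.subtype) = p := by
    rw [← hPQ]
    exact Nat.card_congr (Q.equivMapOfInjective _ H.subtype_injective).symm.toEquiv
  have hord : ∀ x ∈ Q.map H.subtype, x ≠ 1 → orderOf x = p := by
    intro x hx hx1
    have h1 : orderOf (⟨x, hx⟩ : (Q.map H.subtype : Subgroup G)) ∣ p := by
      rw [← hcardA]; exact orderOf_dvd_natCard _
    rw [Subgroup.orderOf_mk] at h1
    rcases (Nat.dvd_prime hp).mp h1 with h2 | h2
    · exact absurd (orderOf_eq_one_iff.mp h2) hx1
    · exact h2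
  have hle : Q.map H.subtype ≤ H := by
    rintro x ⟨y, -, rfl⟩
    exact y.2
  have hfpf : ∀ x ∈ Q.map H.subtype, x ≠ 1 → ∀ c : Ω, x • c = c → c = a := fun x hx hx1 c hc =>
    h.fix_unique (hord x hx hx1) (hle hx) hc
  refine ⟨Q.map H.subtype, hcardA, hle, ?_, ?_, ?_, hfpf, hord⟩
  · rintro g hg x ⟨y, hy, rfl⟩
    exact ⟨⟨g, hg⟩ * y * ⟨g, hg⟩⁻¹, hPn.conj_mem y hy ⟨g, hg⟩, rfl⟩
  · intro x hx y hy
    haveI : IsCyclic (Q.map H.subtype) := isCyclic_of_prime_card hcardA
    haveI := IsCyclic.isMulCommutative (α := (Q.map H.subtype : Subgroup G))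
    exact congrArg Subtype.val (mul_comm' (⟨x, hx⟩ : (Q.map H.subtype : Subgroup G)) ⟨y, hy⟩)
  · intro b c hb hc
    have hmem : ∀ x : (Q.map H.subtype : Subgroup G), (x : G) • b ≠ a := by
      intro x hx
      apply hb
      have h1 : (x : G) • a = a := hle x.2
      rw [← inv_smul_smul (x : G) b, hx, inv_smul_eq_iff, h1]
    let f : ↥(Q.map H.subtype) → {w : Ω // w ≠ a} := fun x => ⟨(x : G) • b, hmem x⟩
    have hinj : Function.Injective f := by
      intro x y hxy
      have h1 : (x : G) • b = (y : G) • b := congrArg Subtype.val hxy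
      by_contra hne
      apply hb
      apply hfpf ((y : G)⁻¹ * x) (mul_mem (inv_mem y.2) x.2)
      · intro h2
        exact hne (Subtype.ext (inv_mul_eq_one.mp h2)).symm
      · rw [mul_smul, h1, inv_smul_smul]
    have hc2 : Nat.card {w : Ω // w ≠ a} = p := by
      have h3 : Nat.card Ω = Nat.card {w : Ω // w = a} + Nat.card {w : Ω // w ≠ a} := by
        rw [← Nat.card_sum]
        exact Nat.card_congr (Equiv.sumCompl (fun w : Ω => w = a)).symm
      rw [h.card] at h3
      have h4 : Nat.card {w : Ω // w = a} = 1 := Nat.card_unique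
      omega
    have hbij : Function.Bijective f := by
      rw [Nat.bijective_iff_injective_and_card]
      exact ⟨hinj, by rw [hcardA, hc2]⟩
    obtain ⟨x, hx⟩ := hbij.2 ⟨c, hc⟩
    exact ⟨x, x.2, congrArg Subtype.val hx⟩

theorem two_trans : IsMultiplyPretransitive G Ω 2 := by
  rw [is_two_pretransitive_iff]
  intro a b c e hab hce
  haveI := h.trans
  obtain ⟨g, rfl⟩ := exists_smul_eq G a c
  obtain ⟨A, -, hA2, -, -, hA5, -⟩ := h.exists_A (g • a)
  obtain ⟨x, hx, hxe⟩ := hA5 (g • b) e (fun hc => hab (smul_left_cancel _ hc).symm) hce.symm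
  refine ⟨x * g, ?_, ?_⟩
  · rw [mul_smul]; exact hA2 hx
  · rw [mul_smul, hxe]

theorem three_fix {g : G} {a b c : Ω} (hab : a ≠ b) (hbc : b ≠ c) (hac : a ≠ c) (ha : g • a = a) (hb : g • b = b)
    (hc : g • c = c) : g = 1 := by
  haveI := h.faith
  have hp := h.hp
  obtain ⟨A, hA1, hA2, hA3, hA4, hA5, hA6, hA7⟩ := h.exists_A a
  obtain ⟨z, hz, hzb⟩ := hA5 b c hab.symm hac.symm
  have hz1 : z ≠ 1 := by
    rintro rfl
    rw [one_smul] at hzb
    exact hbc hzb
  have h1 : g * z * g⁻¹ ∈ A := hA3 g ha z hz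
  have hginv : g⁻¹ • b = b := inv_smul_eq_iff.mpr hb.symm
  have h2 : z⁻¹ * (g * z * g⁻¹) = 1 := by
    by_contra hne
    have h3 := hA6 _ (mul_mem (inv_mem hz) h1) hne b (by
      rw [mul_smul, mul_smul, mul_smul, hginv, hzb, hc, ← hzb, inv_smul_smul])
    exact hab h3.symm
  have h3 : g * z = z * g := mul_inv_eq_iff_eq_mul.mp (inv_mul_eq_one.mp h2).symm
  have hzA : zpowers z = A := by
    apply Subgroup.eq_of_le_of_card_ge (zpowers_le.mpr hz)
    rw [Nat.card_zpowers, hA7 z hz hz1, hA1]
  apply eq_of_smul_eq_smul (α := Ω)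
  intro w
  rw [one_smul]
  by_cases hwa : w = a
  · rw [hwa, ha]
  · obtain ⟨y, hy, hyw⟩ := hA5 b w hab.symm hwa
    rw [← hzA] at hy
    obtain ⟨j, rfl⟩ := mem_zpowers_iff.mp hy
    have h4 : g * z ^ j = z ^ j * g := ((show Commute g z from h3).zpow_right j).eq
    rw [← hyw, ← mul_smul, h4, mul_smul, hb]

theorem card_two {a b : Ω} (hab : a ≠ b) : Nat.card ↥(stabilizer G a ⊓ stabilizer G b) = d := by
  classical
  obtain ⟨A, hA1, hA2, hA3, hA4, hA5, hA6, hA7⟩ := h.exists_A a
  have h1 := card_mul_index (stabilizer (stabilizer G a) b)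
  rw [MulAction.index_stabilizer, h.card_stab a] at h1
  have h2 : orbit (stabilizer G a) b = {w | w ≠ a} := by
    ext w
    constructor
    · rintro ⟨x, rfl⟩ hc
      apply hab
      have h3 : (x : G) • b = a := hc
      rw [← inv_smul_smul (x : G) b, h3]
      exact (inv_smul_eq_iff.mpr x.2.symm).symm
    · intro hw
      obtain ⟨x, hx, hxw⟩ := hA5 b w hab.symm hw
      exact ⟨⟨x, hA2 hx⟩, hxw⟩
  have h3 : (orbit (stabilizer G a) b).ncard = p := by
    rw [h2]
    have h4 : ({w : Ω | w ≠ a} : Set Ω) = Set.univ \ {a} := by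
      ext w; simp
    rw [h4, Set.ncard_diff (Set.subset_univ _) (Set.toFinite _), Set.ncard_univ, h.card, Set.ncard_singleton,
      Nat.add_sub_cancel]
  rw [h3, mul_comm] at h1
  have h4 := Nat.eq_of_mul_eq_mul_left h.hp.pos h1
  rw [← h4]
  apply Nat.card_congr
  exact
    { toFun := fun x => ⟨⟨x.1, x.2.1⟩, x.2.2⟩
      invFun := fun x => ⟨x.1.1, ⟨x.1.2, x.2⟩⟩
      left_inv := fun x => rfl
      right_inv := fun x => rfl }

/-- `d = 1` : regular normal subgroup -/
theorem regular_of_one (hd : d = 1) : ∃ N : Subgroup G, N.Normal ∧ IsPretransitive N Ω ∧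
    ∀ a : Ω, stabilizer N a = ⊥ := by
  classical
  subst hd
  have hp := h.hp
  haveI := Fact.mk hp
  haveI : Nonempty Ω := by
    by_contra hc
    rw [not_nonempty_iff] at hc
    have := h.card
    rw [Nat.card_of_isEmpty] at this
    omega
  obtain ⟨a⟩ : Nonempty Ω := inferInstance
  obtain ⟨A, hA1, hA2, hA3, hA4, hA5, hA6, hA7⟩ := h.exists_A a
  have hAst : A = stabilizer G a := Subgroup.eq_of_le_of_card_ge hA2 (by rw [h.card_stab, hA1, mul_one])
  have hidx : A.index = p + 1 := by
    haveI := h.trans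
    rw [hAst, index_stabilizer_of_transitive, h.card]
  have hndvd : ¬ p ∣ A.index := by
    rw [hidx]
    intro hc
    have := (Nat.dvd_add_right (dvd_refl p)).mp hc
    exact hp.one_lt.ne' (Nat.dvd_one.mp this)
  have hpg : IsPGroup p A := IsPGroup.of_card (n := 1) (by rw [hA1, pow_one])
  have hNC : normalizer (((hpg.toSylow hndvd : Sylow p G) : Subgroup G) : Set G) ≤
      centralizer (((hpg.toSylow hndvd : Sylow p G) : Subgroup G) : Set G) := by
    change normalizer (A : Set G) ≤ centralizer (A : Set G)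
    intro g hg
    have hne : A ≠ ⊥ := by
      intro e
      rw [e, card_bot] at hA1
      exact hp.one_lt.ne hA1
    obtain ⟨x, hx, hx1⟩ := (bot_or_exists_ne_one A).resolve_left hne
    have h1 : g⁻¹ * x * g ∈ A := by
      have := (mem_normalizer_iff.mp (inv_mem hg) x).mp hx
      simpa using this
    have h2 : g • a = a := by
      apply hA6 x hx hx1
      have h3 : (g⁻¹ * x * g) • a = a := hA2 h1
      rw [mul_smul, mul_smul] at h3
      rw [inv_smul_eq_iff] at h3
      exact h3
    have h3 : g ∈ A := by rw [hAst]; exact h2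
    rw [mem_centralizer_iff]
    intro y hy
    exact hA4 y hy g h3
  have hcompl := MonoidHom.ker_transferSylow_isComplement' (hpg.toSylow hndvd : Sylow p G) hNC
  obtain ⟨N, hNn, hN⟩ : ∃ N : Subgroup G, N.Normal ∧ IsComplement' N A :=
    ⟨_, MonoidHom.normal_ker _, hcompl⟩
  have hcN : Nat.card N = p + 1 := by
    have h1 := hN.card_mul
    have h2 := card_mul_index A
    rw [← h1, mul_comm] at h2
    rw [← hidx]
    exact (Nat.eq_of_mul_eq_mul_right Nat.card_pos h2).symm
  have hst : ∀ c : Ω, ∀ n ∈ N, n • c = c → n = 1 := by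
    intro c n hn hnc
    have h1 : orderOf n ∣ p + 1 := by
      rw [← hcN, ← Subgroup.orderOf_mk n hn]; exact orderOf_dvd_natCard _
    have h2 : orderOf n ∣ p := by
      have := h.card_stab c
      rw [mul_one] at this
      rw [← this, ← Subgroup.orderOf_mk n (show n ∈ stabilizer G c from hnc)]; exact orderOf_dvd_natCard _
    have h3 : orderOf n ∣ 1 := (Nat.dvd_add_right h2).mp h1
    exact orderOf_eq_one_iff.mp (Nat.dvd_one.mp h3)
  refine ⟨N, hNn, ?_, ?_⟩
  · constructor
    intro x y
    let f : N → Ω := fun n => (n : G) • x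
    have hinj : Function.Injective f := by
      intro n m hnm
      have h1 : (n : G) • x = (m : G) • x := hnm
      have h2 := hst x ((m : G)⁻¹ * n) (mul_mem (inv_mem m.2) n.2) (by rw [mul_smul, h1, inv_smul_smul])
      exact (Subtype.ext (inv_mul_eq_one.mp h2)).symm
    have hbij : Function.Bijective f := by
      rw [Nat.bijective_iff_injective_and_card]
      exact ⟨hinj, by rw [hcN, h.card]⟩
    exact hbij.2 y
  · intro c
    rw [eq_bot_iff]
    intro n hn
    rw [mem_bot]
    exact Subtype.ext (hst c n n.2 hn)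

end PP

end Cfsg.Agent.H9.PP
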