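import Cfsg.Agent.H9.PPA
import Cfsg.Agent.H4.RegField

set_option autoImplicit false
set_option linter.unusedSectionVars false
set_option linter.style.haveILetI false
set_option linter.unusedVariables false
set_option linter.unusedSimpArgs false
set_option maxHeartbeats 1000000

/-! Transitive groups of degree `p + 1` and order `(p + 1) p d` with `d < p`: the affine case. -/

open Subgroup

namespace Cfsg.Agent.H9.PP

open MulAction

variable {G Ω : Type*} [Group G] [MulAction G Ω] [Finite G] [Finite Ω] {p d : ℕ}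

/-- semilinearity from commutation -/
theorem exists_semilinear {K : Type*} [Field K] (ρ : K ≃+ K)
    (hmul : ∀ s k : K, ρ (s * k) * ρ 1 = ρ s * ρ k) : ∃ (a : Kˣ) (φ : K ≃+* K), ∀ k, ρ k = a * φ k := by
  have h1 : ρ 1 ≠ 0 := by
    intro hc
    exact one_ne_zero (ρ.injective (hc.trans (map_zero ρ).symm))
  refine ⟨Units.mk0 (ρ 1) h1, ?_, ?_⟩
  · exact
      { toFun := fun k => (ρ 1)⁻¹ * ρ k
        invFun := fun k => ρ.symm (ρ 1 * k)
        left_inv := fun k => by
          simp only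
          rw [mul_inv_cancel_left₀ h1, ρ.symm_apply_apply]
        right_inv := fun k => by
          simp only
          rw [ρ.apply_symm_apply, inv_mul_cancel_left₀ h1]
        map_mul' := fun s k => by
          apply mul_left_cancel₀ h1
          apply mul_left_cancel₀ h1
          have h2 := hmul s k
          calc ρ 1 * (ρ 1 * ((ρ 1)⁻¹ * ρ (s * k))) = (ρ 1 * (ρ 1)⁻¹) * (ρ (s * k) * ρ 1) := by ring
            _ = ρ s * ρ k := by rw [mul_inv_cancel₀ h1, one_mul, h2]
            _ = (ρ 1 * (ρ 1)⁻¹) * (ρ 1 * (ρ 1)⁻¹) * (ρ s * ρ k) := by rw [mul_inv_cancel₀ h1]; ring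
            _ = ρ 1 * (ρ 1 * ((ρ 1)⁻¹ * ρ s * ((ρ 1)⁻¹ * ρ k))) := by ring
        map_add' := fun s k => by
          change (ρ 1)⁻¹ * ρ (s + k) = (ρ 1)⁻¹ * ρ s + (ρ 1)⁻¹ * ρ k
          rw [map_add, mul_add] }
  · intro k
    change ρ k = ρ 1 * ((ρ 1)⁻¹ * ρ k)
    rw [mul_inv_cancel_left₀ h1]

namespace PP

variable (h : PP G Ω p d)
include h

theorem affine (hp2 : p ≠ 2) {N : Subgroup G} (hN : N.Normal) (htr : IsPretransitive N Ω)
    (hreg : ∀ a : Ω, stabilizer N a = ⊥) :
    ∃ (K : Type) (_ : Field K) (_ : Fintype K) (E : Ω ≃ K),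
      ∀ g : G, ∃ (a : Kˣ) (b : K) (φ : K ≃+* K), ∀ k, E (g • E.symm k) = a * φ k + b := by
  classical
  have hp := h.hp
  haveI := Fact.mk hp
  haveI := h.faith
  haveI : Nonempty Ω := by
    by_contra hc
    rw [not_nonempty_iff] at hc
    have := h.card
    rw [Nat.card_of_isEmpty] at this
    omega
  obtain ⟨a⟩ : Nonempty Ω := inferInstance
  have hreg' : ∀ n ∈ N, n • a = a → n = 1 := by
    intro n hn hna
    have h1 : (⟨n, hn⟩ : N) ∈ stabilizer N a := hna
    rw [hreg a, mem_bot] at h1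
    exact congrArg Subtype.val h1
  have hinjN : ∀ n ∈ N, ∀ m ∈ N, n • a = m • a → n = m := by
    intro n hn m hm hnm
    have h1 := hreg' (m⁻¹ * n) (mul_mem (inv_mem hm) hn) (by rw [mul_smul, hnm, inv_smul_smul])
    exact (inv_mul_eq_one.mp h1).symm
  have hsurj : ∀ w : Ω, ∃ n : N, (n : G) • a = w := fun w => exists_smul_eq N a w
  have hcN : Nat.card N = p + 1 := by
    rw [← h.card]
    apply Nat.card_congr (Equiv.ofBijective (fun n : N => (n : G) • a) ⟨?_, hsurj⟩)
    intro n m hnm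
    exact Subtype.ext (hinjN n n.2 m m.2 hnm)
  obtain ⟨A, hA1, hA2, hA3, hA4, hA5, hA6, hA7⟩ := h.exists_A a
  -- `A` is transitive on `N \ {1}`
  have hAN : ∀ n ∈ N, ∀ m ∈ N, n ≠ 1 → m ≠ 1 → ∃ x ∈ A, x * n * x⁻¹ = m := by
    intro n hn m hm hn1 hm1
    obtain ⟨x, hx, hxe⟩ := hA5 (n • a) (m • a) (fun e => hn1 (hreg' n hn e)) (fun e => hm1 (hreg' m hm e))
    refine ⟨x, hx, ?_⟩
    apply hinjN _ (hN.conj_mem n hn x) _ hm
    have h1 : x⁻¹ • a = a := inv_smul_eq_iff.mpr (show a = x • a from (hA2 hx).symm)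
    rw [mul_smul, mul_smul, h1, hxe]
  -- an involution
  obtain ⟨n₀, hn₀⟩ : ∃ n₀ : N, orderOf n₀ = 2 := by
    haveI := Fact.mk Nat.prime_two
    apply exists_prime_orderOf_dvd_card'
    rw [hcN]
    rcases hp.eq_two_or_odd with e | e
    · exact absurd e hp2
    · omega
  have hn₀1 : (n₀ : G) ≠ 1 := by
    intro e
    have : n₀ = 1 := Subtype.ext e
    rw [this, orderOf_one] at hn₀
    omega
  have hn₀2 : (n₀ : G) * n₀ = 1 := by
    have h1 : n₀ * n₀ = 1 := by rw [← pow_two, ← hn₀]; exact pow_orderOf_eq_one _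
    exact congrArg Subtype.val h1
  have hsq : ∀ n ∈ N, n * n = 1 := by
    intro n hn
    by_cases hn1 : n = 1
    · rw [hn1, one_mul]
    · obtain ⟨x, hx, rfl⟩ := hAN n₀ n₀.2 n hn hn₀1 hn1
      have : x * n₀ * x⁻¹ * (x * n₀ * x⁻¹) = x * (n₀ * n₀) * x⁻¹ := by group
      rw [this, hn₀2]; group
  have hcomm : ∀ n ∈ N, ∀ m ∈ N, n * m = m * n := by
    intro n hn m hm
    have h1 : n⁻¹ = n := inv_eq_of_mul_eq_one_left (hsq n hn)
    have h2 : m⁻¹ = m := inv_eq_of_mul_eq_one_left (hsq m hm)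
    have h3 : (n * m)⁻¹ = n * m := inv_eq_of_mul_eq_one_left (hsq _ (mul_mem hn hm))
    rw [← h3, mul_inv_rev, h1, h2]
  letI : CommGroup N :=
    { (inferInstance : Group N) with
      mul_comm := fun x y => Subtype.ext (hcomm x x.2 y y.2) }
  -- conjugation
  let cj : G → (Additive N ≃+ Additive N) := fun g =>
    { toFun := fun x => Additive.ofMul ⟨g * (x.toMul : G) * g⁻¹, hN.conj_mem _ x.toMul.2 g⟩
      invFun := fun x => Additive.ofMul ⟨g⁻¹ * (x.toMul : G) * g⁻¹⁻¹, hN.conj_mem _ x.toMul.2 g⁻¹⟩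
      left_inv := fun x => by
        apply Additive.toMul.injective
        apply Subtype.ext
        change g⁻¹ * (g * (x.toMul : G) * g⁻¹) * g⁻¹⁻¹ = (x.toMul : G)
        group
      right_inv := fun x => by
        apply Additive.toMul.injective
        apply Subtype.ext
        change g * (g⁻¹ * (x.toMul : G) * g⁻¹⁻¹) * g⁻¹ = (x.toMul : G)
        group
      map_add' := fun x y => by
        apply Additive.toMul.injective
        apply Subtype.ext
        change g * ((x.toMul : G) * (y.toMul : G)) * g⁻¹ = (g * (x.toMul : G) * g⁻¹) * (g * (y.toMul : G) * g⁻¹)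
        group }
  have hcj : ∀ (g : G) (x : Additive N), (((cj g x).toMul : N) : G) = g * (x.toMul : G) * g⁻¹ := fun g x => rfl
  have hcjm : ∀ g g' : G, ∀ x, cj (g * g') x = cj g (cj g' x) := by
    intro g g' x
    apply Additive.toMul.injective
    apply Subtype.ext
    rw [hcj, hcj, hcj]; group
  obtain ⟨K, iK, iF, e, he1, he2⟩ := H4.exists_field_of_regular (ι := A)
    (fun x => ((cj x : Additive N →+ Additive N) : AddMonoid.End (Additive N))) (Additive.ofMul n₀)
    (by
      intro hc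
      apply hn₀1
      exact congrArg (fun z : Additive N => (z.toMul : G)) hc)
    (by
      intro x y
      ext z
      change (((cj x (cj y z)).toMul : N) : G) = (((cj y (cj x z)).toMul : N) : G)
      rw [← hcjm, ← hcjm, hA4 x x.2 y y.2])
    (by
      intro z hz
      obtain ⟨x, hx, hxz⟩ := hAN n₀ n₀.2 (z.toMul : G) z.toMul.2 hn₀1 (fun e => hz (Additive.toMul.injective (Subtype.ext e)))
      exact ⟨⟨x, hx⟩, Additive.toMul.injective (Subtype.ext hxz)⟩)
    (fun x => (cj x).injective)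
  have hmulA : ∀ s : K, s ≠ 0 → ∃ x ∈ A, ∀ k, cj x (e k) = e (s * k) := by
    intro s hs
    have h1 : e s ≠ 0 := by
      intro hc
      exact hs (e.injective (hc.trans (map_zero e).symm))
    obtain ⟨x, hx, hxz⟩ := hAN n₀ n₀.2 ((e s).toMul : G) (e s).toMul.2 hn₀1
      (fun e' => h1 (Additive.toMul.injective (Subtype.ext e')))
    obtain ⟨s', hs', hs2⟩ := he2 ⟨x, hx⟩
    have h2 : cj x (e 1) = e s := by
      rw [he1]
      exact Additive.toMul.injective (Subtype.ext hxz)
    have h3 : cj x (e 1) = e (s' * 1) := hs2 1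
    rw [h2, mul_one] at h3
    have h4 := e.injective h3
    subst h4
    exact ⟨x, hx, hs2⟩
  -- the point stabilizer is semilinear
  have hsemi : ∀ g ∈ stabilizer G a, ∃ (α : Kˣ) (φ : K ≃+* K), ∀ k, e.symm (cj g (e k)) = α * φ k := by
    intro g hg
    apply exists_semilinear ((e.trans (cj g)).trans e.symm)
    intro s k
    change e.symm (cj g (e (s * k))) * e.symm (cj g (e 1)) = e.symm (cj g (e s)) * e.symm (cj g (e k))
    by_cases hs : s = 0
    · rw [hs, zero_mul, map_zero, map_zero, map_zero, zero_mul, zero_mul]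
    · obtain ⟨x, hx, hxs⟩ := hmulA s hs
      obtain ⟨s', hs', hs2⟩ := he2 ⟨g * x * g⁻¹, hA3 g hg x hx⟩
      have hs3 : ∀ z : Additive N, cj (g * x * g⁻¹) z = e (s' * e.symm z) := by
        intro z
        have := hs2 (e.symm z)
        rw [e.apply_symm_apply] at this
        exact this
      have h1 : ∀ k, e.symm (cj g (e (s * k))) = s' * e.symm (cj g (e k)) := by
        intro k
        have h2 : g * x = (g * x * g⁻¹) * g := by group
        rw [← hxs, ← hcjm, h2, hcjm, hs3, e.symm_apply_apply]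
      have h2 := h1 1
      rw [mul_one] at h2
      rw [h1, h2]; ring
  -- the coordinates of the points
  let E₀ : K → Ω := fun k => ((e k).toMul : G) • a
  have hE₀ : Function.Bijective E₀ := by
    constructor
    · intro k l hkl
      have h1 := hinjN _ (e k).toMul.2 _ (e l).toMul.2 hkl
      exact e.injective (Additive.toMul.injective (Subtype.ext h1))
    · intro w
      obtain ⟨n, hn⟩ := hsurj w
      refine ⟨e.symm (Additive.ofMul n), ?_⟩
      change ((e (e.symm (Additive.ofMul n))).toMul : G) • a = w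
      rw [e.apply_symm_apply]
      exact hn
  refine ⟨K, iK, iF, (Equiv.ofBijective E₀ hE₀).symm, ?_⟩
  intro g
  obtain ⟨n, hn⟩ := hsurj (g • a)
  have hg0 : (n : G)⁻¹ * g ∈ stabilizer G a := by
    change ((n : G)⁻¹ * g) • a = a
    rw [mul_smul, ← hn, inv_smul_smul]
  obtain ⟨α, φ, hφ⟩ := hsemi _ hg0
  refine ⟨α, e.symm (Additive.ofMul n), φ, fun k => ?_⟩
  rw [Equiv.symm_symm, Equiv.symm_apply_eq]
  change g • E₀ k = E₀ (α * φ k + e.symm (Additive.ofMul n))
  change g • ((e k).toMul : G) • a = ((e (α * φ k + e.symm (Additive.ofMul n))).toMul : G) • a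
  rw [map_add, e.apply_symm_apply, ← hφ k, e.apply_symm_apply]
  have h1 : ((cj ((n : G)⁻¹ * g) (e k) + Additive.ofMul n).toMul : G) =
      (((n : G)⁻¹ * g) * ((e k).toMul : G) * ((n : G)⁻¹ * g)⁻¹) * (n : G) := rfl
  have h2 : (((n : G)⁻¹ * g) * ((e k).toMul : G) * ((n : G)⁻¹ * g)⁻¹) * (n : G) =
      (n : G) * (((n : G)⁻¹ * g) * ((e k).toMul : G) * ((n : G)⁻¹ * g)⁻¹) :=
    hcomm _ (hN.conj_mem _ (e k).toMul.2 _) _ n.2
  rw [h1, h2, mul_smul, mul_smul, mul_smul]
  have h3 : ((n : G)⁻¹ * g)⁻¹ • a = a := inv_smul_eq_iff.mpr (show a = ((n : G)⁻¹ * g) • a from hg0.symm)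
  rw [h3, mul_smul, smul_inv_smul]

end PP

end Cfsg.Agent.H9.PP
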