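import Cfsg.Agent.H9.PPB
import Cfsg.Agent.H9.BSWQ
import Cfsg.Agent.H20.ZPsl6
import Cfsg.Agent.H10.Perm23
import Cfsg.Agent.H10.Perm26
import Cfsg.Agent.H17.AutPSL8
import Cfsg.Agent.S0730

set_option autoImplicit false
set_option linter.unusedSectionVars false
set_option linter.style.haveILetI false
set_option linter.unusedVariables false
set_option linter.unusedSimpArgs false
set_option maxHeartbeats 1000000

/-! Transitive groups of degree `p + 1` and order `(p + 1) p d` with `d < p`: assembly. -/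

open Subgroup

namespace Cfsg.Agent.H9.PP

open MulAction

universe u

theorem pgl_iso_of_card {F : Type*} {F' : Type*} [Field F] [Fintype F] [Field F'] [Fintype F']
    (h : Fintype.card F = Fintype.card F') :
    Nonempty (Matrix.ProjGenLinGroup (Fin 2) F ≃* Matrix.ProjGenLinGroup (Fin 2) F') := by
  classical
  have e : F ≃+* F' := FiniteField.ringEquivOfCardEq h
  exact ⟨H5.centerQuotCongr (Units.mapEquiv (RingEquiv.mapMatrix (m := Fin 2) e).toMulEquiv)⟩

variable {G Ω : Type u} [Group G] [MulAction G Ω] [Finite G] [Finite Ω] {p d : ℕ}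

namespace PP

variable (h : PP G Ω p d)
include h

theorem d_dvd {K : Type} [Field K] [Fintype K] (E : Ω ≃ K)
    (hE : ∀ g : G, ∃ (a : Kˣ) (b : K) (φ : K ≃+* K), ∀ k, E (g • E.symm k) = a * φ k + b) :
    d ∣ Nat.card (K ≃+* K) := by
  classical
  haveI := h.faith
  have hab : E.symm 0 ≠ E.symm 1 := fun e => zero_ne_one (E.symm.injective e)
  rw [← h.card_two hab]
  have hφ : ∀ g : ↥(stabilizer G (E.symm 0) ⊓ stabilizer G (E.symm 1)), ∃ φ : K ≃+* K, ∀ k, E ((g : G) • E.symm k) = φ k := by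
    rintro ⟨g, hg⟩
    obtain ⟨hg0, hg1⟩ := mem_inf.mp hg
    obtain ⟨a, b, φ, hφ⟩ := hE g
    have h0 := hφ 0
    rw [show g • E.symm 0 = E.symm 0 from hg0, E.apply_symm_apply, map_zero, mul_zero, zero_add] at h0
    have h1 := hφ 1
    rw [show g • E.symm 1 = E.symm 1 from hg1, E.apply_symm_apply, map_one, mul_one, ← h0, add_zero] at h1
    refine ⟨φ, fun k => ?_⟩
    rw [hφ k, ← h0, ← h1, one_mul, add_zero]
  choose φ hφ using hφ
  let f : ↥(stabilizer G (E.symm 0) ⊓ stabilizer G (E.symm 1)) →* (K ≃+* K) := MonoidHom.mk' φ (by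
    intro g g'
    ext k
    change φ (g * g') k = φ g (φ g' k)
    rw [← hφ, ← hφ, ← hφ, E.symm_apply_apply, ← mul_smul]; rfl)
  apply Subgroup.card_dvd_of_injective f
  intro g g' hgg
  apply Subtype.ext
  apply eq_of_smul_eq_smul (α := Ω)
  intro w
  apply E.injective
  have h1 := hφ g (E w)
  have h2 := hφ g' (E w)
  rw [E.symm_apply_apply] at h1 h2
  rw [h1, h2]
  have h3 : φ g = φ g' := hgg
  rw [h3]

theorem zass (hreg : ¬ ∃ N : Subgroup G, N.Normal ∧ IsPretransitive N Ω ∧ ∀ a : Ω, stabilizer N a = ⊥) :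
    Cfsg.IsZassenhausGroup G Ω := by
  classical
  refine ⟨h.faith, h.two_trans, fun g a b c hab hbc hac ha hb hc => h.three_fix hab hbc hac ha hb hc, ?_, ?_⟩
  · have hd : d ≠ 1 := fun e => hreg (h.regular_of_one e)
    have hd0 := h.d_pos
    have h1 : 1 < Nat.card Ω := by
      rw [h.card]
      have := h.hp.pos
      omega
    haveI := Finite.one_lt_card_iff_nontrivial.mp h1
    obtain ⟨a, b, hab⟩ := exists_pair_ne Ω
    have h2 : 1 < Nat.card ↥(stabilizer G a ⊓ stabilizer G b) := by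
      rw [h.card_two hab]; omega
    haveI := Finite.one_lt_card_iff_nontrivial.mp h2
    obtain ⟨z, hz⟩ := _root_.exists_ne (1 : ↥(stabilizer G a ⊓ stabilizer G b))
    exact ⟨z, fun e => hz (Subtype.ext e), a, b, hab, z.2.1, z.2.2⟩
  · intro N hN htr
    by_contra hcon
    push Not at hcon
    exact hreg ⟨N, hN, htr, hcon⟩

theorem main_zass (hp2 : p ≠ 2) (hZ : Cfsg.IsZassenhausGroup G Ω) :
    (IsMultiplyPretransitive G Ω 3 ∧ (∀ t : Fin 3 ↪ Ω, stabilizer G t = ⊥) ∧ d = p - 1) ∨
    (2 * d = p - 1 ∧ ∃ (F : Type) (_ : Field F) (_ : Fintype F), Fintype.card F = p ∧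
      Nonempty (G ≃* Matrix.ProjectiveSpecialLinearGroup (Fin 2) F)) := by
  classical
  have hp := h.hp
  haveI : Nonempty Ω := by
    by_contra hc
    rw [not_nonempty_iff] at hc
    have := h.card
    rw [Nat.card_of_isEmpty] at this
    omega
  obtain ⟨a⟩ : Nonempty Ω := inferInstance
  obtain ⟨A, hA1, hA2, hA3, hA4, hA5, hA6, hA7⟩ := h.exists_A a
  have hK : A = H20.Zass.K hZ a := H20.Zass.eq_K hZ hA2 hA6 (by rw [hA1, h.card])
  have hp3 : 3 ≤ p := by
    have := hp.two_le
    omega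
  rcases H20.Zass.abelian_main hZ (a := a) (by rw [← hK]; exact hA4) with ⟨h3, hs⟩ | ⟨F, iF, iFin, hchar, hF, ⟨e⟩⟩
  · left
    refine ⟨h3, hs, ?_⟩
    have hcE : Nat.card (Fin 3 ↪ Ω) = (p + 1) * p * (p - 1) := by
      haveI : Fintype Ω := Fintype.ofFinite Ω
      rw [Nat.card_eq_fintype_card, Fintype.card_embedding_eq, Fintype.card_fin, ← Nat.card_eq_fintype_card, h.card]
      obtain ⟨m, rfl⟩ : ∃ m, p = m + 2 := ⟨p - 2, by omega⟩
      simp [Nat.descFactorial_succ]
      ring
    haveI : Nonempty (Fin 3 ↪ Ω) := by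
      rw [← not_isEmpty_iff]
      intro hc
      rw [Nat.card_of_isEmpty] at hcE
      have : 0 < (p + 1) * p * (p - 1) := Nat.mul_pos (Nat.mul_pos (by omega) (by omega)) (by omega)
      omega
    obtain ⟨t⟩ : Nonempty (Fin 3 ↪ Ω) := inferInstance
    haveI : IsPretransitive G (Fin 3 ↪ Ω) := h3
    have h1 := index_stabilizer_of_transitive G t
    rw [hs t, index_bot, h.order, hcE] at h1
    exact Nat.eq_of_mul_eq_mul_left (Nat.mul_pos (by omega) (by omega)) h1
  · right
    rw [h.card] at hF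
    have hF' : Fintype.card F = p := by omega
    refine ⟨?_, F, iF, iFin, hF', ⟨e⟩⟩
    have h1 := H5.card_PSL2 hF'
    rw [← Nat.card_congr e.toEquiv, h.order] at h1
    have hodd : p % 2 = 1 := by
      rcases hp.eq_two_or_odd with e' | e'
      · exact absurd e' hp2
      · exact e'
    have hg : Nat.gcd 2 (p - 1) = 2 := Nat.gcd_eq_left (by omega)
    rw [hg] at h1
    obtain ⟨m, rfl⟩ : ∃ m, p = m + 1 := ⟨p - 1, by omega⟩
    have h2 : (m + 1) ^ 2 - 1 = m * (m + 2) := by
      have : (m + 1) ^ 2 = m * (m + 2) + 1 := by ring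
      omega
    rw [h2] at h1
    have h3 : (m + 1) * (m + 2) * (2 * d) = (m + 1) * (m + 2) * m := by
      have e1 : (m + 1) * (m + 2) * (2 * d) = 2 * ((m + 1 + 1) * (m + 1) * d) := by ring
      have e2 : (m + 1) * (m + 2) * m = (m + 1) * (m * (m + 2)) := by ring
      rw [e1, e2, h1]
    have h4 := Nat.eq_of_mul_eq_mul_left (by positivity) h3
    omega

end PP

end Cfsg.Agent.H9.PP
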