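import Mathlib
import Cfsg.Agent.H22.SimpleProd

set_option autoImplicit false
set_option linter.unusedSectionVars false
set_option linter.style.haveILetI false
set_option linter.unusedVariables false
set_option linter.unusedSimpArgs false

/-! Normal and characteristic subgroups of powers of simple groups. -/

open Subgroup

namespace Cfsg.Agent.H9.Pow

/-- the centre of a nonabelian simple group is trivial -/
theorem exists_ne_comm {S : Type*} [Group S] [IsSimpleGroup S] (hS : ¬ IsMulCommutative S) {a : S} (ha : a ≠ 1) :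
    ∃ s : S, a * s * a⁻¹ * s⁻¹ ≠ 1 := by
  by_contra hcon
  push Not at hcon
  have h1 : a ∈ center S := by
    rw [mem_center_iff]
    intro g
    have := hcon g
    rw [mul_inv_eq_one, mul_inv_eq_iff_eq_mul] at this
    exact this.symm
  have h2 : center S = ⊤ := by
    rcases (inferInstance : (center S).Normal).eq_bot_or_eq_top with h | h
    · rw [h, mem_bot] at h1; exact absurd h1 ha
    · exact h
  apply hS
  refine ⟨⟨fun x y => ?_⟩⟩
  have : x ∈ center S := by rw [h2]; exact mem_top _
  exact (mem_center_iff.mp this y).symm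

theorem single_mem {S : Type*} [Group S] [IsSimpleGroup S] (hS : ¬ IsMulCommutative S) {n : ℕ}
    (N : Subgroup (Fin n → S)) [N.Normal] {x : Fin n → S} (hx : x ∈ N) {i : Fin n} (hi : x i ≠ 1) (s : S) :
    Pi.mulSingle i s ∈ N := by
  have hN : N.Normal := inferInstance
  let M : Subgroup S := N.comap (MonoidHom.mulSingle (fun _ : Fin n => S) i)
  haveI : M.Normal := by
    constructor
    intro a ha g
    have h1 := hN.conj_mem _ ha (Pi.mulSingle i g)
    change (Pi.mulSingle i (g * a * g⁻¹) : Fin n → S) ∈ N
    rw [Pi.mulSingle_mul, Pi.mulSingle_mul, Pi.mulSingle_inv]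
    exact h1
  obtain ⟨t, ht⟩ := exists_ne_comm hS hi
  have h1 : x i * t * (x i)⁻¹ * t⁻¹ ∈ M := by
    change (Pi.mulSingle i (x i * t * (x i)⁻¹ * t⁻¹) : Fin n → S) ∈ N
    have h2 : (Pi.mulSingle i (x i * t * (x i)⁻¹ * t⁻¹) : Fin n → S) =
        x * (Pi.mulSingle i t * x⁻¹ * (Pi.mulSingle i t)⁻¹) := by
      ext j
      by_cases hj : j = i
      · subst hj
        simp only [Pi.mulSingle_eq_same, Pi.mul_apply, Pi.inv_apply, mul_assoc]
      · simp only [Pi.mulSingle_eq_of_ne hj, Pi.mul_apply, Pi.inv_apply]
        group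
    rw [h2]
    exact N.mul_mem hx (hN.conj_mem _ (N.inv_mem hx) _)
  have h2 : M = ⊤ := by
    rcases (inferInstance : M.Normal).eq_bot_or_eq_top with h | h
    · rw [h, mem_bot] at h1; exact absurd h1 ht
    · exact h
  have h3 : s ∈ M := by rw [h2]; exact mem_top _
  exact h3

theorem normal_pi {S : Type*} [Group S] [IsSimpleGroup S] (hS : ¬ IsMulCommutative S) (n : ℕ)
    (N : Subgroup (Fin n → S)) [N.Normal] :
    ∃ T : Finset (Fin n), ∀ x : Fin n → S, x ∈ N ↔ ∀ i, i ∉ T → x i = 1 := by
  classical
  refine ⟨Finset.univ.filter (fun i => ∃ x ∈ N, x i ≠ 1), fun x => ?_⟩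
  constructor
  · intro hx i hi
    by_contra hne
    exact hi (Finset.mem_filter.mpr ⟨Finset.mem_univ _, x, hx, hne⟩)
  · intro h
    apply Subgroup.pi_mem_of_mulSingle_mem
    intro i
    by_cases hi : i ∈ Finset.univ.filter (fun i => ∃ x ∈ N, x i ≠ 1)
    · obtain ⟨y, hy, hyi⟩ := (Finset.mem_filter.mp hi).2
      exact single_mem hS N hy hyi (x i)
    · rw [h i hi, Pi.mulSingle_one]
      exact N.one_mem

/-- a power of a simple group is characteristically simple -/
theorem char_pi {S : Type*} [Group S] [IsSimpleGroup S] {n : ℕ} (H : Subgroup (Fin n → S)) (hH : H.Characteristic) :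
    H = ⊥ ∨ H = ⊤ := by
  classical
  by_cases hbot : H = ⊥
  · exact Or.inl hbot
  right
  obtain ⟨⟨x, hx⟩, hx0⟩ := (H.ne_bot_iff_exists_ne_one).mp hbot
  have hx1 : x ≠ 1 := fun h => hx0 (Subtype.ext h)
  obtain ⟨i, hi⟩ : ∃ i, x i ≠ 1 := by
    by_contra hcon
    push Not at hcon
    exact hx1 (funext hcon)
  -- it suffices to have all single elements
  suffices h : ∀ (j : Fin n) (s : S), Pi.mulSingle j s ∈ H by
    rw [eq_top_iff]
    intro y _
    exact Subgroup.pi_mem_of_mulSingle_mem _ (fun j => h j (y j))
  have hchar : ∀ (φ : (Fin n → S) ≃* (Fin n → S)) {y : Fin n → S}, y ∈ H → φ y ∈ H := by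
    intro φ y hy
    have h1 := hH.fixed φ
    have h2 : y ∈ H.comap φ.toMonoidHom := by rw [h1]; exact hy
    exact h2
  -- permuting coordinates
  have hperm : ∀ (j k : Fin n) (s : S), Pi.mulSingle j s ∈ H → Pi.mulSingle k s ∈ H := by
    intro j k s hs
    have h1 := hchar (MulEquiv.arrowCongr (Equiv.swap j k) (MulEquiv.refl S)) hs
    have h2 : (MulEquiv.arrowCongr (Equiv.swap j k) (MulEquiv.refl S)) (Pi.mulSingle j s) = (Pi.mulSingle k s : Fin n → S) := by
      funext l
      change (Pi.mulSingle j s : Fin n → S) ((Equiv.swap j k).symm l) = (Pi.mulSingle k s : Fin n → S) l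
      rw [Equiv.symm_swap]
      by_cases hl : l = k
      · subst hl
        rw [Equiv.swap_apply_right, Pi.mulSingle_eq_same, Pi.mulSingle_eq_same]
      · rw [Pi.mulSingle_eq_of_ne hl, Pi.mulSingle_eq_of_ne]
        intro h
        apply hl
        have h' : (Equiv.swap j k) l = (Equiv.swap j k) k := h.trans (Equiv.swap_apply_right j k).symm
        exact (Equiv.swap j k).injective h'
    rwa [h2] at h1
  by_cases hS : IsMulCommutative S
  · -- abelian case
    have hcomm : ∀ a b : S, a * b = b * a := fun a b => hS.is_comm.comm a b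
    have key : ∃ j : Fin n, Pi.mulSingle j (x i) ∈ H := by
      by_cases hn : ∀ j : Fin n, j = i
      · refine ⟨i, ?_⟩
        have h1 : Pi.mulSingle i (x i) = x := by
          ext j
          rw [hn j, Pi.mulSingle_eq_same]
        rwa [h1]
      · push Not at hn
        obtain ⟨j, hj⟩ := hn
        refine ⟨j, ?_⟩
        -- the transvection
        have hji : j ≠ i := hj
        let φ : (Fin n → S) ≃* (Fin n → S) :=
          { toFun := fun y => y * Pi.mulSingle j (y i)
            invFun := fun y => y * Pi.mulSingle j (y i)⁻¹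
            left_inv := by
              intro y
              ext l
              by_cases hl : l = j
              · subst hl
                simp only [Pi.mul_apply, Pi.mulSingle_eq_same, Pi.mulSingle_eq_of_ne hji.symm, mul_one, mul_inv_cancel_right]
              · simp only [Pi.mul_apply, Pi.mulSingle_eq_of_ne hl, mul_one]
            right_inv := by
              intro y
              ext l
              by_cases hl : l = j
              · subst hl
                simp only [Pi.mul_apply, Pi.mulSingle_eq_same, Pi.mulSingle_eq_of_ne hji.symm, mul_one, inv_mul_cancel_right]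
              · simp only [Pi.mul_apply, Pi.mulSingle_eq_of_ne hl, mul_one]
            map_mul' := by
              intro y z
              ext l
              by_cases hl : l = j
              · subst hl
                simp only [Pi.mul_apply, Pi.mulSingle_eq_same]
                rw [mul_assoc, mul_assoc, ← mul_assoc (z l), hcomm (z l) (y i), mul_assoc]
              · simp only [Pi.mul_apply, Pi.mulSingle_eq_of_ne hl, mul_one] }
        have h1 : φ x ∈ H := hchar φ hx
        have h2 : φ x = x * Pi.mulSingle j (x i) := rfl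
        rw [h2] at h1
        exact (H.mul_mem_cancel_left hx).mp h1
    obtain ⟨j₀, hj₀⟩ := key
    intro j s
    have h1 : Pi.mulSingle j (x i) ∈ H := hperm j₀ j _ hj₀
    let M : Subgroup S := H.comap (MonoidHom.mulSingle (fun _ : Fin n => S) j)
    haveI : M.Normal := by
      constructor
      intro a ha g
      rw [hcomm g a, mul_inv_cancel_right]
      exact ha
    have h2 : M = ⊤ := by
      rcases (inferInstance : M.Normal).eq_bot_or_eq_top with h | h
      · have h3 : x i ∈ M := h1
        rw [h, mem_bot] at h3; exact absurd h3 hi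
      · exact h
    have h3 : s ∈ M := by rw [h2]; exact mem_top _
    exact h3
  · haveI : H.Normal := inferInstance
    intro j s
    exact hperm i j s (single_mem hS H hx hi s)

theorem char_transfer {G K : Type*} [Group G] [Group K] (e : G ≃* K)
    (h : ∀ H : Subgroup K, H.Characteristic → H = ⊥ ∨ H = ⊤) (H : Subgroup G) (hH : H.Characteristic) : H = ⊥ ∨ H = ⊤ := by
  have h1 : (H.comap e.symm.toMonoidHom).Characteristic := by
    constructor
    intro φ
    have h2 := hH.fixed ((e.trans φ).trans e.symm)
    ext x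
    have h3 : e.symm x ∈ H.comap ((e.trans φ).trans e.symm).toMonoidHom ↔ e.symm x ∈ H := by rw [h2]
    have h4 : e.symm x ∈ H.comap ((e.trans φ).trans e.symm).toMonoidHom ↔ e.symm (φ (e (e.symm x))) ∈ H := Iff.rfl
    rw [e.apply_symm_apply] at h4
    exact h4.symm.trans h3
  have h2 : ∀ x : G, x ∈ H ↔ e x ∈ H.comap e.symm.toMonoidHom := by
    intro x
    change _ ↔ e.symm (e x) ∈ H
    rw [e.symm_apply_apply]
  rcases h _ h1 with h3 | h3
  · left
    rw [eq_bot_iff]
    intro x hx
    rw [h2, h3, mem_bot] at hx
    rw [mem_bot]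
    exact e.injective (hx.trans (map_one e).symm)
  · right
    rw [eq_top_iff]
    intro x _
    rw [h2, h3]
    exact mem_top _

/-- nonabelian characteristically simple groups -/
theorem exists_pow_nonabelian {G : Type*} [Group G] [Finite G] [Nontrivial G]
    (h : ∀ H : Subgroup G, H.Characteristic → H = ⊥ ∨ H = ⊤) (hc : ¬ ∀ a b : G, a * b = b * a) :
    ∃ (T : Type) (_ : Group T) (m : ℕ), 1 ≤ m ∧ IsSimpleGroup T ∧ ¬ IsMulCommutative T ∧ Nonempty (G ≃* (Fin m → T)) := by
  classical
  let φ : MulAut G →* MulAut G := MonoidHom.id _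
  haveI : Finite (MulAut G) := Finite.of_injective (fun a : MulAut G => (a : G → G)) DFunLike.coe_injective
  haveI : Finite (G ⋊[φ] MulAut G) := Finite.of_equiv _ SemidirectProduct.equivProd.symm
  let N : Subgroup (G ⋊[φ] MulAut G) := (SemidirectProduct.inl : G →* G ⋊[φ] MulAut G).range
  have hNn : N.Normal := by
    change (SemidirectProduct.inl : G →* G ⋊[φ] MulAut G).range.Normal
    rw [SemidirectProduct.range_inl_eq_ker_rightHom]
    infer_instance
  have hinl : Function.Injective (SemidirectProduct.inl : G →* G ⋊[φ] MulAut G) := SemidirectProduct.inl_injective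
  have hmin : H22.IsMinNormalIn ⊤ N := by
    refine ⟨le_top, fun n _ t ht => hNn.conj_mem t ht n, ?_, ?_⟩
    · intro hb
      obtain ⟨a, b, hab⟩ := exists_pair_ne G
      have h1 : ∀ x : G, x = 1 := by
        intro x
        have h2 : (SemidirectProduct.inl x : G ⋊[φ] MulAut G) ∈ N := ⟨x, rfl⟩
        rw [hb, mem_bot] at h2
        exact hinl (h2.trans (map_one _).symm)
      exact hab ((h1 a).trans (h1 b).symm)
    · intro M hM hMN
      have h1 : (M.comap (SemidirectProduct.inl : G →* G ⋊[φ] MulAut G)).Characteristic := by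
        rw [characteristic_iff_comap_le]
        intro α x hx
        have h2 : (SemidirectProduct.inl (α x) : G ⋊[φ] MulAut G) ∈ M := hx
        have h3 := hM (SemidirectProduct.inr α⁻¹) (mem_top _) _ h2
        have h4 := SemidirectProduct.inl_aut (φ := φ) α⁻¹ (α x)
        change (SemidirectProduct.inl (α⁻¹ (α x)) : G ⋊[φ] MulAut G) = _ at h4
        rw [MulAut.inv_apply_self, map_inv (SemidirectProduct.inr : MulAut G →* G ⋊[φ] MulAut G) α⁻¹] at h4
        change (SemidirectProduct.inl x : G ⋊[φ] MulAut G) ∈ M
        rw [h4]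
        exact h3
      rcases h _ h1 with h2 | h2
      · left
        rw [eq_bot_iff]
        intro y hy
        obtain ⟨x, rfl⟩ := hMN hy
        have h3 : x ∈ M.comap (SemidirectProduct.inl : G →* G ⋊[φ] MulAut G) := hy
        rw [h2, mem_bot] at h3
        rw [h3, map_one]; exact mem_bot.mpr rfl
      · right
        apply le_antisymm hMN
        rintro y ⟨x, rfl⟩
        have h3 : x ∈ M.comap (SemidirectProduct.inl : G →* G ⋊[φ] MulAut G) := by rw [h2]; exact mem_top _
        exact h3
  obtain ⟨T, i1, m, h1, h2, h3, ⟨e⟩⟩ := H22.exists_pow_of_nonabelian hmin (by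
    intro hcon
    apply hc
    intro a b
    apply hinl
    rw [map_mul, map_mul]
    exact hcon _ ⟨a, rfl⟩ _ ⟨b, rfl⟩)
  exact ⟨T, i1, m, h1, h2, h3, ⟨(MonoidHom.ofInjective hinl).trans e⟩⟩

theorem exists_pi_of_mod {V : Type*} [AddCommGroup V] [Finite V] [Nontrivial V] {p : ℕ} [Fact p.Prime] [Module (ZMod p) V] :
    ∃ m : ℕ, 1 ≤ m ∧ Nonempty (V ≃+ (Fin m → ZMod p)) := by
  haveI : Module.Finite (ZMod p) V := Module.Finite.of_finite
  refine ⟨Module.finrank (ZMod p) V, Module.finrank_pos, ⟨(Module.finBasis (ZMod p) V).equivFun.toAddEquiv⟩⟩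

theorem exists_pi_of_exp {G : Type*} [CommGroup G] [Finite G] [Nontrivial G] {p : ℕ} [Fact p.Prime] (hexp : ∀ x : G, x ^ p = 1) :
    ∃ m : ℕ, 1 ≤ m ∧ Nonempty (G ≃* (Fin m → Multiplicative (ZMod p))) := by
  letI : Module (ZMod p) (Additive G) := AddCommGroup.zmodModule (n := p) (fun x => by
    have := hexp (Additive.toMul x)
    exact this)
  haveI : Finite (Additive G) := (inferInstance : Finite G)
  haveI : Nontrivial (Additive G) := (inferInstance : Nontrivial G)
  obtain ⟨m, hm, ⟨e⟩⟩ := exists_pi_of_mod (V := Additive G) (p := p)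
  refine ⟨m, hm, ⟨?_⟩⟩
  exact
    { toFun := fun g i => Multiplicative.ofAdd (e (Additive.ofMul g) i)
      invFun := fun f => Additive.toMul (e.symm (fun i => Multiplicative.toAdd (f i)))
      left_inv := by
        intro g
        change Additive.toMul (e.symm (e (Additive.ofMul g))) = g
        rw [e.symm_apply_apply]; rfl
      right_inv := by
        intro f
        funext i
        change Multiplicative.ofAdd (e (e.symm (fun i => Multiplicative.toAdd (f i))) i) = f i
        rw [e.apply_symm_apply]; rfl
      map_mul' := by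
        intro x y
        funext i
        change Multiplicative.ofAdd (e (Additive.ofMul x + Additive.ofMul y) i) = _
        rw [map_add]; rfl }

/-- abelian characteristically simple groups -/
theorem exists_pow_abelian {G : Type*} [Group G] [Finite G] [Nontrivial G]
    (h : ∀ H : Subgroup G, H.Characteristic → H = ⊥ ∨ H = ⊤) (hc : ∀ a b : G, a * b = b * a) :
    ∃ (p : ℕ) (_ : Fact p.Prime) (m : ℕ), 1 ≤ m ∧ Nonempty (G ≃* (Fin m → Multiplicative (ZMod p))) := by
  classical
  obtain ⟨p, hp, hpd⟩ := Nat.exists_prime_and_dvd (Finite.one_lt_card (α := G)).ne'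
  haveI := Fact.mk hp
  letI : CommGroup G := { (inferInstance : Group G) with mul_comm := hc }
  let P : Subgroup G := (powMonoidHom p : G →* G).ker
  have hmem : ∀ x, x ∈ P ↔ x ^ p = 1 := fun x => Iff.rfl
  have hP : P.Characteristic := by
    rw [characteristic_iff_comap_le]
    intro α x hx
    have h1 : (α x) ^ p = 1 := hx
    rw [hmem]
    apply α.injective
    rw [map_pow, map_one, h1]
  have htop : P = ⊤ := by
    rcases h P hP with h1 | h1
    · exfalso
      obtain ⟨x, hx⟩ := exists_prime_orderOf_dvd_card' (G := G) p hpd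
      have h2 : x ∈ P := by rw [hmem, ← hx, pow_orderOf_eq_one]
      rw [h1, mem_bot] at h2
      rw [h2, orderOf_one] at hx
      exact hp.one_lt.ne hx
    · exact h1
  have hexp : ∀ x : G, x ^ p = 1 := by
    intro x
    have : x ∈ P := by rw [htop]; exact mem_top _
    exact this
  exact ⟨p, inferInstance, exists_pi_of_exp hexp⟩

end Cfsg.Agent.H9.Pow
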