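import Mathlib
import Cfsg.Prelude.Def_LieRecognition

set_option autoImplicit false
set_option linter.unusedSectionVars false
set_option linter.style.haveILetI false
set_option linter.unusedVariables false
set_option linter.unusedSimpArgs false

namespace Cfsg.Agent.H9.RankOne

open MulAction

/-! ### odd order lemmas -/

section odd
variable {G : Type*} [Group G]

/-- square roots are unique for elements of odd order -/
theorem eq_of_sq_eq {x y : G} (hx : Odd (orderOf x)) (hy : Odd (orderOf y)) (h : x ^ 2 = y ^ 2) :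
    x = y := by
  obtain ⟨m, hm⟩ := hx
  obtain ⟨n, hn⟩ := hy
  have h1 : ∀ k : ℕ, x ^ (2 * k) = y ^ (2 * k) := fun k => by rw [pow_mul, pow_mul, h]
  have hx1 : x ^ (2 * (2 * m * n + m + n + 1)) = x := by
    have : 2 * (2 * m * n + m + n + 1) = (2 * m + 1) * (2 * n + 1) + 1 := by ring
    rw [this, pow_add, pow_mul, ← hm, pow_orderOf_eq_one, one_pow, one_mul, pow_one]
  have hy1 : y ^ (2 * (2 * m * n + m + n + 1)) = y := by
    have : 2 * (2 * m * n + m + n + 1) = (2 * n + 1) * (2 * m + 1) + 1 := by ring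
    rw [this, pow_add, pow_mul, ← hn, pow_orderOf_eq_one, one_pow, one_mul, pow_one]
  rw [← hx1, ← hy1, h1]

theorem odd_orderOf_mem {H : Subgroup G} (hH : Odd (Nat.card H)) {x : G} (hx : x ∈ H) :
    Odd (orderOf x) := by
  have : orderOf x ∣ Nat.card H := by
    have := orderOf_dvd_natCard (⟨x, hx⟩ : H)
    rwa [Subgroup.orderOf_mk] at this
  exact hH.of_dvd_nat this

/-- an element of odd order commuting square -/
theorem commute_of_sq {x y : G} (hx : Odd (orderOf x)) (h : x ^ 2 * y = y * x ^ 2) :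
    x * y = y * x := by
  have h1 : (y * x * y⁻¹) ^ 2 = x ^ 2 := by
    rw [conj_pow, ← h]; group
  have h2 : orderOf (y * x * y⁻¹) = orderOf x :=
    (SemiconjBy.orderOf_eq y (x := x) (y := y * x * y⁻¹) (by simp [SemiconjBy])).symm
  have h3 : y * x * y⁻¹ = x := eq_of_sq_eq (by rw [h2]; exact hx) hx h1
  exact (mul_inv_eq_iff_eq_mul.mp h3).symm

theorem eq_one_of_sq {x : G} (hx : Odd (orderOf x)) (h : x * x = 1) : x = 1 :=
  eq_of_sq_eq hx (by simp) (by rw [pow_two, h, one_pow])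

/-- in an odd order subgroup no nontrivial element is inverted by conjugation -/
theorem eq_one_of_conj_inv {x g : G} (hx : Odd (orderOf x)) (hg : Odd (orderOf g))
    (h : g * x * g⁻¹ = x⁻¹) : x = 1 := by
  have h1 : g * x = x⁻¹ * g := mul_inv_eq_iff_eq_mul.mp h
  have h1' : g * x⁻¹ = x * g := by
    have := congrArg (·⁻¹) h
    simp only [mul_inv_rev, inv_inv] at this
    rw [← mul_assoc] at this
    exact mul_inv_eq_iff_eq_mul.mp this
  have h2 : g ^ 2 * x = x * g ^ 2 := by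
    rw [pow_two, mul_assoc, h1, ← mul_assoc, h1', mul_assoc]
  have h3 : g * x = x * g := commute_of_sq hg h2
  have h4 : x = x⁻¹ := by rw [← h, h3]; group
  refine eq_one_of_sq hx ?_
  nth_rw 2 [h4]; simp

/-- existence of the square root inside powers, for odd order elements -/
theorem exists_sqrt {x : G} (hx : Odd (orderOf x)) : ∃ k : ℕ, (x ^ k) ^ 2 = x := by
  obtain ⟨m, hm⟩ := hx
  refine ⟨m + 1, ?_⟩
  rw [← pow_mul]
  have : (m + 1) * 2 = (2 * m + 1) + 1 := by ring
  rw [this, ← hm, pow_add, pow_orderOf_eq_one, one_mul, pow_one]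

/-- two involutions whose product has odd order are conjugate, via an involution-like element -/
theorem conj_of_odd {s u : G} (hs : s * s = 1) (hu : u * u = 1) (ho : Odd (orderOf (s * u))) :
    ∃ k : ℕ, ((s * u) ^ k)⁻¹ * s * (s * u) ^ k = u := by
  obtain ⟨k, hk⟩ := exists_sqrt ho
  refine ⟨k, ?_⟩
  have hs' : s⁻¹ = s := inv_eq_of_mul_eq_one_right hs
  have hu' : u⁻¹ = u := inv_eq_of_mul_eq_one_right hu
  have h1 : s * (s * u) * s⁻¹ = (s * u)⁻¹ := by
    rw [mul_inv_rev, hs', hu', ← mul_assoc, hs, one_mul]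
  have h2 : s * (s * u) ^ k * s⁻¹ = ((s * u) ^ k)⁻¹ := by
    rw [← conj_pow, h1, inv_pow]
  rw [← h2]
  have : s * (s * u) ^ k * s⁻¹ * s * (s * u) ^ k = s * ((s * u) ^ k) ^ 2 := by
    rw [pow_two]; group
  rw [this, hk, ← mul_assoc, hs, one_mul]

end odd

variable {G Ω : Type*} [Group G] [MulAction G Ω] {a : Ω} {t : G} {Q : Subgroup G}

/-- the two-point stabiliser -/
abbrev D (G : Type*) {Ω : Type*} [Group G] [MulAction G Ω] (a : Ω) (t : G) : Subgroup G :=
  stabilizer G a ⊓ stabilizer G (t • a)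

section setup
variable (hS : Cfsg.IsRankOneSetup G Ω a t Q)
include hS

theorem two_trans {b c d e : Ω} (h1 : b ≠ c) (h2 : d ≠ e) :
    ∃ g : G, g • b = d ∧ g • c = e :=
  (is_two_pretransitive_iff.mp hS.two_transitive) h1 h2

theorem ta_ne : t • a ≠ a := fun h => hS.not_mem h

theorem t_inv : t⁻¹ = t :=
  inv_eq_of_mul_eq_one_right hS.mul_self

theorem tt_smul (b : Ω) : t • t • b = b := by
  rw [← mul_smul, hS.mul_self, one_smul]

theorem tt_cancel (x : G) : t * (t * x) = x := by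
  rw [← mul_assoc, hS.mul_self, one_mul]

theorem Q_fix {x : G} (hx : x ∈ Q) : x • a = a :=
  hS.le hx

/-- non-identity elements of `Q` fix only `a` -/
theorem Q_free {x : G} (hx : x ∈ Q) {b : Ω} (hb : b ≠ a)
    (hxb : x • b = b) : x = 1 := by
  obtain ⟨g, hg1, hg2⟩ := two_trans hS (ta_ne hS).symm hb.symm
  have h1 : g⁻¹ * x * g ∈ Q := by
    have := hS.conj_mem g⁻¹ (inv_mem (show g ∈ stabilizer G a from hg1)) x hx
    simpa using this
  have h2 : g⁻¹ * x * g ∈ stabilizer G (t • a) := by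
    rw [mem_stabilizer_iff, mul_smul, mul_smul, hg2, hxb, ← hg2, inv_smul_smul]
  have h3 : g⁻¹ * x * g ∈ Q ⊓ stabilizer G (t • a) := ⟨h1, h2⟩
  rw [hS.inf_eq_bot, Subgroup.mem_bot] at h3
  have : x = g * (g⁻¹ * x * g) * g⁻¹ := by group
  rw [this, h3]; group

/-- decomposition `G_a = Q D` -/
theorem exists_QD {g : G} (hg : g ∈ stabilizer G a) :
    ∃ q ∈ Q, ∃ d ∈ D G a t, g = q * d := by
  have hg' : g ∈ Q ⊔ D G a t := by rw [hS.sup_eq]; exact hg
  have hnorm : D G a t ≤ Subgroup.normalizer (Q : Set G) := by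
    rw [Subgroup.le_normalizer_iff]
    exact fun h hh k hk => hS.conj_mem h hh.1 k hk
  rw [← SetLike.mem_coe, Subgroup.coe_mul_of_right_le_normalizer_left _ _ hnorm] at hg'
  obtain ⟨q, hq, d, hd, rfl⟩ := hg'
  exact ⟨q, hq, d, hd, rfl⟩

/-- `Q` is transitive on the points other than `a` -/
theorem Q_trans {b c : Ω} (hb : b ≠ a) (hc : c ≠ a) : ∃ x ∈ Q, x • b = c := by
  have key : ∀ {e : Ω}, e ≠ a → ∃ x ∈ Q, x • (t • a) = e := by
    intro e he
    obtain ⟨g, hg1, hg2⟩ := two_trans hS (ta_ne hS).symm he.symm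
    obtain ⟨q, hq, d, hd, rfl⟩ := exists_QD hS (g := g) hg1
    refine ⟨q, hq, ?_⟩
    rw [mul_smul] at hg2
    have : d • (t • a) = t • a := hd.2
    rwa [this] at hg2
  obtain ⟨x, hx, hxb⟩ := key hb
  obtain ⟨y, hy, hyc⟩ := key hc
  refine ⟨y * x⁻¹, mul_mem hy (inv_mem hx), ?_⟩
  rw [mul_smul, ← hxb, inv_smul_smul, hyc]

theorem Q_inj {x y : G} (hx : x ∈ Q) (hy : y ∈ Q) {b : Ω} (hb : b ≠ a) (h : x • b = y • b) :
    x = y := by
  have : y⁻¹ * x = 1 := Q_free hS (mul_mem (inv_mem hy) hx) hb (by rw [mul_smul, h, inv_smul_smul])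
  rwa [inv_mul_eq_one, eq_comm] at this

theorem smul_ne_a {x : G} (hx : x ∈ stabilizer G a) {b : Ω} (hb : b ≠ a) : x • b ≠ a := by
  intro h
  have hx' : x • a = a := hx
  exact hb (MulAction.injective x (show x • b = x • a by rw [h, hx']))

theorem t_conj_D {d : G} (hd : d ∈ D G a t) : t * d * t ∈ D G a t := by
  have h1 : d • a = a := hd.1
  have h2 : d • (t • a) = t • a := hd.2
  refine Subgroup.mem_inf.mpr ⟨?_, ?_⟩
  · rw [mem_stabilizer_iff, mul_smul, mul_smul, h2, tt_smul hS]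
  · rw [mem_stabilizer_iff, mul_smul, mul_smul, tt_smul hS, h1]

/-- uniqueness for the decomposition `Q D` -/
theorem QD_unique {q q' d d' : G} (hq : q ∈ Q) (hq' : q' ∈ Q) (hd : d ∈ D G a t) (hd' : d' ∈ D G a t)
    (h : q * d = q' * d') : q = q' ∧ d = d' := by
  have hqq : q = q' := by
    refine Q_inj hS hq hq' (ta_ne hS) ?_
    have h1 : d • (t • a) = t • a := hd.2
    have h2 : d' • (t • a) = t • a := hd'.2
    calc q • t • a = q • d • t • a := by rw [h1]
      _ = (q * d) • t • a := by rw [mul_smul]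
      _ = (q' * d') • t • a := by rw [h]
      _ = q' • t • a := by rw [mul_smul, h2]
  exact ⟨hqq, by rw [hqq] at h; exact mul_left_cancel h⟩

/-- the canonical form, uniqueness -/
theorem canonical_unique {x x' y y' : G} (hx : x ∈ stabilizer G a) (hx' : x' ∈ stabilizer G a)
    (hy : y ∈ Q) (hy' : y' ∈ Q) (h : x * t * y = x' * t * y') : x = x' ∧ y = y' := by
  have hyy : y⁻¹ = y'⁻¹ := by
    refine Q_inj hS (inv_mem hy) (inv_mem hy') (ta_ne hS) ?_
    have e1 : (x * t * y)⁻¹ • a = y⁻¹ • t • a := by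
      have : x⁻¹ • a = a := inv_mem hx
      rw [mul_inv_rev, mul_inv_rev, mul_smul, mul_smul, this, t_inv hS]
    have e2 : (x' * t * y')⁻¹ • a = y'⁻¹ • t • a := by
      have : x'⁻¹ • a = a := inv_mem hx'
      rw [mul_inv_rev, mul_inv_rev, mul_smul, mul_smul, this, t_inv hS]
    rw [← e1, ← e2, h]
  have hyy' : y = y' := inv_injective hyy
  subst hyy'
  exact ⟨mul_right_cancel (mul_right_cancel h), rfl⟩

/-- the canonical form, existence -/
theorem canonical_exists {g : G} (hg : g ∉ stabilizer G a) :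
    ∃ x ∈ stabilizer G a, ∃ y ∈ Q, g = x * t * y := by
  have hga : g⁻¹ • a ≠ a := by
    intro h
    apply hg
    have : g⁻¹ ∈ stabilizer G a := h
    simpa using inv_mem this
  obtain ⟨y, hy, hya⟩ := Q_trans hS (ta_ne hS) hga
  refine ⟨g * y * t, ?_, y⁻¹, inv_mem hy, ?_⟩
  · rw [mem_stabilizer_iff, mul_smul, mul_smul, hya, smul_inv_smul]
  · rw [mul_assoc (g * y) t t, hS.mul_self, mul_one, mul_inv_cancel_right]

theorem mem_D {d : G} : d ∈ D G a t ↔ d • a = a ∧ d • (t • a) = t • a := Iff.rfl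

theorem inv_fix_of_fix {x : G} {b : Ω} (h : x • b = b) : x⁻¹ • b = b := by
  rw [inv_smul_eq_iff, h]

section fin
variable [Finite G]

theorem finite_Ω : Finite Ω := by
  haveI := hS.two_transitive
  haveI : IsPretransitive G Ω := isPretransitive_of_is_two_pretransitive
  exact Finite.of_surjective (fun g : G => g • a) (fun b => exists_smul_eq G a b)

theorem card_Ω : Nat.card Ω = Nat.card Q + 1 := by
  haveI := finite_Ω hS
  have e : Q ≃ {b : Ω // b ≠ a} := by
    refine Equiv.ofBijective (fun x => ⟨(x : G) • (t • a), smul_ne_a hS (hS.le x.2) (ta_ne hS)⟩) ⟨?_, ?_⟩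
    · intro x y hxy
      exact Subtype.ext (Q_inj hS x.2 y.2 (ta_ne hS) (congrArg Subtype.val hxy))
    · rintro ⟨b, hb⟩
      obtain ⟨x, hx, hxb⟩ := Q_trans hS (ta_ne hS) hb
      exact ⟨⟨x, hx⟩, Subtype.ext hxb⟩
  rw [Nat.card_congr e]
  have h2 : Nat.card Ω = Nat.card {b : Ω // b ≠ a} + Nat.card {b : Ω // ¬ b ≠ a} := by
    classical
    rw [← Nat.card_sum]
    exact Nat.card_congr (Equiv.sumCompl (fun b : Ω => b ≠ a)).symm
  rw [h2]
  congr 1
  have : Unique {b : Ω // ¬ b ≠ a} := ⟨⟨⟨a, by simp⟩⟩, fun b => Subtype.ext (not_not.mp b.2)⟩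
  exact Nat.card_unique

theorem card_stab : Nat.card (stabilizer G a) = Nat.card Q * Nat.card (D G a t) := by
  rw [← Nat.card_prod]
  refine Nat.card_congr (Equiv.ofBijective
    (fun p : Q × D G a t => (⟨p.1 * p.2, mul_mem (hS.le p.1.2) p.2.2.1⟩ : stabilizer G a)) ⟨?_, ?_⟩).symm
  · rintro ⟨q, d⟩ ⟨q', d'⟩ h
    have h' : (q : G) * d = q' * d' := congrArg Subtype.val h
    obtain ⟨h1, h2⟩ := QD_unique hS q.2 q'.2 d.2 d'.2 h'
    exact Prod.ext (Subtype.ext h1) (Subtype.ext h2)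
  · rintro ⟨g, hg⟩
    obtain ⟨q, hq, d, hd, rfl⟩ := exists_QD hS hg
    exact ⟨(⟨q, hq⟩, ⟨d, hd⟩), rfl⟩

theorem card_G : Nat.card G = Nat.card Q * Nat.card (D G a t) * (Nat.card Q + 1) := by
  haveI := hS.two_transitive
  haveI : IsPretransitive G Ω := isPretransitive_of_is_two_pretransitive
  have h1 : (stabilizer G a).index = Nat.card Ω := index_stabilizer_of_transitive G a
  rw [← card_stab hS, ← Subgroup.card_mul_index (stabilizer G a), h1, card_Ω hS]

theorem exists_sylow : ∃ P : Sylow 2 G, (P : Subgroup G) ≤ Q := by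
  obtain ⟨P0⟩ : Nonempty (Sylow 2 Q) := inferInstance
  have hP0 : IsPGroup 2 ((P0 : Subgroup Q).map Q.subtype) := P0.isPGroup'.map _
  obtain ⟨P, hP⟩ := hP0.exists_le_sylow
  refine ⟨P, ?_⟩
  have hle : (P0 : Subgroup Q).map Q.subtype ≤ Q := Subgroup.map_subtype_le _
  have hodd1 : Odd (Nat.card (D G a t)) := hS.odd_card
  have heven : Even (Nat.card Q) := hS.even_card
  have hcard : Nat.card P = Nat.card ((P0 : Subgroup Q).map Q.subtype) := by
    rw [Nat.card_congr ((P0 : Subgroup Q).equivMapOfInjective _ Q.subtype_injective).toEquiv.symm]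
    rw [Sylow.card_eq_multiplicity, Sylow.card_eq_multiplicity, card_G hS]
    congr 1
    have hQ : Nat.card Q ≠ 0 := Nat.card_pos.ne'
    have hD : Nat.card (D G a t) ≠ 0 := Nat.card_pos.ne'
    rw [Nat.factorization_mul (mul_ne_zero hQ hD) (Nat.succ_ne_zero _), Nat.factorization_mul hQ hD]
    have e1 : (Nat.card (D G a t)).factorization 2 = 0 :=
      Nat.factorization_eq_zero_of_not_dvd (by rw [← even_iff_two_dvd]; exact Nat.not_even_iff_odd.mpr hodd1)
    have e2 : (Nat.card Q + 1).factorization 2 = 0 :=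
      Nat.factorization_eq_zero_of_not_dvd (by rw [← even_iff_two_dvd]; exact Nat.not_even_iff_odd.mpr heven.add_one)
    simp only [Finsupp.coe_add, Pi.add_apply, e1, e2, add_zero]
  have : (P0 : Subgroup Q).map Q.subtype = P :=
    Subgroup.eq_of_le_of_card_ge hP hcard.le
  rw [← this]; exact hle

/-- elements of even order in the stabiliser of two points do not exist; an involution fixes at most one point -/
theorem two_pts_odd {b c : Ω} (hbc : b ≠ c) {x : G} (hb : x • b = b) (hc : x • c = c) :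
    Odd (orderOf x) := by
  obtain ⟨g, hg1, hg2⟩ := two_trans hS hbc (ta_ne hS).symm
  have h1 : g * x * g⁻¹ ∈ D G a t := by
    refine (mem_D hS).mpr ⟨?_, ?_⟩
    · rw [mul_smul, mul_smul, ← hg1, inv_smul_smul, hb]
    · rw [mul_smul, mul_smul, ← hg2, inv_smul_smul, hc]
  have h2 := odd_orderOf_mem hS.odd_card h1
  rwa [← SemiconjBy.orderOf_eq g (x := x) (y := g * x * g⁻¹) (by simp [SemiconjBy])] at h2

theorem inv_fix_unique {u : G} (hu1 : u ≠ 1) (hu : u * u = 1) {b c : Ω} (hb : u • b = b) (hc : u • c = c) :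
    b = c := by
  by_contra hbc
  exact hu1 (eq_one_of_sq (two_pts_odd hS hbc hb hc) hu)

/-- `Q` contains an involution -/
theorem exists_inv_Q : ∃ s ∈ Q, s ≠ 1 ∧ s * s = 1 := by
  have : 2 ∣ Nat.card Q := hS.even_card.two_dvd
  obtain ⟨x, hx⟩ := exists_prime_orderOf_dvd_card' 2 this
  refine ⟨x, x.2, ?_, ?_⟩
  · intro h
    have : x = 1 := Subtype.ext h
    rw [this, orderOf_one] at hx
    omega
  · have := pow_orderOf_eq_one x
    rw [hx, pow_two] at this
    exact congrArg Subtype.val this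

/-- product of involutions, one in the stabiliser the other not, has odd order -/
theorem odd_mul {s u : G} (hsa : s • a = a) (hs1 : s ≠ 1) (hs : s * s = 1) (hua : u • a ≠ a)
    (hu1 : u ≠ 1) (hu : u * u = 1) : Odd (orderOf (s * u)) := by
  by_contra hodd
  rw [Nat.not_odd_iff_even] at hodd
  obtain ⟨k, hk⟩ := hodd
  set r := s * u with hr
  have hs' : s⁻¹ = s := inv_eq_of_mul_eq_one_right hs
  have hu' : u⁻¹ = u := inv_eq_of_mul_eq_one_right hu
  have hk0 : 0 < k := by
    have := orderOf_pos r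
    omega
  have hz1 : r ^ k ≠ 1 := by
    intro h
    have := Nat.le_of_dvd hk0 (orderOf_dvd_of_pow_eq_one h)
    omega
  have hz : r ^ k * r ^ k = 1 := by rw [← pow_add, ← hk, pow_orderOf_eq_one]
  have hz' : (r ^ k)⁻¹ = r ^ k := inv_eq_of_mul_eq_one_right hz
  have h1 : s * r * s⁻¹ = r⁻¹ := by
    rw [hr, mul_inv_rev, hs', hu', ← mul_assoc, hs, one_mul]
  have h2 : s * r ^ k * s⁻¹ = r ^ k := by
    rw [← conj_pow, h1, inv_pow, hz']
  have h3 : s * r ^ k = r ^ k * s := mul_inv_eq_iff_eq_mul.mp h2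
  have h4 : u * r * u⁻¹ = r⁻¹ := by
    rw [hr, mul_inv_rev, hs', hu', mul_assoc, mul_assoc, hu, mul_one]
  have h5 : u * r ^ k * u⁻¹ = r ^ k := by
    rw [← conj_pow, h4, inv_pow, hz']
  have h6 : u * r ^ k = r ^ k * u := mul_inv_eq_iff_eq_mul.mp h5
  have h7 : (r ^ k) • a = a := by
    apply inv_fix_unique hS hs1 hs
    · rw [← mul_smul, h3, mul_smul, hsa]
    · exact hsa
  have h8 : u • a = a := by
    apply inv_fix_unique hS hz1 hz
    · rw [← mul_smul, ← h6, mul_smul, h7]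
    · exact h7
  exact hua h8

/-- every involution is conjugate to `t` -/
theorem conj_t {u : G} (hu1 : u ≠ 1) (hu : u * u = 1) : ∃ g : G, g * u * g⁻¹ = t := by
  have key : ∀ {v : G}, v ≠ 1 → v * v = 1 → v • a = a → ∀ {w : G}, w ≠ 1 → w * w = 1 → w • a ≠ a →
      ∃ g : G, g * v * g⁻¹ = w := by
    intro v hv1 hv hva w hw1 hw hwa
    obtain ⟨k, hk⟩ := conj_of_odd hv hw (odd_mul hS hva hv1 hv hwa hw1 hw)
    exact ⟨((v * w) ^ k)⁻¹, by simpa using hk⟩
  by_cases hua : u • a = a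
  · exact key hu1 hu hua hS.ne_one hS.mul_self (ta_ne hS)
  · obtain ⟨s, hsQ, hs1, hs⟩ := exists_inv_Q hS
    obtain ⟨g, hg⟩ := key hs1 hs (Q_fix hS hsQ) hS.ne_one hS.mul_self (ta_ne hS)
    obtain ⟨h, hh⟩ := key hs1 hs (Q_fix hS hsQ) hu1 hu hua
    refine ⟨g * h⁻¹, ?_⟩
    rw [← hg, ← hh]; group

/-- every involution fixes a (unique) point -/
theorem exists_fix {u : G} (hu1 : u ≠ 1) (hu : u * u = 1) : ∃ b : Ω, u • b = b := by
  obtain ⟨s, hsQ, hs1, hs⟩ := exists_inv_Q hS
  obtain ⟨g, hg⟩ := conj_t hS hu1 hu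
  obtain ⟨h, hh⟩ := conj_t hS hs1 hs
  refine ⟨(g⁻¹ * h) • a, ?_⟩
  have : u = (g⁻¹ * h) * s * (g⁻¹ * h)⁻¹ := by
    have h1 : u = g⁻¹ * t * g := by rw [← hg]; group
    rw [h1, ← hh]; group
  rw [this, mul_smul, mul_smul, inv_smul_smul, Q_fix hS hsQ]

end fin

end setup

end Cfsg.Agent.H9.RankOne
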