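import Cfsg.Agent.H9.RankOne

set_option autoImplicit false
set_option linter.unusedSectionVars false
set_option linter.style.haveILetI false
set_option linter.unusedVariables false
set_option linter.unusedSimpArgs false

namespace Cfsg.Agent.H9.RankOne

open MulAction

/-! ### odd order inversion factorisation -/

section oddfact
variable {M : Type*} [Group M]

theorem mem_invertedBy {D : Subgroup M} {t x : M} :
    x ∈ Cfsg.invertedBy D t ↔ x ∈ D ∧ t * x * t⁻¹ = x⁻¹ := Iff.rfl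

theorem mem_involutionsIn {S : Set M} {x : M} :
    x ∈ Cfsg.involutionsIn S ↔ x ∈ S ∧ x ≠ 1 ∧ x * x = 1 := Iff.rfl

theorem pow_mem_invertedBy {D : Subgroup M} {t x : M} (hx : x ∈ Cfsg.invertedBy D t) (k : ℕ) :
    x ^ k ∈ Cfsg.invertedBy D t :=
  ⟨pow_mem hx.1 k, by rw [← conj_pow, hx.2, inv_pow]⟩

theorem inv_mem_invertedBy {D : Subgroup M} {t x : M} (hx : x ∈ Cfsg.invertedBy D t) :
    x⁻¹ ∈ Cfsg.invertedBy D t := by
  refine ⟨inv_mem hx.1, ?_⟩
  calc t * x⁻¹ * t⁻¹ = (t * x * t⁻¹)⁻¹ := by group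
    _ = x⁻¹⁻¹ := by rw [hx.2]

variable {t : M} (ht : t * t = 1) {X : Subgroup M} (hodd : Odd (Nat.card X))
  (hnorm : ∀ x ∈ X, t * x * t⁻¹ ∈ X)
include ht hodd hnorm

theorem odd_fact_exists {x : M} (hx : x ∈ X) :
    ∃ y ∈ X, y * t = t * y ∧ ∃ z ∈ Cfsg.invertedBy X t, x = y * z := by
  have ht' : t⁻¹ = t := inv_eq_of_mul_eq_one_right ht
  set w := t * x⁻¹ * t⁻¹ * x with hw
  have hwX : w ∈ X := mul_mem (hnorm _ (inv_mem hx)) hx
  have hwt : t * w * t⁻¹ = w⁻¹ := by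
    rw [hw]
    simp only [mul_inv_rev, inv_inv, ht']
    have : t * (t * x⁻¹ * t * x) * t = (t * t) * x⁻¹ * t * x * t := by group
    rw [this, ht]; group
  obtain ⟨k, hk⟩ := exists_sqrt (odd_orderOf_mem hodd hwX)
  set z := w ^ k with hz
  have hzI : z ∈ Cfsg.invertedBy X t := pow_mem_invertedBy ⟨hwX, hwt⟩ k
  refine ⟨x * z⁻¹, mul_mem hx (inv_mem hzI.1), ?_, z, hzI, by group⟩
  have h1 : t * z⁻¹ * t⁻¹ = z := by
    have := (inv_mem_invertedBy hzI).2
    simpa using this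
  have h2 : t * x * t⁻¹ = x * z⁻¹ * z⁻¹ := by
    have e1 : x⁻¹ * (t * x * t⁻¹) = w⁻¹ := by rw [hw]; group
    have e2 : w⁻¹ = z⁻¹ * z⁻¹ := by rw [← hk, pow_two, mul_inv_rev]
    rw [mul_assoc x, ← e2, ← e1]; group
  have h3 : t * (x * z⁻¹) * t⁻¹ = x * z⁻¹ := by
    calc t * (x * z⁻¹) * t⁻¹ = (t * x * t⁻¹) * (t * z⁻¹ * t⁻¹) := by group
      _ = x * z⁻¹ := by rw [h2, h1]; group
  exact (mul_inv_eq_iff_eq_mul.mp h3).symm

theorem odd_fact_unique {y y' z z' : M} (hy : y * t = t * y) (hy' : y' * t = t * y')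
    (hz : z ∈ Cfsg.invertedBy X t) (hz' : z' ∈ Cfsg.invertedBy X t) (h : y * z = y' * z') :
    y = y' ∧ z = z' := by
  have key : ∀ {y z : M}, y * t = t * y → z ∈ Cfsg.invertedBy X t →
      t * (y * z)⁻¹ * t⁻¹ * (y * z) = z ^ 2 := by
    intro y z hy hz
    have h1 : t * z⁻¹ * t⁻¹ = z := by
      have := (inv_mem_invertedBy hz).2
      simpa using this
    have h2 : t * y⁻¹ * t⁻¹ = y⁻¹ := by
      have : t * y * t⁻¹ = y := by rw [← hy]; group
      calc t * y⁻¹ * t⁻¹ = (t * y * t⁻¹)⁻¹ := by group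
        _ = y⁻¹ := by rw [this]
    calc t * (y * z)⁻¹ * t⁻¹ * (y * z) = (t * z⁻¹ * t⁻¹) * (t * y⁻¹ * t⁻¹) * (y * z) := by group
      _ = z ^ 2 := by rw [h1, h2, pow_two]; group
  have hzz : z = z' := by
    refine eq_of_sq_eq (odd_orderOf_mem hodd hz.1) (odd_orderOf_mem hodd hz'.1) ?_
    rw [← key hy hz, ← key hy' hz', h]
  exact ⟨by rw [hzz] at h; exact mul_right_cancel h, hzz⟩

theorem odd_fact_card [Finite M] :
    Nat.card X = Nat.card ↥(X ⊓ Subgroup.centralizer {t}) * Nat.card (Cfsg.invertedBy X t) := by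
  rw [← Nat.card_prod]
  refine Nat.card_congr (Equiv.ofBijective
    (fun p : ↥(X ⊓ Subgroup.centralizer {t}) × (Cfsg.invertedBy X t) =>
      (⟨p.1 * p.2, mul_mem p.1.2.1 p.2.2.1⟩ : X)) ⟨?_, ?_⟩).symm
  · rintro ⟨⟨y, hy⟩, ⟨z, hz⟩⟩ ⟨⟨y', hy'⟩, ⟨z', hz'⟩⟩ h
    have h' : y * z = y' * z' := congrArg Subtype.val h
    have c1 : y * t = t * y := (Subgroup.mem_centralizer_singleton_iff.mp hy.2)
    have c2 : y' * t = t * y' := (Subgroup.mem_centralizer_singleton_iff.mp hy'.2)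
    obtain ⟨h1, h2⟩ := odd_fact_unique ht hodd hnorm c1 c2 hz hz' h'
    subst h1; subst h2; rfl
  · rintro ⟨x, hx⟩
    obtain ⟨y, hy, hyt, z, hz, rfl⟩ := odd_fact_exists ht hodd hnorm hx
    exact ⟨(⟨y, hy, Subgroup.mem_centralizer_singleton_iff.mpr hyt⟩, ⟨z, hz⟩), rfl⟩

end oddfact

variable {G Ω : Type*} [Group G] [MulAction G Ω] {a : Ω} {t : G} {Q : Subgroup G}

section setup
variable (hS : Cfsg.IsRankOneSetup G Ω a t Q)
include hS

theorem t_norm_D {d : G} (hd : d ∈ D G a t) : t * d * t⁻¹ ∈ D G a t := by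
  rw [t_inv hS]; exact t_conj_D hS hd

theorem K_conj {k : G} (hk : k ∈ Cfsg.invertedBy (D G a t) t) : t * k * t = k⁻¹ := by
  have := hk.2
  rwa [t_inv hS] at this

theorem K_conj' {k : G} (hk : k ∈ Cfsg.invertedBy (D G a t) t) : t * k⁻¹ * t = k := by
  have := K_conj hS (inv_mem_invertedBy hk)
  simpa using this

theorem t_K {k : G} (hk : k ∈ Cfsg.invertedBy (D G a t) t) : t * k = k⁻¹ * t := by
  rw [← K_conj hS hk, mul_assoc, hS.mul_self, mul_one]

theorem K_t {k : G} (hk : k ∈ Cfsg.invertedBy (D G a t) t) : k * t = t * k⁻¹ := by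
  rw [← K_conj' hS hk, mul_assoc, hS.mul_self, mul_one, K_conj' hS hk]

theorem t_Kinv {k : G} (hk : k ∈ Cfsg.invertedBy (D G a t) t) : t * k⁻¹ = k * t := (K_t hS hk).symm

theorem conj_Q {h x : G} (hh : h ∈ stabilizer G a) (hx : x ∈ Q) : h⁻¹ * x * h ∈ Q := by
  have := hS.conj_mem h⁻¹ (inv_mem hh) x hx
  simpa using this

variable [Finite G]

/-- an involution `w` with `w • a = t • a` is a `K`-conjugate of `t` -/
theorem swap_conj {w : G} (hw1 : w ≠ 1) (hw : w * w = 1) (hwa : w • a = t • a) :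
    ∃ k ∈ Cfsg.invertedBy (D G a t) t, k⁻¹ * t * k = w := by
  have hw' : w⁻¹ = w := inv_eq_of_mul_eq_one_right hw
  have hwta : w • (t • a) = a := by rw [← hwa, ← mul_smul, hw, one_smul]
  have htw : t * w ∈ D G a t := by
    refine (mem_D hS).mpr ⟨?_, ?_⟩
    · rw [mul_smul, hwa, tt_smul hS]
    · rw [mul_smul, hwta]
  have hinv : t * w ∈ Cfsg.invertedBy (D G a t) t := by
    refine ⟨htw, ?_⟩
    rw [mul_inv_rev, t_inv hS, hw', ← mul_assoc, hS.mul_self, one_mul]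
  obtain ⟨n, hn⟩ := exists_sqrt (odd_orderOf_mem hS.odd_card htw)
  refine ⟨(t * w) ^ n, pow_mem_invertedBy hinv n, ?_⟩
  set k := (t * w) ^ n
  have hk : k ∈ Cfsg.invertedBy (D G a t) t := pow_mem_invertedBy hinv n
  have h1 : k⁻¹ * t = t * k := by
    have := K_conj hS hk
    rw [← this, mul_assoc, hS.mul_self, mul_one]
  rw [h1, mul_assoc, ← pow_two, hn, tt_cancel hS]

theorem card_K : Nat.card (Cfsg.invertedBy (D G a t) t) =
    Nat.card (Cfsg.involutionsIn (stabilizer G a : Set G)) := by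
  have h1 : Nat.card (Q × (Cfsg.invertedBy (D G a t) t)) =
      Nat.card {u : G // u ≠ 1 ∧ u * u = 1 ∧ u • a ≠ a} := by
    refine Nat.card_congr (Equiv.ofBijective (fun p => ⟨(p.1 : G) * (t * p.2) * (p.1 : G)⁻¹, ?_⟩) ⟨?_, ?_⟩)
    · rcases p with ⟨⟨q, hq⟩, ⟨k, hk⟩⟩
      have e1 : (t * k) • a = t • a := by rw [mul_smul, show k • a = a from hk.1.1]
      have e2 : (q * (t * k) * q⁻¹) • a ≠ a := by
        rw [mul_smul, mul_smul, show q⁻¹ • a = a from inv_mem (hS.le hq), e1]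
        exact smul_ne_a hS (hS.le hq) (ta_ne hS)
      refine ⟨?_, ?_, e2⟩
      · intro h
        have h' : q * (t * k) * q⁻¹ = 1 := h
        rw [h', one_smul] at e2
        exact e2 rfl
      · have e3 : (t * k) * (t * k) = 1 := by
          calc (t * k) * (t * k) = (t * k * t) * k := by group
            _ = 1 := by rw [K_conj hS hk]; group
        calc (q * (t * k) * q⁻¹) * (q * (t * k) * q⁻¹) = q * ((t * k) * (t * k)) * q⁻¹ := by group
          _ = 1 := by rw [e3]; group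
    · rintro ⟨⟨q, hq⟩, ⟨k, hk⟩⟩ ⟨⟨q', hq'⟩, ⟨k', hk'⟩⟩ h
      have h' : q * (t * k) * q⁻¹ = q' * (t * k') * q'⁻¹ := congrArg Subtype.val h
      have e : ∀ {q k : G}, q ∈ Q → k ∈ Cfsg.invertedBy (D G a t) t →
          (q * (t * k) * q⁻¹) • a = q • (t • a) := by
        intro q k hq hk
        rw [mul_smul, mul_smul, show q⁻¹ • a = a from inv_mem (hS.le hq), mul_smul,
          show k • a = a from hk.1.1]
      have hqq : q = q' := Q_inj hS hq hq' (ta_ne hS) (by rw [← e hq hk, ← e hq' hk', h'])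
      subst hqq
      have : k = k' := mul_left_cancel (mul_left_cancel (mul_right_cancel h'))
      subst this; rfl
    · rintro ⟨u, hu1, hu, hua⟩
      obtain ⟨q, hq, hqa⟩ := Q_trans hS (ta_ne hS) hua
      have e1 : (q⁻¹ * u * q) • a = t • a := by
        rw [mul_smul, mul_smul, show q • a = a from hS.le hq, ← hqa, inv_smul_smul]
      have e2 : (q⁻¹ * u * q) ≠ 1 := by
        intro h; apply hu1
        calc u = q * (q⁻¹ * u * q) * q⁻¹ := by group
          _ = 1 := by rw [h]; group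
      have e3 : (q⁻¹ * u * q) * (q⁻¹ * u * q) = 1 := by
        calc (q⁻¹ * u * q) * (q⁻¹ * u * q) = q⁻¹ * (u * u) * q := by group
          _ = 1 := by rw [hu]; group
      obtain ⟨k, hk, hkw⟩ := swap_conj hS e2 e3 e1
      have hkw2 : t * (k * k) = q⁻¹ * u * q := by
        rw [← hkw, ← mul_assoc]
        congr 1
        have := K_conj hS hk
        rw [← this, mul_assoc, hS.mul_self, mul_one]
      refine ⟨(⟨q, hq⟩, ⟨k * k, by rw [← pow_two]; exact pow_mem_invertedBy hk 2⟩), ?_⟩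
      apply Subtype.ext
      change q * (t * (k * k)) * q⁻¹ = u
      rw [hkw2]; group
  have h2 : Nat.card (Q × (Cfsg.involutionsIn (stabilizer G a : Set G))) =
      Nat.card {u : G // u ≠ 1 ∧ u * u = 1 ∧ u • a ≠ a} := by
    have fixp : ∀ {q s : G}, s • a = a → (q * (t * s * t) * q⁻¹) • (q • t • a) = q • t • a := by
      intro q s hs
      rw [← mul_smul]
      have : q * (t * s * t) * q⁻¹ * q = q * (t * s * t) := by group
      rw [this, mul_smul, mul_smul, mul_smul, tt_smul hS, hs]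
    have conj1 : ∀ {g s : G}, s ≠ 1 → g * s * g⁻¹ ≠ 1 := by
      intro g s hs h; apply hs
      calc s = g⁻¹ * (g * s * g⁻¹) * g := by group
        _ = 1 := by rw [h]; group
    have conj2 : ∀ {g s : G}, s * s = 1 → (g * s * g⁻¹) * (g * s * g⁻¹) = 1 := by
      intro g s hs
      calc (g * s * g⁻¹) * (g * s * g⁻¹) = g * (s * s) * g⁻¹ := by group
        _ = 1 := by rw [hs]; group
    have form : ∀ {q s : G}, q * (t * s * t) * q⁻¹ = (q * t) * s * (q * t)⁻¹ := by
      intro q s; rw [mul_inv_rev, t_inv hS]; group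
    refine Nat.card_congr (Equiv.ofBijective (fun p => ⟨(p.1 : G) * (t * p.2 * t) * (p.1 : G)⁻¹, ?_⟩) ⟨?_, ?_⟩)
    · rcases p with ⟨⟨q, hq⟩, ⟨s, hsa, hs1, hs⟩⟩
      have n1 : q * (t * s * t) * q⁻¹ ≠ 1 := by rw [form]; exact conj1 hs1
      have n2 : (q * (t * s * t) * q⁻¹) * (q * (t * s * t) * q⁻¹) = 1 := by rw [form]; exact conj2 hs
      refine ⟨n1, n2, ?_⟩
      intro h
      have := inv_fix_unique hS n1 n2 (fixp (q := q) (show s • a = a from hsa)) h
      exact smul_ne_a hS (hS.le hq) (ta_ne hS) this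
    · rintro ⟨⟨q, hq⟩, ⟨s, hsa, hs1, hs⟩⟩ ⟨⟨q', hq'⟩, ⟨s', hsa', hs1', hs'⟩⟩ h
      have h' : q * (t * s * t) * q⁻¹ = q' * (t * s' * t) * q'⁻¹ := congrArg Subtype.val h
      have n1 : q * (t * s * t) * q⁻¹ ≠ 1 := by rw [form]; exact conj1 hs1
      have n2 : (q * (t * s * t) * q⁻¹) * (q * (t * s * t) * q⁻¹) = 1 := by rw [form]; exact conj2 hs
      have f1 := fixp (q := q) (show s • a = a from hsa)
      have f2 := fixp (q := q') (show s' • a = a from hsa')
      rw [← h'] at f2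
      have hqq : q = q' := Q_inj hS hq hq' (ta_ne hS) (inv_fix_unique hS n1 n2 f1 f2)
      subst hqq
      have : s = s' := mul_left_cancel (mul_right_cancel (mul_left_cancel (mul_right_cancel h')))
      subst this; rfl
    · rintro ⟨u, hu1, hu, hua⟩
      obtain ⟨c, hc⟩ := exists_fix hS hu1 hu
      have hca : c ≠ a := by rintro rfl; exact hua hc
      obtain ⟨q, hq, hqa⟩ := Q_trans hS (ta_ne hS) hca
      have e0 : t * (q⁻¹ * u * q) * t = (t * q⁻¹) * u * (t * q⁻¹)⁻¹ := by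
        rw [mul_inv_rev, t_inv hS]; group
      refine ⟨(⟨q, hq⟩, ⟨t * (q⁻¹ * u * q) * t, ?_, ?_, ?_⟩), ?_⟩
      · change (t * (q⁻¹ * u * q) * t) • a = a
        rw [mul_smul, mul_smul, mul_smul, mul_smul, hqa, hc, ← hqa, inv_smul_smul, tt_smul hS]
      · rw [e0]; exact conj1 hu1
      · rw [e0]; exact conj2 hu
      · apply Subtype.ext
        change q * (t * (t * (q⁻¹ * u * q) * t) * t) * q⁻¹ = u
        have : t * (t * (q⁻¹ * u * q) * t) * t = q⁻¹ * u * q := by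
          calc t * (t * (q⁻¹ * u * q) * t) * t = (t * t) * (q⁻¹ * u * q) * (t * t) := by group
            _ = q⁻¹ * u * q := by rw [hS.mul_self]; group
        rw [this]; group
  rw [Nat.card_prod] at h1 h2
  rw [← h2] at h1
  exact Nat.eq_of_mul_eq_mul_left Nat.card_pos h1

/-- a conjugate of any involution of `G_a` under `K` satisfies the structure equation -/
theorem structure_exists {s : G} (hs : s ∈ Cfsg.involutionsIn (stabilizer G a : Set G)) :
    ∃ y ∈ Cfsg.invertedBy (D G a t) t, ∃ r ∈ Q, t * (y⁻¹ * s * y) * t = r⁻¹ * t * r := by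
  obtain ⟨hsa, hs1, hss⟩ := hs
  have hsa' : s • a = a := hsa
  have v1 : t * s * t ≠ 1 := by
    intro h; apply hs1
    calc s = (t * t) * s * (t * t) := by rw [hS.mul_self]; group
      _ = t * (t * s * t) * t := by group
      _ = 1 := by rw [h, mul_one, hS.mul_self]
  have v2 : (t * s * t) * (t * s * t) = 1 := by
    calc (t * s * t) * (t * s * t) = t * s * (t * t) * s * t := by group
      _ = t * (s * s) * t := by rw [hS.mul_self]; group
      _ = 1 := by rw [hss, mul_one, hS.mul_self]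
  have v3 : (t * s * t) • (t • a) = t • a := by
    rw [mul_smul, mul_smul, tt_smul hS, hsa']
  have v4 : (t * s * t) • a ≠ a := fun h => ta_ne hS (inv_fix_unique hS v1 v2 v3 h)
  obtain ⟨r, hr, hrb⟩ := Q_trans hS v4 (ta_ne hS)
  have hra : r⁻¹ • a = a := inv_mem (hS.le hr)
  have w1 : (r * (t * s * t) * r⁻¹) • a = t • a := by
    rw [mul_smul, mul_smul, hra, hrb]
  have w2 : r * (t * s * t) * r⁻¹ ≠ 1 := by
    intro h; apply v1
    calc t * s * t = r⁻¹ * (r * (t * s * t) * r⁻¹) * r := by group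
      _ = 1 := by rw [h]; group
  have w3 : (r * (t * s * t) * r⁻¹) * (r * (t * s * t) * r⁻¹) = 1 := by
    calc (r * (t * s * t) * r⁻¹) * (r * (t * s * t) * r⁻¹) = r * ((t * s * t) * (t * s * t)) * r⁻¹ := by group
      _ = 1 := by rw [v2]; group
  obtain ⟨y, hy, hyw⟩ := swap_conj hS w2 w3 w1
  refine ⟨y, hy, y * r * y⁻¹, hS.conj_mem y hy.1.1 r hr, ?_⟩
  have e1 : t * (y⁻¹ * s * y) * t = y * (t * s * t) * y⁻¹ := by
    calc t * (y⁻¹ * s * y) * t = (t * y⁻¹) * s * (y * t) := by group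
      _ = (y * t) * s * (t * y⁻¹) := by rw [t_Kinv hS hy, K_t hS hy]
      _ = y * (t * s * t) * y⁻¹ := by group
  have e2 : t * s * t = r⁻¹ * (y⁻¹ * t * y) * r := by rw [hyw]; group
  rw [e1, e2]; group

/-- uniqueness in the structure equation, first part: for fixed `s` the pair `(y, r)` is unique -/
theorem structure_unique_aux {s y y' r r' : G}
    (hy : y ∈ Cfsg.invertedBy (D G a t) t) (hy' : y' ∈ Cfsg.invertedBy (D G a t) t)
    (hr : r ∈ Q) (hr' : r' ∈ Q)
    (h : t * (y⁻¹ * s * y) * t = r⁻¹ * t * r) (h' : t * (y'⁻¹ * s * y') * t = r'⁻¹ * t * r') :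
    y = y' := by
  have key : ∀ {y r : G}, y ∈ Cfsg.invertedBy (D G a t) t → r ∈ Q →
      t * (y⁻¹ * s * y) * t = r⁻¹ * t * r →
      (y⁻¹ * r * y) • ((t * s * t) • a) = t • a ∧
        (y⁻¹ * r * y) * (t * s * t) * (y⁻¹ * r * y)⁻¹ = t * (y * y) := by
    intro y r hy hr h
    have e1 : t * (y⁻¹ * s * y) * t = y * (t * s * t) * y⁻¹ := by
      calc t * (y⁻¹ * s * y) * t = (t * y⁻¹) * s * (y * t) := by group
        _ = (y * t) * s * (t * y⁻¹) := by rw [t_Kinv hS hy, K_t hS hy]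
        _ = y * (t * s * t) * y⁻¹ := by group
    rw [e1] at h
    have e2 : t * s * t = y⁻¹ * r⁻¹ * t * r * y := by
      calc t * s * t = y⁻¹ * (y * (t * s * t) * y⁻¹) * y := by group
        _ = y⁻¹ * r⁻¹ * t * r * y := by rw [h]; group
    have hya : y • a = a := hy.1.1
    have hyta : y • t • a = t • a := hy.1.2
    have hra : r • a = a := hS.le hr
    constructor
    · rw [e2, ← mul_smul]
      have : y⁻¹ * r * y * (y⁻¹ * r⁻¹ * t * r * y) = y⁻¹ * t * r * y := by group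
      rw [this, mul_smul, mul_smul, mul_smul, hya, hra, inv_smul_eq_iff, hyta]
    · rw [e2]
      calc (y⁻¹ * r * y) * (y⁻¹ * r⁻¹ * t * r * y) * (y⁻¹ * r * y)⁻¹ = (y⁻¹ * t) * y := by group
        _ = t * (y * y) := by rw [← t_K hS hy]; group
  obtain ⟨h1, h2⟩ := key hy hr h
  obtain ⟨h3, h4⟩ := key hy' hr' h'
  have m1 : y⁻¹ * r * y ∈ Q := conj_Q hS hy.1.1 hr
  have m2 : y'⁻¹ * r' * y' ∈ Q := conj_Q hS hy'.1.1 hr'
  have hb : (t * s * t) • a ≠ a := by
    intro hb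
    rw [hb] at h1
    have : (y⁻¹ * r * y) • a = a := hS.le m1
    rw [this] at h1
    exact ta_ne hS h1.symm
  have e : y⁻¹ * r * y = y'⁻¹ * r' * y' := Q_inj hS m1 m2 hb (by rw [h1, h3])
  rw [e, h4] at h2
  have h5 : y' * y' = y * y := mul_left_cancel h2
  exact (eq_of_sq_eq (odd_orderOf_mem hS.odd_card hy'.1) (odd_orderOf_mem hS.odd_card hy.1)
    (by rw [pow_two, pow_two, h5])).symm

/-- the set of distinguished involutions has exactly one element -/
theorem distinguished_unique {s s' r r' : G}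
    (hs : s ∈ Cfsg.involutionsIn (stabilizer G a : Set G))
    (hs' : s' ∈ Cfsg.involutionsIn (stabilizer G a : Set G)) (hr : r ∈ Q) (hr' : r' ∈ Q)
    (h : t * s * t = r⁻¹ * t * r) (h' : t * s' * t = r'⁻¹ * t * r') : s = s' := by
  by_contra hne
  -- K × {s, s'} injects in involutionsIn
  let f : (Cfsg.invertedBy (D G a t) t) × Bool → Cfsg.involutionsIn (stabilizer G a : Set G) :=
    fun p => ⟨(p.1 : G) * (if p.2 then s else s') * (p.1 : G)⁻¹, by
      have hk : (p.1 : G) ∈ stabilizer G a := p.1.2.1.1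
      have key : ∀ u ∈ Cfsg.involutionsIn (stabilizer G a : Set G),
          (p.1 : G) * u * (p.1 : G)⁻¹ ∈ Cfsg.involutionsIn (stabilizer G a : Set G) := by
        rintro u ⟨hua, hu1, hu⟩
        refine ⟨mul_mem (mul_mem hk hua) (inv_mem hk), ?_, ?_⟩
        · intro h; apply hu1
          calc u = (p.1 : G)⁻¹ * ((p.1 : G) * u * (p.1 : G)⁻¹) * (p.1 : G) := by group
            _ = 1 := by rw [h]; group
        · calc (p.1 : G) * u * (p.1 : G)⁻¹ * ((p.1 : G) * u * (p.1 : G)⁻¹) = (p.1 : G) * (u * u) * (p.1 : G)⁻¹ := by group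
            _ = 1 := by rw [hu]; group
      split_ifs
      · exact key s hs
      · exact key s' hs'⟩
  have hf : Function.Injective f := by
    rintro ⟨⟨y, hy⟩, b⟩ ⟨⟨y', hy'⟩, b'⟩ hff
    have h1 : y * (if b then s else s') * y⁻¹ = y' * (if b' then s else s') * y'⁻¹ :=
      congrArg Subtype.val hff
    set u := y * (if b then s else s') * y⁻¹ with hu
    have e1 : y⁻¹ * u * y = (if b then s else s') := by rw [hu]; group
    have e2 : y'⁻¹ * u * y' = (if b' then s else s') := by rw [h1]; group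
    have hx : ∀ b : Bool, ∃ r ∈ Q, t * (if b then s else s') * t = r⁻¹ * t * r := by
      intro b; cases b
      · exact ⟨r', hr', by simpa using h'⟩
      · exact ⟨r, hr, by simpa using h⟩
    obtain ⟨r1, hr1, hh1⟩ := hx b
    obtain ⟨r2, hr2, hh2⟩ := hx b'
    rw [← e1] at hh1
    rw [← e2] at hh2
    have hyy := structure_unique_aux hS hy hy' hr1 hr2 hh1 hh2
    subst hyy
    rw [e1] at e2
    have : b = b' := by
      cases b <;> cases b' <;> simp_all
    subst this; rfl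
  have h3 := Nat.card_le_card_of_injective f hf
  rw [Nat.card_prod, ← card_K hS, Nat.card_eq_fintype_card (α := Bool), Fintype.card_bool] at h3
  have h4 : 0 < Nat.card (Cfsg.invertedBy (D G a t) t) := by
    haveI : Nonempty (Cfsg.invertedBy (D G a t) t) := ⟨⟨1, one_mem _, by simp⟩⟩
    exact Nat.card_pos
  omega

theorem exists_involution : ∃ s, s ∈ Cfsg.involutionsIn (stabilizer G a : Set G) := by
  obtain ⟨s, hsQ, hs1, hs⟩ := exists_inv_Q hS
  exact ⟨s, hS.le hsQ, hs1, hs⟩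

/-- the structure equation -/
theorem structure_equation : ∃! p : G × G, p.1 ∈ Cfsg.involutionsIn (stabilizer G a : Set G) ∧ p.2 ∈ Q ∧
      t * p.1 * t = p.2⁻¹ * t * p.2 := by
  obtain ⟨s, hs⟩ := exists_involution hS
  obtain ⟨y, hy, r, hr, h⟩ := structure_exists hS hs
  have hs' : y⁻¹ * s * y ∈ Cfsg.involutionsIn (stabilizer G a : Set G) := by
    obtain ⟨hsa, hs1, hss⟩ := hs
    refine ⟨mul_mem (mul_mem (inv_mem hy.1.1) hsa) hy.1.1, ?_, ?_⟩
    · intro h; apply hs1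
      calc s = y * (y⁻¹ * s * y) * y⁻¹ := by group
        _ = 1 := by rw [h]; group
    · calc y⁻¹ * s * y * (y⁻¹ * s * y) = y⁻¹ * (s * s) * y := by group
        _ = 1 := by rw [hss]; group
  refine ⟨(y⁻¹ * s * y, r), ⟨hs', hr, h⟩, ?_⟩
  rintro ⟨s2, r2⟩ ⟨hs2, hr2, h2⟩
  simp only at hs2 hr2 h2
  have e1 : s2 = y⁻¹ * s * y := distinguished_unique hS hs2 hs' hr2 hr h2 h
  subst e1
  rw [h] at h2
  have e2 : r = r2 := (canonical_unique hS (inv_mem (hS.le hr)) (inv_mem (hS.le hr2)) hr hr2 h2).2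
  rw [e2]

theorem conj_D_invol {d s : G} (hd : d ∈ stabilizer G a) (hs : s ∈ Cfsg.involutionsIn (stabilizer G a : Set G)) :
    d * s * d⁻¹ ∈ Cfsg.involutionsIn (stabilizer G a : Set G) := by
  obtain ⟨hsa, hs1, hss⟩ := hs
  refine ⟨mul_mem (mul_mem hd hsa) (inv_mem hd), ?_, ?_⟩
  · intro h; apply hs1
    calc s = d⁻¹ * (d * s * d⁻¹) * d := by group
      _ = 1 := by rw [h]; group
  · calc d * s * d⁻¹ * (d * s * d⁻¹) = d * (s * s) * d⁻¹ := by group
      _ = 1 := by rw [hss]; group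

/-- every involution of `G_a` is a `K`-conjugate of the distinguished one -/
theorem conj_distinguished {s₀ r₀ : G} (hs₀ : s₀ ∈ Cfsg.involutionsIn (stabilizer G a : Set G))
    (hr₀ : r₀ ∈ Q) (h₀ : t * s₀ * t = r₀⁻¹ * t * r₀)
    {s : G} (hs : s ∈ Cfsg.involutionsIn (stabilizer G a : Set G)) :
    ∃ y ∈ Cfsg.invertedBy (D G a t) t, s = y * s₀ * y⁻¹ := by
  obtain ⟨y, hy, r, hr, h⟩ := structure_exists hS hs
  have hs' : y⁻¹ * s * y ∈ Cfsg.involutionsIn (stabilizer G a : Set G) := by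
    have := conj_D_invol hS (inv_mem hy.1.1) hs
    simpa using this
  have := distinguished_unique hS hs' hs₀ hr hr₀ h h₀
  exact ⟨y, hy, by rw [← this]; group⟩

theorem centralizer_distinguished {s₀ r₀ : G} (hs₀ : s₀ ∈ Cfsg.involutionsIn (stabilizer G a : Set G))
    (hr₀ : r₀ ∈ Q) (h₀ : t * s₀ * t = r₀⁻¹ * t * r₀) :
    D G a t ⊓ Subgroup.centralizer {t} = D G a t ⊓ Subgroup.centralizer {s₀} := by
  have hle : D G a t ⊓ Subgroup.centralizer {t} ≤ D G a t ⊓ Subgroup.centralizer {s₀} := by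
    rintro d ⟨hd, hdt⟩
    refine Subgroup.mem_inf.mpr ⟨hd, ?_⟩
    have hdt' : d * t = t * d := Subgroup.mem_centralizer_singleton_iff.mp hdt
    have hs' := conj_D_invol hS (show d ∈ stabilizer G a from hd.1) hs₀
    have hr' : d * r₀ * d⁻¹ ∈ Q := hS.conj_mem d hd.1 r₀ hr₀
    have hdt'' : t * d⁻¹ = d⁻¹ * t := by
      calc t * d⁻¹ = d⁻¹ * (d * t) * d⁻¹ := by group
        _ = d⁻¹ * t := by rw [hdt']; group
    have h' : t * (d * s₀ * d⁻¹) * t = (d * r₀ * d⁻¹)⁻¹ * t * (d * r₀ * d⁻¹) := by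
      calc t * (d * s₀ * d⁻¹) * t = (t * d) * s₀ * (d⁻¹ * t) := by group
        _ = (d * t) * s₀ * (t * d⁻¹) := by rw [hdt', hdt'']
        _ = d * (t * s₀ * t) * d⁻¹ := by group
        _ = d * (r₀⁻¹ * t * r₀) * d⁻¹ := by rw [h₀]
        _ = (d * r₀ * d⁻¹)⁻¹ * ((d * t) * d⁻¹) * (d * r₀ * d⁻¹) := by group
        _ = (d * r₀ * d⁻¹)⁻¹ * t * (d * r₀ * d⁻¹) := by rw [hdt']; group
    have := distinguished_unique hS hs' hs₀ hr' hr₀ h' h₀
    rw [Subgroup.mem_centralizer_singleton_iff]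
    exact mul_inv_eq_iff_eq_mul.mp this
  refine Subgroup.eq_of_le_of_card_ge hle ?_
  have hcard := odd_fact_card hS.mul_self hS.odd_card (fun x hx => t_norm_D hS hx)
  -- K × C_D(s₀) injects in D
  let f : ↥(D G a t ⊓ Subgroup.centralizer {s₀}) × (Cfsg.invertedBy (D G a t) t) → ↥(D G a t) :=
    fun p => ⟨(p.2 : G) * p.1, mul_mem p.2.2.1 p.1.2.1⟩
  have hf : Function.Injective f := by
    rintro ⟨⟨c, hc⟩, ⟨y, hy⟩⟩ ⟨⟨c', hc'⟩, ⟨y', hy'⟩⟩ h
    have h' : y * c = y' * c' := congrArg Subtype.val h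
    have hcs : c * s₀ = s₀ * c := Subgroup.mem_centralizer_singleton_iff.mp hc.2
    have hcs' : c' * s₀ = s₀ * c' := Subgroup.mem_centralizer_singleton_iff.mp hc'.2
    have e1 : y * s₀ * y⁻¹ = y' * s₀ * y'⁻¹ := by
      calc y * s₀ * y⁻¹ = (y * c) * (c⁻¹ * (s₀ * c)) * (y * c)⁻¹ := by group
        _ = (y * c) * s₀ * (y * c)⁻¹ := by rw [← hcs]; group
        _ = (y' * c') * s₀ * (y' * c')⁻¹ := by rw [h']
        _ = y' * (c' * s₀) * c'⁻¹ * y'⁻¹ := by group
        _ = y' * s₀ * y'⁻¹ := by rw [hcs']; group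
    have hyy : y = y' := by
      refine structure_unique_aux hS (s := y * s₀ * y⁻¹) hy hy' hr₀ hr₀ ?_ ?_
      · rw [← h₀]; group
      · rw [e1, ← h₀]; group
    subst hyy
    have : c = c' := mul_left_cancel h'
    subst this; rfl
  have h1 := Nat.card_le_card_of_injective f hf
  rw [Nat.card_prod, hcard] at h1
  have h4 : 0 < Nat.card (Cfsg.invertedBy (D G a t) t) := by
    haveI : Nonempty (Cfsg.invertedBy (D G a t) t) := ⟨⟨1, one_mem _, by simp⟩⟩
    exact Nat.card_pos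
  exact Nat.le_of_mul_le_mul_right h1 h4

/-- `K` acts on the involutions of `G_a` injectively -/
theorem K_conj_injective {s k k' : G} (hs : s ∈ Cfsg.involutionsIn (stabilizer G a : Set G))
    (hk : k ∈ Cfsg.invertedBy (D G a t) t) (hk' : k' ∈ Cfsg.invertedBy (D G a t) t)
    (h : k⁻¹ * s * k = k'⁻¹ * s * k') : k = k' := by
  obtain ⟨⟨s₀, r₀⟩, ⟨hs₀, hr₀, h₀⟩, -⟩ := structure_equation hS
  simp only at hs₀ hr₀ h₀
  obtain ⟨y, hy, hsy⟩ := conj_distinguished hS hs₀ hr₀ h₀ hs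
  have hC := centralizer_distinguished hS hs₀ hr₀ h₀
  set c := k' * k⁻¹ with hc
  have hcD : c ∈ D G a t := mul_mem hk'.1 (inv_mem hk.1)
  have hcs : c * s = s * c := by
    calc c * s = k' * (k⁻¹ * s * k) * k⁻¹ := by rw [hc]; group
      _ = s * c := by rw [h, hc]; group
  have h1 : y⁻¹ * c * y ∈ D G a t ⊓ Subgroup.centralizer {s₀} := by
    refine Subgroup.mem_inf.mpr ⟨mul_mem (mul_mem (inv_mem hy.1) hcD) hy.1, ?_⟩
    rw [Subgroup.mem_centralizer_singleton_iff]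
    have e : s₀ = y⁻¹ * s * y := by rw [hsy]; group
    calc y⁻¹ * c * y * s₀ = y⁻¹ * (c * s) * y := by rw [e]; group
      _ = s₀ * (y⁻¹ * c * y) := by rw [hcs, e]; group
  rw [← hC] at h1
  have h2 : (y⁻¹ * c * y) * t = t * (y⁻¹ * c * y) := Subgroup.mem_centralizer_singleton_iff.mp h1.2
  -- t' = y t y⁻¹ commutes with c
  have h3 : c * (y * t * y⁻¹) = (y * t * y⁻¹) * c := by
    calc c * (y * t * y⁻¹) = y * ((y⁻¹ * c * y) * t) * y⁻¹ := by group
      _ = (y * t * y⁻¹) * c := by rw [h2]; group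
  have hk2 : k' = c * k := by rw [hc]; group
  have h4 : t * c * t = k⁻¹ * c⁻¹ * k := by
    have e1 : t * k' * t = k'⁻¹ := K_conj hS hk'
    have e2 : t * k = k⁻¹ * t := t_K hS hk
    rw [hk2] at e1
    calc t * c * t = t * (c * k) * (k⁻¹ * t) := by group
      _ = t * (c * k) * (t * k) := by rw [e2]
      _ = (t * (c * k) * t) * k := by group
      _ = k⁻¹ * c⁻¹ * k := by rw [e1]; group
  set g := k * t * (y * t * y⁻¹) with hg
  have hgD : g ∈ D G a t := by
    have : g = k * (y⁻¹ * y⁻¹) := by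
      calc g = k * (t * y * t) * y⁻¹ := by rw [hg]; group
        _ = k * (y⁻¹ * y⁻¹) := by rw [K_conj hS hy]; group
    rw [this]
    exact mul_mem hk.1 (mul_mem (inv_mem hy.1) (inv_mem hy.1))
  have hgc : g * c * g⁻¹ = c⁻¹ := by
    have e1 : (y * t * y⁻¹) * c * (y * t * y⁻¹)⁻¹ = c := by rw [← h3]; group
    calc g * c * g⁻¹ = k * (t * ((y * t * y⁻¹) * c * (y * t * y⁻¹)⁻¹) * t⁻¹) * k⁻¹ := by rw [hg]; group
      _ = k * (t * c * t) * k⁻¹ := by rw [e1, t_inv hS]
      _ = c⁻¹ := by rw [h4]; group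
  have hc1 : c = 1 := eq_one_of_conj_inv (odd_orderOf_mem hS.odd_card hcD) (odd_orderOf_mem hS.odd_card hgD) hgc
  rw [hk2, hc1, one_mul]

theorem K_transitive {s s' : G} (hs : s ∈ Cfsg.involutionsIn (stabilizer G a : Set G))
    (hs' : s' ∈ Cfsg.involutionsIn (stabilizer G a : Set G)) :
    ∃ k ∈ Cfsg.invertedBy (D G a t) t, k⁻¹ * s * k = s' := by
  let f : (Cfsg.invertedBy (D G a t) t) → Cfsg.involutionsIn (stabilizer G a : Set G) :=
    fun k => ⟨(k : G)⁻¹ * s * k, by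
      have := conj_D_invol hS (inv_mem k.2.1.1) hs
      simpa using this⟩
  have hf : Function.Injective f := by
    rintro ⟨k, hk⟩ ⟨k', hk'⟩ h
    exact Subtype.ext (K_conj_injective hS hs hk hk' (congrArg Subtype.val h))
  have hb : Function.Bijective f := by
    rw [Nat.bijective_iff_injective_and_card]
    exact ⟨hf, card_K hS⟩
  obtain ⟨⟨k, hk⟩, hks⟩ := hb.2 ⟨s', hs'⟩
  exact ⟨k, hk, congrArg Subtype.val hks⟩

end setup

end Cfsg.Agent.H9.RankOne
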