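import Cfsg.Agent.H9.RankOneB

set_option autoImplicit false
set_option linter.unusedSectionVars false
set_option linter.style.haveILetI false
set_option linter.unusedVariables false
set_option linter.unusedSimpArgs false

namespace Cfsg.Agent.H9.RankOne

open MulAction

variable {G Ω : Type*} [Group G] [MulAction G Ω] {a : Ω} {t : G} {Q : Subgroup G}

section setup
variable (hS : Cfsg.IsRankOneSetup G Ω a t Q)
include hS

/-- involutions of `G_a` lie in `Q` -/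
theorem invol_mem_Q {u : G} (hua : u • a = a) (hu : u * u = 1) : u ∈ Q := by
  obtain ⟨q, hq, d, hd, rfl⟩ := exists_QD hS (show u ∈ stabilizer G a from hua)
  have h1 : q * (d * q * d⁻¹) * (d * d) = 1 := by rw [← hu]; group
  have h2 : d * q * d⁻¹ ∈ Q := hS.conj_mem d hd.1 q hq
  have h3 : d * d = (q * (d * q * d⁻¹))⁻¹ := (inv_eq_of_mul_eq_one_right h1).symm
  have h4 : d * d ∈ Q := by rw [h3]; exact inv_mem (mul_mem hq h2)
  have h5 : d * d = 1 := by
    refine Q_free hS h4 (ta_ne hS) ?_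
    rw [mul_smul, show d • t • a = t • a from hd.2, show d • t • a = t • a from hd.2]
  have h6 : d = 1 := eq_one_of_sq (odd_orderOf_mem hS.odd_card hd) h5
  rw [h6, mul_one]; exact hq

/-- `C_Q(X)` is transitive on the fixed points of `X` other than `a` -/
theorem CQ_trans {X : Set G} (hX : X ⊆ (D G a t : Set G)) {b c : Ω}
    (hb : b ≠ a) (hc : c ≠ a) (hXb : ∀ x ∈ X, x • b = b) (hXc : ∀ x ∈ X, x • c = c) :
    ∃ x ∈ Subgroup.centralizer X, x ∈ Q ∧ x • b = c := by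
  obtain ⟨x, hx, hxb⟩ := Q_trans hS hb hc
  refine ⟨x, ?_, hx, hxb⟩
  rw [Subgroup.mem_centralizer_iff]
  intro d hd
  have hdD : d ∈ D G a t := hX hd
  have h1 : d * x * d⁻¹ ∈ Q := hS.conj_mem d hdD.1 x hx
  have h2 : d * x * d⁻¹ = x := by
    refine Q_inj hS h1 hx hb ?_
    have : d⁻¹ • b = b := by rw [inv_smul_eq_iff, hXb d hd]
    rw [mul_smul, mul_smul, this, hxb, hXc d hd]
  exact mul_inv_eq_iff_eq_mul.mp h2

theorem CQt_trans {X : Set G} (hX : X ⊆ (D G a t : Set G)) {b c : Ω}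
    (hb : b ≠ t • a) (hc : c ≠ t • a) (hXb : ∀ x ∈ X, x • b = b) (hXc : ∀ x ∈ X, x • c = c) :
    ∃ x ∈ Subgroup.centralizer X, x • b = c := by
  have hb' : t • b ≠ a := by
    intro h; apply hb; rw [← h, tt_smul hS]
  have hc' : t • c ≠ a := by
    intro h; apply hc; rw [← h, tt_smul hS]
  have hX' : (fun x => t * x * t) '' X ⊆ (D G a t : Set G) := by
    rintro _ ⟨x, hx, rfl⟩
    exact t_conj_D hS (hX hx)
  obtain ⟨x, hx, hxQ, hxb⟩ := CQ_trans hS hX' hb' hc'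
    (by
      rintro _ ⟨x, hx, rfl⟩
      simp only
      rw [mul_smul, mul_smul, tt_smul hS, hXb x hx])
    (by
      rintro _ ⟨x, hx, rfl⟩
      simp only
      rw [mul_smul, mul_smul, tt_smul hS, hXc x hx])
  refine ⟨t * x * t, ?_, ?_⟩
  · rw [Subgroup.mem_centralizer_iff] at hx ⊢
    intro d hd
    have := hx (t * d * t) ⟨d, hd, rfl⟩
    calc d * (t * x * t) = (t * t) * d * (t * x * t) := by rw [hS.mul_self]; group
      _ = t * ((t * d * t) * x) * t := by group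
      _ = t * x * t * d * (t * t) := by rw [this]; group
      _ = t * x * t * d := by rw [hS.mul_self]; group
  · rw [mul_smul, mul_smul, hxb, tt_smul hS]

theorem CX_two_trans {X : Set G} (hX : X ⊆ (D G a t : Set G))
    (h3 : ∃ b c d : Ω, b ≠ c ∧ b ≠ d ∧ c ≠ d ∧ ∀ x ∈ X, x • b = b ∧ x • c = c ∧ x • d = d)
    {b₁ b₂ c₁ c₂ : Ω} (hfix : ∀ x ∈ X, x • b₁ = b₁ ∧ x • b₂ = b₂ ∧ x • c₁ = c₁ ∧ x • c₂ = c₂)
    (hb : b₁ ≠ b₂) (hc : c₁ ≠ c₂) :
    ∃ g ∈ Subgroup.centralizer X, g • b₁ = c₁ ∧ g • b₂ = c₂ := by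
  have hXa : ∀ x ∈ X, x • a = a := fun x hx => (hX hx).1
  have hXta : ∀ x ∈ X, x • (t • a) = t • a := fun x hx => (hX hx).2
  -- a third fixed point
  obtain ⟨e, hea, heta, hXe⟩ : ∃ e : Ω, e ≠ a ∧ e ≠ t • a ∧ ∀ x ∈ X, x • e = e := by
    obtain ⟨b, c, d, hbc, hbd, hcd, h⟩ := h3
    by_cases hba : b ≠ a ∧ b ≠ t • a
    · exact ⟨b, hba.1, hba.2, fun x hx => (h x hx).1⟩
    by_cases hca : c ≠ a ∧ c ≠ t • a
    · exact ⟨c, hca.1, hca.2, fun x hx => (h x hx).2.1⟩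
    by_cases hda : d ≠ a ∧ d ≠ t • a
    · exact ⟨d, hda.1, hda.2, fun x hx => (h x hx).2.2⟩
    exfalso
    rw [not_and_or, not_not, not_not] at hba hca hda
    rcases hba with rfl | rfl <;> rcases hca with hca | hca <;> rcases hda with hda | hda <;>
      simp_all
  have trans : ∀ {b : Ω}, (∀ x ∈ X, x • b = b) → ∃ g ∈ Subgroup.centralizer X, g • a = b := by
    intro b hXb
    by_cases hbt : b = t • a
    · subst hbt
      obtain ⟨g1, hg1, h1⟩ := CQt_trans hS hX (ta_ne hS).symm heta hXa hXe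
      obtain ⟨g2, hg2, -, h2⟩ := CQ_trans hS hX hea (ta_ne hS) hXe hXta
      exact ⟨g2 * g1, mul_mem hg2 hg1, by rw [mul_smul, h1, h2]⟩
    · exact CQt_trans hS hX (ta_ne hS).symm hbt hXa hXb
  obtain ⟨g1, hg1, h1⟩ := trans (fun x hx => (hfix x hx).1)
  obtain ⟨g2, hg2, h2⟩ := trans (fun x hx => (hfix x hx).2.2.1)
  have fixconj : ∀ {g : G} {b : Ω}, g ∈ Subgroup.centralizer X → (∀ x ∈ X, x • b = b) →
      ∀ x ∈ X, x • (g⁻¹ • b) = g⁻¹ • b := by
    intro g b hg hb x hx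
    have hc : x * g⁻¹ = g⁻¹ * x := (Subgroup.mem_centralizer_iff.mp (inv_mem hg)) x hx
    rw [← mul_smul, hc, mul_smul, hb x hx]
  have n1 : g1⁻¹ • b₂ ≠ a := by
    intro h; rw [inv_smul_eq_iff, h1] at h; exact hb h.symm
  have n2 : g2⁻¹ • c₂ ≠ a := by
    intro h; rw [inv_smul_eq_iff, h2] at h; exact hc h.symm
  obtain ⟨x, hx, hxQ, hxb⟩ := CQ_trans hS hX n1 n2
    (fixconj hg1 (fun x hx => (hfix x hx).2.1)) (fixconj hg2 (fun x hx => (hfix x hx).2.2.2))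
  refine ⟨g2 * x * g1⁻¹, mul_mem (mul_mem hg2 hx) (inv_mem hg1), ?_, ?_⟩
  · rw [mul_smul, mul_smul, ← h1, inv_smul_smul, Q_fix hS hxQ, h2]
  · rw [mul_smul, mul_smul, hxb, smul_inv_smul]

variable [Finite G]

theorem CX_exists_swap {X : Set G} (hX : X ⊆ (D G a t : Set G))
    (h3 : ∃ b c d : Ω, b ≠ c ∧ b ≠ d ∧ c ≠ d ∧ ∀ x ∈ X, x • b = b ∧ x • c = c ∧ x • d = d) :
    ∃ u ∈ Subgroup.centralizer X, u ≠ 1 ∧ u * u = 1 ∧ u • a = t • a := by
  have hXa : ∀ x ∈ X, x • a = a := fun x hx => (hX hx).1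
  have hXta : ∀ x ∈ X, x • (t • a) = t • a := fun x hx => (hX hx).2
  obtain ⟨g, hg, hga, hgta⟩ := CX_two_trans hS hX h3 (b₁ := a) (b₂ := t • a) (c₁ := t • a) (c₂ := a)
    (fun x hx => ⟨hXa x hx, hXta x hx, hXta x hx, hXa x hx⟩) (ta_ne hS).symm (ta_ne hS)
  have h1 : (g ^ 2) • a = a := by rw [pow_two, mul_smul, hga, hgta]
  have h2 : (g ^ 2) • (t • a) = t • a := by rw [pow_two, mul_smul, hgta, hga]
  have hodd : Odd (orderOf (g ^ 2)) := two_pts_odd hS (ta_ne hS).symm h1 h2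
  set n := orderOf (g ^ 2) with hn
  obtain ⟨m, hm⟩ := hodd
  have hu2 : g ^ n * g ^ n = 1 := by
    rw [← pow_add, ← two_mul, pow_mul, hn, pow_orderOf_eq_one]
  have hua : g ^ n • a = t • a := by
    have h4 : ((g ^ 2) ^ m) • a = a := by
      have : g ^ 2 ∈ stabilizer G a := h1
      exact pow_mem this m
    rw [hm, pow_succ', pow_mul, mul_smul, h4, hga]
  refine ⟨g ^ n, pow_mem hg n, ?_, hu2, hua⟩
  intro h
  rw [h, one_smul] at hua
  exact ta_ne hS hua.symm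

theorem CQ_even {X : Set G} (hX : X ⊆ (D G a t : Set G))
    (h3 : ∃ b c d : Ω, b ≠ c ∧ b ≠ d ∧ c ≠ d ∧ ∀ x ∈ X, x • b = b ∧ x • c = c ∧ x • d = d) :
    ∃ u ∈ Subgroup.centralizer X ⊓ Q, u ≠ 1 ∧ u * u = 1 := by
  obtain ⟨u, huX, hu1, hu, hua⟩ := CX_exists_swap hS hX h3
  obtain ⟨p, hp⟩ := exists_fix hS hu1 hu
  have hXp : ∀ x ∈ X, x • p = p := by
    intro x hx
    refine inv_fix_unique hS hu1 hu ?_ hp
    have := (Subgroup.mem_centralizer_iff.mp huX) x hx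
    rw [← mul_smul, ← this, mul_smul, hp]
  have hXa : ∀ x ∈ X, x • a = a := fun x hx => (hX hx).1
  -- move p to a
  obtain ⟨g, hg, hga⟩ : ∃ g ∈ Subgroup.centralizer X, g • a = p := by
    by_cases hpa : p = a
    · exact ⟨1, one_mem _, by rw [one_smul, hpa]⟩
    · obtain ⟨g, hg, h1, -⟩ := CX_two_trans hS hX h3 (b₁ := a) (b₂ := p) (c₁ := p) (c₂ := a)
        (fun x hx => ⟨hXa x hx, hXp x hx, hXp x hx, hXa x hx⟩) (Ne.symm hpa) hpa
      exact ⟨g, hg, h1⟩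
  have e1 : (g⁻¹ * u * g) * (g⁻¹ * u * g) = 1 := by
    calc (g⁻¹ * u * g) * (g⁻¹ * u * g) = g⁻¹ * (u * u) * g := by group
      _ = 1 := by rw [hu]; group
  refine ⟨g⁻¹ * u * g, Subgroup.mem_inf.mpr ⟨mul_mem (mul_mem (inv_mem hg) huX) hg, ?_⟩, ?_, e1⟩
  · refine invol_mem_Q hS ?_ e1
    rw [mul_smul, mul_smul, hga, hp, ← hga, inv_smul_smul]
  · intro h; apply hu1
    calc u = g * (g⁻¹ * u * g) * g⁻¹ := by group
      _ = 1 := by rw [h]; group

theorem conj_into_centralizer {X : Set G} (hX : X ⊆ (D G a t : Set G))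
    (h3 : ∃ b c d : Ω, b ≠ c ∧ b ≠ d ∧ c ≠ d ∧ ∀ x ∈ X, x • b = b ∧ x • c = c ∧ x • d = d) :
    ∃ k ∈ Cfsg.invertedBy (D G a t) t, ∀ x ∈ X, (k * x * k⁻¹) * t = t * (k * x * k⁻¹) := by
  obtain ⟨u, huX, hu1, hu, hua⟩ := CX_exists_swap hS hX h3
  obtain ⟨k, hk, hku⟩ := swap_conj hS hu1 hu hua
  refine ⟨k, hk, fun x hx => ?_⟩
  have h1 := (Subgroup.mem_centralizer_iff.mp huX) x hx
  have h2 : t = k * u * k⁻¹ := by rw [← hku]; group
  calc k * x * k⁻¹ * t = k * (x * u) * k⁻¹ := by rw [h2]; group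
    _ = t * (k * x * k⁻¹) := by rw [h1, h2]; group

/-- elements inverted by `t` act fixed-point-freely on `Q` -/
theorem K_fpf {x : G} (hx : x ∈ Cfsg.invertedBy (D G a t) t) (hx1 : x ≠ 1) :
    Q ⊓ Subgroup.centralizer {x} = ⊥ := by
  by_contra hne
  obtain ⟨q, hq, hq1⟩ : ∃ q : G, q ∈ Q ⊓ Subgroup.centralizer {x} ∧ q ≠ 1 := by
    obtain ⟨q, hq⟩ := Subgroup.ne_bot_iff_exists_ne_one.mp hne
    exact ⟨q, q.2, fun h => hq (Subtype.ext h)⟩
  have hqx : q * x = x * q := Subgroup.mem_centralizer_singleton_iff.mp hq.2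
  have hxa : x • a = a := hx.1.1
  have hxta : x • t • a = t • a := hx.1.2
  have h3 : ∃ b c d : Ω, b ≠ c ∧ b ≠ d ∧ c ≠ d ∧ ∀ y ∈ ({x} : Set G), y • b = b ∧ y • c = c ∧ y • d = d := by
    refine ⟨a, t • a, q • (t • a), (ta_ne hS).symm, (smul_ne_a hS (hS.le hq.1) (ta_ne hS)).symm, ?_, ?_⟩
    · intro h
      exact hq1 (Q_free hS hq.1 (ta_ne hS) h.symm)
    · rintro y rfl
      refine ⟨hxa, hxta, ?_⟩
      rw [← mul_smul, ← hqx, mul_smul, hxta]
  obtain ⟨k, hk, hkx⟩ := conj_into_centralizer hS (X := {x}) (by rintro y rfl; exact hx.1) h3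
  have h4 := hkx x rfl
  have ht' := t_inv hS
  -- t' = k⁻¹ t k commutes with x, x inverted by t, hence x inverted by t t' ∈ D
  set t' := k⁻¹ * t * k with ht'def
  have h5 : t' * x * t'⁻¹ = x := by
    have : t * (k * x * k⁻¹) * t⁻¹ = k * x * k⁻¹ := by rw [← h4]; group
    calc t' * x * t'⁻¹ = k⁻¹ * (t * (k * x * k⁻¹) * t⁻¹) * k := by rw [ht'def]; group
      _ = x := by rw [this]; group
  have h6 : (t * t') * x * (t * t')⁻¹ = x⁻¹ := by
    calc (t * t') * x * (t * t')⁻¹ = t * (t' * x * t'⁻¹) * t⁻¹ := by group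
      _ = x⁻¹ := by rw [h5]; exact hx.2
  have h7 : t * t' ∈ D G a t := by
    have : t * t' = k * k := by
      calc t * t' = (t * k⁻¹ * t) * k := by rw [ht'def]; group
        _ = k * k := by rw [K_conj' hS hk]
    rw [this]; exact mul_mem hk.1 hk.1
  exact hx1 (eq_one_of_conj_inv (odd_orderOf_mem hS.odd_card hx.1) (odd_orderOf_mem hS.odd_card h7) h6)

/-- fusion in `V = C_D(t)` -/
theorem V_fusion {X : Set G} (hX : X ⊆ ((D G a t ⊓ Subgroup.centralizer {t} : Subgroup G) : Set G)) {g : G}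
    (hY : (fun x => g * x * g⁻¹) '' X ⊆ ((D G a t ⊓ Subgroup.centralizer {t} : Subgroup G) : Set G)) :
    ∃ v ∈ D G a t ⊓ Subgroup.centralizer {t}, ∀ x ∈ X, v * x * v⁻¹ = g * x * g⁻¹ := by
  have hXD : X ⊆ (D G a t : Set G) := fun x hx => (hX hx).1
  have hXt : ∀ x ∈ X, x * t = t * x := fun x hx => Subgroup.mem_centralizer_singleton_iff.mp (hX hx).2
  have hXa : ∀ x ∈ X, x • a = a := fun x hx => (hXD hx).1
  have hXta : ∀ x ∈ X, x • (t • a) = t • a := fun x hx => (hXD hx).2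
  have hYD : ∀ x ∈ X, g * x * g⁻¹ ∈ D G a t := fun x hx => (hY ⟨x, hx, rfl⟩).1
  have hYt : ∀ x ∈ X, (g * x * g⁻¹) * t = t * (g * x * g⁻¹) := fun x hx =>
    Subgroup.mem_centralizer_singleton_iff.mp (hY ⟨x, hx, rfl⟩).2
  have hXg : ∀ x ∈ X, x • (g⁻¹ • a) = g⁻¹ • a := by
    intro x hx
    have : (g * x * g⁻¹) • a = a := (hYD x hx).1
    rw [mul_smul, mul_smul] at this
    rw [eq_inv_smul_iff, this]
  have hXgt : ∀ x ∈ X, x • (g⁻¹ • t • a) = g⁻¹ • t • a := by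
    intro x hx
    have : (g * x * g⁻¹) • (t • a) = t • a := (hYD x hx).2
    rw [mul_smul, mul_smul] at this
    rw [eq_inv_smul_iff, this]
  -- find c ∈ C(X) with g * c ∈ D
  obtain ⟨c, hc, hcD⟩ : ∃ c ∈ Subgroup.centralizer X, g * c ∈ D G a t := by
    by_cases h3 : ∃ b c d : Ω, b ≠ c ∧ b ≠ d ∧ c ≠ d ∧ ∀ x ∈ X, x • b = b ∧ x • c = c ∧ x • d = d
    · have hne : g⁻¹ • a ≠ g⁻¹ • t • a := fun h => ta_ne hS ((MulAction.injective g⁻¹) h).symm
      obtain ⟨c, hc, h1, h2⟩ := CX_two_trans hS hXD h3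
        (b₁ := a) (b₂ := t • a) (c₁ := g⁻¹ • a) (c₂ := g⁻¹ • t • a)
        (fun x hx => ⟨hXa x hx, hXta x hx, hXg x hx, hXgt x hx⟩) (ta_ne hS).symm hne
      refine ⟨c, hc, (mem_D hS).mpr ⟨?_, ?_⟩⟩
      · rw [mul_smul, h1, smul_inv_smul]
      · rw [mul_smul, h2, smul_inv_smul]
    · have hmem : ∀ b : Ω, (∀ x ∈ X, x • b = b) → b = a ∨ b = t • a := by
        intro b hb
        by_contra hcon
        rw [not_or] at hcon
        exact h3 ⟨a, t • a, b, (ta_ne hS).symm, Ne.symm hcon.1, Ne.symm hcon.2,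
          fun x hx => ⟨hXa x hx, hXta x hx, hb x hx⟩⟩
      rcases hmem _ hXg with h1 | h1
      · have h2 : g⁻¹ • t • a = t • a := by
          rcases hmem _ hXgt with h2 | h2
          · exfalso
            rw [← h1] at h2
            exact ta_ne hS (by have := (MulAction.injective g⁻¹) h2; rw [h1] at this; exact this)
          · exact h2
        refine ⟨1, one_mem _, (mem_D hS).mpr ⟨?_, ?_⟩⟩
        · rw [mul_one]; exact (inv_smul_eq_iff.mp h1).symm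
        · rw [mul_one]; exact (inv_smul_eq_iff.mp h2).symm
      · have h2 : g⁻¹ • t • a = a := by
          rcases hmem _ hXgt with h2 | h2
          · exact h2
          · exfalso
            rw [← h1] at h2
            have := (MulAction.injective g⁻¹) h2
            exact ta_ne hS (by rw [h1] at this; simpa using this)
        refine ⟨t, ?_, (mem_D hS).mpr ⟨?_, ?_⟩⟩
        · rw [Subgroup.mem_centralizer_iff]
          exact fun x hx => hXt x hx
        · rw [mul_smul, ← h1, smul_inv_smul]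
        · rw [mul_smul, tt_smul hS]
          conv_lhs => rw [← h2]
          rw [smul_inv_smul]
  obtain ⟨v, hv, hvt, k, hk, hgk⟩ := odd_fact_exists hS.mul_self hS.odd_card (fun x hx => t_norm_D hS hx) hcD
  refine ⟨v, Subgroup.mem_inf.mpr ⟨hv, Subgroup.mem_centralizer_singleton_iff.mpr hvt⟩, ?_⟩
  intro x hx
  have e0 : c * x = x * c := ((Subgroup.mem_centralizer_iff.mp hc) x hx).symm
  have e1 : g * x * g⁻¹ = v * (k * x * k⁻¹) * v⁻¹ := by
    calc g * x * g⁻¹ = g * (x * c) * c⁻¹ * g⁻¹ := by group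
      _ = (g * c) * x * (g * c)⁻¹ := by rw [← e0]; group
      _ = v * (k * x * k⁻¹) * v⁻¹ := by rw [hgk]; group
  have e2 : (k * x * k⁻¹) * t = t * (k * x * k⁻¹) := by
    have := hYt x hx
    rw [e1] at this
    have hvt' : v⁻¹ * t = t * v⁻¹ := by
      calc v⁻¹ * t = v⁻¹ * (t * v) * v⁻¹ := by group
        _ = t * v⁻¹ := by rw [← hvt]; group
    calc (k * x * k⁻¹) * t = v⁻¹ * (v * (k * x * k⁻¹) * (v⁻¹ * t) * v) := by rw [hvt']; group
      _ = v⁻¹ * ((v * (k * x * k⁻¹) * v⁻¹) * t) * v := by group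
      _ = (v⁻¹ * t) * v * (k * x * k⁻¹) * v⁻¹ * v := by rw [this]; group
      _ = t * (k * x * k⁻¹) := by rw [hvt']; group
  have e3 : k ^ 2 * x = x * k ^ 2 := by
    have h1 : t * (k * x * k⁻¹) * t = k⁻¹ * x * k := by
      calc t * (k * x * k⁻¹) * t = (t * k) * x * (k⁻¹ * t) := by group
        _ = (k⁻¹ * t) * x * (t * k) := by rw [t_K hS hk]
        _ = k⁻¹ * (t * x * t) * k := by group
        _ = k⁻¹ * x * k := by rw [← hXt x hx, mul_assoc x t t, hS.mul_self, mul_one]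
    have h2 : t * (k * x * k⁻¹) * t = k * x * k⁻¹ := by
      rw [← e2, mul_assoc _ t t, hS.mul_self, mul_one]
    rw [h2] at h1
    calc k ^ 2 * x = k * (k * x * k⁻¹) * k := by rw [pow_two]; group
      _ = x * k ^ 2 := by rw [h1, pow_two]; group
  have e4 : k * x = x * k := commute_of_sq (odd_orderOf_mem hS.odd_card hk.1) e3
  rw [e1]
  congr 2
  rw [e4]; group

end setup

end Cfsg.Agent.H9.RankOne
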