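import Cfsg.Agent.H9.RankOneC
import Cfsg.Agent.H20.Fpf2

set_option autoImplicit false
set_option linter.unusedSectionVars false
set_option linter.style.haveILetI false
set_option linter.unusedVariables false
set_option linter.unusedSimpArgs false

/-! Rank one set-up: `Q` is nilpotent, the involutions of `G_a` are central in `Q`. -/

namespace Cfsg.Agent.H9.RankOne

open MulAction

/-- a nontrivial normal subgroup of a nilpotent group meets the centre -/
theorem exists_center_mem {G : Type*} [Group G] [Group.IsNilpotent G] (N : Subgroup G) [hN : N.Normal] (hb : N ≠ ⊥) :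
    ∃ z ∈ N, z ∈ Subgroup.center G ∧ z ≠ 1 := by
  by_contra hcon
  push Not at hcon
  have key : ∀ k : ℕ, ∀ z ∈ N, z ∈ Subgroup.upperCentralSeries G k → z = 1 := by
    intro k
    induction k with
    | zero =>
      intro z _ hz
      simpa using hz
    | succ k ih =>
      intro z hzN hz
      apply hcon z hzN
      rw [Subgroup.mem_center_iff]
      intro g
      have h1 := (Subgroup.mem_upperCentralSeries_succ_iff.mp hz) g
      have h2 : z * g * z⁻¹ * g⁻¹ ∈ N := by
        have : z * g * z⁻¹ * g⁻¹ = z * (g * z⁻¹ * g⁻¹) := by group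
        rw [this]
        exact mul_mem hzN (hN.conj_mem _ (inv_mem hzN) g)
      have h3 := ih _ h2 h1
      have h4 : z * g = g * z := by
        calc z * g = (z * g * z⁻¹ * g⁻¹) * g * z := by group
          _ = g * z := by rw [h3, one_mul]
      exact h4.symm
  apply hb
  rw [Subgroup.eq_bot_iff_forall]
  intro z hz
  have h1 := Subgroup.upperCentralSeries_nilpotencyClass (G := G)
  exact key _ z hz (by rw [h1]; trivial)

variable {G Ω : Type*} [Group G] [MulAction G Ω] {a : Ω} {t : G} {Q : Subgroup G}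

section setup
variable (hS : Cfsg.IsRankOneSetup G Ω a t Q) [Finite G]
include hS

/-- with 2-rank at least two there are nontrivial elements in `K` -/
theorem exists_K (h2 : ∃ x y : G, x ≠ 1 ∧ y ≠ 1 ∧ x ≠ y ∧ x * x = 1 ∧ y * y = 1 ∧ x * y = y * x) :
    ∃ k ∈ Cfsg.invertedBy (D G a t) t, k ≠ 1 := by
  obtain ⟨x, y, hx1, hy1, hxy, hx, hy, hc⟩ := h2
  obtain ⟨b, hb⟩ := exists_fix hS hx1 hx
  have hyb : y • b = b := by
    apply inv_fix_unique hS hx1 hx (b := y • b) (c := b) _ hb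
    rw [← mul_smul, hc, mul_smul, hb]
  haveI := hS.two_transitive
  haveI : IsPretransitive G Ω := isPretransitive_of_is_two_pretransitive
  obtain ⟨g, hg⟩ := exists_smul_eq G b a
  have key : ∀ u : G, u ≠ 1 → u * u = 1 → u • b = b → g * u * g⁻¹ ∈ Cfsg.involutionsIn (stabilizer G a : Set G) := by
    intro u hu1 hu hub
    refine ⟨?_, ?_, ?_⟩
    · change (g * u * g⁻¹) • a = a
      rw [← hg, mul_smul, mul_smul, inv_smul_smul, hub]
    · intro h
      apply hu1
      calc u = g⁻¹ * (g * u * g⁻¹) * g := by group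
        _ = 1 := by rw [h]; group
    · calc g * u * g⁻¹ * (g * u * g⁻¹) = g * (u * u) * g⁻¹ := by group
        _ = 1 := by rw [hu]; group
  by_contra hcon
  push Not at hcon
  have h1 : Nat.card (Cfsg.invertedBy (D G a t) t) ≤ 1 := by
    rw [Finite.card_le_one_iff_subsingleton]
    exact ⟨fun k l => Subtype.ext (by rw [hcon k k.2, hcon l l.2])⟩
  rw [card_K hS, Finite.card_le_one_iff_subsingleton] at h1
  have h3 : (⟨_, key x hx1 hx hb⟩ : Cfsg.involutionsIn (stabilizer G a : Set G)) = ⟨_, key y hy1 hy hyb⟩ :=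
    Subsingleton.elim _ _
  have h4 : g * x * g⁻¹ = g * y * g⁻¹ := congrArg Subtype.val h3
  exact hxy (mul_left_cancel (mul_right_cancel h4))

theorem Q_nilpotent (h2 : ∃ x y : G, x ≠ 1 ∧ y ≠ 1 ∧ x ≠ y ∧ x * x = 1 ∧ y * y = 1 ∧ x * y = y * x) [FaithfulSMul G Ω] :
    Group.IsNilpotent Q := by
  obtain ⟨k, hk, hk1⟩ := exists_K hS h2
  have ho : orderOf k ≠ 1 := fun h => hk1 (orderOf_eq_one_iff.mp h)
  obtain ⟨r, hr, hrd⟩ := Nat.exists_prime_and_dvd ho
  obtain ⟨m, hm⟩ := hrd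
  have hord : (k ^ m) ^ r = 1 := by rw [← pow_mul, mul_comm, ← hm, pow_orderOf_eq_one]
  have hkm : k ^ m ≠ 1 := by
    intro h
    have h3 := orderOf_dvd_of_pow_eq_one h
    have hpos := orderOf_pos k
    have hm0 : 0 < m := Nat.pos_of_ne_zero (by rintro rfl; rw [mul_zero] at hm; omega)
    have h4 := Nat.le_of_dvd hm0 h3
    have h5 := hr.two_le
    have h6 : 2 * m ≤ r * m := Nat.mul_le_mul_right m h5
    omega
  have hkK := pow_mem_invertedBy hk m
  have hfpf := K_fpf hS hkK hkm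
  refine Cfsg.Agent.H20.Fpf.isNilpotent_of_conj hr hord (fun x hx => hS.conj_mem _ hkK.1.1 x hx) (fun x hx hxc => ?_)
  have : x ∈ Q ⊓ Subgroup.centralizer {k ^ m} :=
    Subgroup.mem_inf.mpr ⟨hx, Subgroup.mem_centralizer_singleton_iff.mpr hxc.symm⟩
  rw [hfpf, Subgroup.mem_bot] at this
  exact this

theorem invol_central (h2 : ∃ x y : G, x ≠ 1 ∧ y ≠ 1 ∧ x ≠ y ∧ x * x = 1 ∧ y * y = 1 ∧ x * y = y * x)
    [FaithfulSMul G Ω] {s : G} (hs : s ∈ Cfsg.involutionsIn (stabilizer G a : Set G)) :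
    s ∈ Q ∧ ∀ x ∈ Q, s * x = x * s := by
  have hsQ : s ∈ Q := invol_mem_Q hS hs.1 hs.2.2
  refine ⟨hsQ, ?_⟩
  haveI := Q_nilpotent hS h2
  haveI : Fact (Nat.Prime 2) := ⟨Nat.prime_two⟩
  obtain ⟨T⟩ : Nonempty (Sylow 2 Q) := inferInstance
  haveI hTn : (T : Subgroup Q).Normal := by
    have h := (Group.isNilpotent_of_finite_tfae (G := Q)).out 0 3
    exact (h.mp inferInstance) 2 inferInstance T
  have h2d : 2 ∣ Nat.card Q := hS.even_card.two_dvd
  obtain ⟨z, hzT, hzc, hz1⟩ := exists_center_mem (T : Subgroup Q) (T.ne_bot_of_dvd_card h2d)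
  -- a power of `z` is a central involution
  have hzord : ∃ j, orderOf z = 2 ^ j := by
    obtain ⟨j, hj⟩ := T.isPGroup' ⟨z, hzT⟩
    have hj' : z ^ 2 ^ j = 1 := congrArg Subtype.val hj
    obtain ⟨i, _, hi⟩ := (Nat.dvd_prime_pow Nat.prime_two).mp (orderOf_dvd_of_pow_eq_one hj')
    exact ⟨i, hi⟩
  obtain ⟨j, hj⟩ := hzord
  have hj0 : j ≠ 0 := by
    rintro rfl
    rw [pow_zero, orderOf_eq_one_iff] at hj
    exact hz1 hj
  obtain ⟨i, rfl⟩ := Nat.exists_eq_succ_of_ne_zero hj0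
  set w : Q := z ^ 2 ^ i with hw
  have hw2 : w * w = 1 := by
    rw [hw, ← pow_add, ← two_mul, ← pow_succ', ← hj, pow_orderOf_eq_one]
  have hw1 : w ≠ 1 := by
    intro h
    have h3 := orderOf_dvd_of_pow_eq_one h
    rw [hj] at h3
    have h4 := Nat.le_of_dvd (by positivity) h3
    have h5 : 2 ^ i < 2 ^ (i + 1) := Nat.pow_lt_pow_right (by norm_num) (by omega)
    have h6 : 2 ^ (i + 1) ≤ 2 ^ i := h4
    omega
  have hwc : w ∈ Subgroup.center Q := pow_mem hzc _
  have hwI : (w : G) ∈ Cfsg.involutionsIn (stabilizer G a : Set G) := by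
    refine ⟨hS.le w.2, ?_, ?_⟩
    · intro h; exact hw1 (Subtype.ext h)
    · exact congrArg Subtype.val hw2
  obtain ⟨k, hk, hks⟩ := K_transitive hS hwI hs
  intro x hx
  have hx' : k * x * k⁻¹ ∈ Q := hS.conj_mem k hk.1.1 x hx
  have h3 : (w : G) * (k * x * k⁻¹) = (k * x * k⁻¹) * w := by
    have := (Subgroup.mem_center_iff.mp hwc ⟨_, hx'⟩)
    exact (congrArg Subtype.val this).symm
  rw [← hks]
  calc k⁻¹ * (w : G) * k * x = k⁻¹ * ((w : G) * (k * x * k⁻¹)) * k := by group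
    _ = k⁻¹ * ((k * x * k⁻¹) * w) * k := by rw [h3]
    _ = x * (k⁻¹ * w * k) := by group

end setup

end Cfsg.Agent.H9.RankOne
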