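import Cfsg.Agent.H9.Sieve2

set_option autoImplicit false
set_option maxRecDepth 100000

/-! Table of the orders in `3641 .. 6232` surviving the Sylow sieve. -/

namespace Cfsg.Agent.H9.Tab

open Sieve

def lst3641 : List ℕ := [3648,3696,3744,3780,3960,4032,4080,4200,4212,4320,4400,4536,4620,4680,4760,4800,4928,4960,5040,5104,5148,5376,5400,5460,5472,5600,5616,5724,5760,5880,5940,6048,6072]

theorem tab1 : (List.range 432).all (fun i => checkC (3641 + i) || lst3641.contains (3641 + i)) = true := by decide +kernel
theorem tab2 : (List.range 432).all (fun i => checkC (4073 + i) || lst3641.contains (4073 + i)) = true := by decide +kernel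
theorem tab3 : (List.range 432).all (fun i => checkC (4505 + i) || lst3641.contains (4505 + i)) = true := by decide +kernel
theorem tab4 : (List.range 432).all (fun i => checkC (4937 + i) || lst3641.contains (4937 + i)) = true := by decide +kernel
theorem tab5 : (List.range 432).all (fun i => checkC (5369 + i) || lst3641.contains (5369 + i)) = true := by decide +kernel
theorem tab6 : (List.range 432).all (fun i => checkC (5801 + i) || lst3641.contains (5801 + i)) = true := by decide +kernel

theorem of_tab {a : ℕ} (h : (List.range 432).all (fun i => checkC (a + i) || lst3641.contains (a + i)) = true) {n : ℕ}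
    (h1 : a ≤ n) (h2 : n < a + 432) (hn : checkC n = false) : n ∈ lst3641 := by
  have h3 := List.all_eq_true.mp h (n - a) (List.mem_range.mpr (by omega))
  rw [show a + (n - a) = n by omega, hn, Bool.false_or] at h3
  simpa using h3

theorem mem_lst {n : ℕ} (h1 : 3640 < n) (h2 : n ≤ 6232) (hn : checkC n = false) : n ∈ lst3641 := by
  by_cases c1 : n < 4073
  · exact of_tab tab1 (by omega) (by omega) hn
  by_cases c2 : n < 4505
  · exact of_tab tab2 (by omega) (by omega) hn
  by_cases c3 : n < 4937
  · exact of_tab tab3 (by omega) (by omega) hn
  by_cases c4 : n < 5369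
  · exact of_tab tab4 (by omega) (by omega) hn
  by_cases c5 : n < 5801
  · exact of_tab tab5 (by omega) (by omega) hn
  · exact of_tab tab6 (by omega) (by omega) hn

end Cfsg.Agent.H9.Tab
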